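import Cfsg.Agent.Chars.DegPSubTwo.InvertValues

/-!
# The sign of the principal family is negative
-/

set_option autoImplicit false
set_option linter.unusedSectionVars false

namespace CfsgLib.DegPSubTwo

open Cfsg CfsgLib CfsgLib.Chars CfsgLib.Blocks.OrderP
open scoped ComplexConjugate Classical

universe u

variable {G : Type u} [Group G] [Fintype G] {p : ℕ} [hpr : Fact p.Prime] {u : G}
  {ζ : IrrCharacter G}

theorem bound_left {p a m : ℝ} (hp : 7 ≤ p) (ha : 1 ≤ a) (hm : |m| ≤ a + 1) :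
    m ^ 2 / (a * p + 1) - (m + 1) ^ 2 / (a * p + 1 + (p - 2)) ≤ 4 / p := by
  obtain ⟨h1, h2⟩ := abs_le.1 hm
  have hx : 0 < a * p + 1 := by nlinarith
  have hy : 0 < a * p + 1 + (p - 2) := by linarith
  have key1 : m ^ 2 * (p - 2) ≤ 2 * (a + 1) * (a * p + 1) := by
    have e1 : m ^ 2 ≤ (a + 1) ^ 2 := by nlinarith
    calc m ^ 2 * (p - 2) ≤ (a + 1) ^ 2 * p :=
          mul_le_mul e1 (by linarith) (by linarith) (sq_nonneg _)
      _ ≤ _ := by nlinarith
  have key2 : m ^ 2 / (a * p + 1) - (m + 1) ^ 2 / (a * p + 1 + (p - 2)) ≤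
      (4 * a + 3) / (a * p + 1 + (p - 2)) := by
    rw [div_sub_div _ _ hx.ne' hy.ne', div_le_div_iff₀ (mul_pos hx hy) hy]
    nlinarith [mul_le_mul_of_nonneg_right key1 hy.le, mul_nonneg hx.le hy.le]
  refine key2.trans ?_
  rw [div_le_div_iff₀ hy (by linarith)]
  nlinarith

theorem bound_right {D x : ℝ} (hD : 0 < D) :
    (x + 1) ^ 2 / (D + 1) - x ^ 2 / D ≤ (2 * x + 1) / (D + 1) := by
  have h : x ^ 2 / (D + 1) ≤ x ^ 2 / D := div_le_div_of_nonneg_left (sq_nonneg x) hD (by linarith)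
  have e : (x + 1) ^ 2 / (D + 1) = x ^ 2 / (D + 1) + (2 * x + 1) / (D + 1) := by ring
  linarith

/-- The numerical contradiction. -/
theorem numeric_false {p a m D x R : ℝ} (hp : 7 ≤ p) (ha : 1 ≤ a) (hm : |m| ≤ a + 1) (hD : 0 < D)
    (hR : (2 * x + 1) / (D + 1) ≤ R) (hnum : 1 / (p - 2) + 4 / p + R < 1)
    (hE : 1 / (p - 2) + m ^ 2 / (a * p + 1) - (m + 1) ^ 2 / (a * p + 1 + (p - 2)) =
      1 + x ^ 2 / D - (x + 1) ^ 2 / (D + 1)) : False := by
  have := bound_left hp ha hm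
  have := bound_right (x := x) hD
  linarith

namespace Princ

variable {A : Good p u ζ} {θ : IrrCharacter G} {δ : ℤ} {X : (ZMod p)ˣ → IrrCharacter G}
  (Pr : Princ A θ δ X)
include Pr

theorem p_seven_of_prime : 7 ≤ p := by
  have h := A.base.five_lt
  by_contra h7
  have h6 : p = 6 := by omega
  exact absurd (h6 ▸ hpr.out) (by norm_num)

/-- The degree of `ψ₀` is at least `p + 1`. -/
theorem psi_deg_ne_one (hδ : δ = 1) {ψ₀ : IrrCharacter G} (hov : ψ₀ ∈ overSet ζ) :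
    (ψ₀ : G → ℂ) 1 ≠ 1 := by
  intro h1
  obtain ⟨l, hl⟩ := exists_linChar_eq ψ₀ h1
  have hφval : ∀ g, ((⟨_, isIrrCharacter_linear_mul ζ.2 l⁻¹⟩ : IrrCharacter G) : G → ℂ) g =
      ((l⁻¹ g : ℂˣ) : ℂ) * (ζ : G → ℂ) g := fun g => rfl
  set φ : IrrCharacter G := ⟨_, isIrrCharacter_linear_mul ζ.2 l⁻¹⟩
  have hφ1 : (φ : G → ℂ) 1 = ((p - 2 : ℕ) : ℂ) := by
    rw [hφval, map_one, Units.val_one, one_mul, ← A.base.deg, coe_charDegree]
  have hφov : φ ∈ overSet (oneChar G) := by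
    refine mem_overSet.2 fun z hz => ?_
    have h2 := mem_overSet.1 hov z hz
    rw [cval, h1, div_one, ← hl, linChar_apply] at h2
    rw [cval_oneChar, cval, hφval, hφval, map_one, Units.val_one, one_mul, mul_div_assoc, ← cval,
      ← h2, ← Units.val_mul, MonoidHom.inv_apply, inv_mul_cancel, Units.val_one]
  have hdeg : (charDegree (φ : G → ℂ) : ℤ) = (p : ℤ) - 2 := by
    have e : charDegree (φ : G → ℂ) = p - 2 := Nat.cast_injective (R := ℂ) (by rw [coe_charDegree, hφ1])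
    have := A.base.five_lt
    omega
  have hp7 := Pr.p_seven_of_prime
  have hmod : ∀ n c : ℤ, 0 < c → c < p → (p : ℤ) - 2 = n * p + (c - 2) → False := fun n c hc hcp e => by
    have hd : (p : ℤ) ∣ c := ⟨1 - n, by linear_combination -e⟩
    have := Int.le_of_dvd hc hd
    omega
  obtain ⟨k, hk, -⟩ := Pr.exists_deg
  by_cases e1 : φ = oneChar G
  · rw [e1, oneChar_apply] at hφ1
    have : ((p - 2 : ℕ) : ℂ) = ((1 : ℕ) : ℂ) := by rw [Nat.cast_one, ← hφ1]
    have := Nat.cast_injective this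
    omega
  by_cases e2 : φ = θ
  · rw [← e2, hdeg, hδ] at hk
    exact hmod k 3 (by norm_num) (by omega) (by linear_combination hk)
  by_cases e3 : ∃ j, φ = X j
  · obtain ⟨j, e3⟩ := e3
    have hX := Pr.X_apply_one j
    rw [← e3, ← coe_charDegree φ, ← coe_charDegree θ] at hX
    have hX' : (charDegree (φ : G → ℂ) : ℤ) = (charDegree (θ : G → ℂ) : ℤ) + δ := by exact_mod_cast hX
    rw [hdeg, hk, hδ] at hX'
    exact hmod k 4 (by norm_num) (by omega) (by linear_combination hX')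
  push Not at e3
  obtain ⟨n, -, hn⟩ := Pr.exists_rest_deg (χ := φ) (Finset.mem_sdiff.2 ⟨hφov, by
    simp only [Finset.mem_insert, Finset.mem_image, not_or, not_exists, not_and]
    exact ⟨e1, e2, fun j _ h => e3 j h.symm⟩⟩)
  rw [hdeg] at hn
  exact hmod n 2 (by norm_num) (by omega) (by linear_combination hn)

/-- The principal part of the class sum. -/
theorem classSum_one {t : G} (ht : Inverts u t) :
    classSum u t (oneChar G) = 1 + (θ : G → ℂ) t ^ 2 * δ / (θ : G → ℂ) 1 -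
      ((θ : G → ℂ) t + δ) ^ 2 * δ / ((θ : G → ℂ) 1 + δ) := by
  have hu1 : upow u (1 : ZMod p) = u := upow_one A.base.hu
  have hreg := A.base.not_dvd_orderOf_inverts ht
  have h := Pr.sum_over_one fun χ => (χ : G → ℂ) t ^ 2 * (χ : G → ℂ) u / (χ : G → ℂ) 1
  have hθu : (θ : G → ℂ) u = δ := by
    rw [← hu1]; exact Pr.θ_val 1 one_ne_zero
  have hX : ∀ k, (X k : G → ℂ) t ^ 2 * (X k : G → ℂ) u / (X k : G → ℂ) 1 =
      ((θ : G → ℂ) t + δ) ^ 2 * δ / ((θ : G → ℂ) 1 + δ) * vv p ((k : ZMod p) * 1) := fun k => by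
    rw [Pr.X_reg k t hreg, Pr.X_apply_one]
    conv_lhs => rw [← hu1, Pr.X_val k 1 one_ne_zero]
    ring
  have hrest : ∀ χ ∈ restSet θ X, (χ : G → ℂ) t ^ 2 * (χ : G → ℂ) u / (χ : G → ℂ) 1 = 0 :=
    fun χ hχ => by
      rw [← hu1, Pr.rest_apply hχ one_ne_zero]; ring
  simp only [oneChar_apply, hθu, hX, one_pow, mul_one, div_one, Finset.sum_eq_zero hrest,
    ← Finset.mul_sum] at h
  have hs := sum_units_vv_self (p := p) (one_ne_zero (α := ZMod p))
  simp only [mul_one] at hs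
  rw [hs] at h
  rw [classSum]
  linear_combination (1 / 2 : ℂ) * h

omit Pr in
/-- The part over `ζ`. -/
theorem _root_.CfsgLib.DegPSubTwo.Good.classSum_self (A : Good p u ζ) {t : G} (ht : Inverts u t)
    {ψ₀ ψ₁ : IrrCharacter G} (h0 : ψ₀ ∈ overSet ζ) (h1 : ψ₁ ∈ overSet ζ) (hne : ψ₀ ≠ ψ₁)
    (hc0 : ψ₀ ∉ A.conjs) (hc1 : ψ₁ ∉ A.conjs)
    (hv0 : ∀ i : ZMod p, i ≠ 0 → (ψ₀ : G → ℂ) (upow u i) = 1)
    (hv1 : ∀ i : ZMod p, i ≠ 0 → (ψ₁ : G → ℂ) (upow u i) = -1)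
    (hvan : ∀ χ ∈ overSet ζ, χ ∉ A.conjs → χ ≠ ψ₀ → χ ≠ ψ₁ → ∀ i : ZMod p, i ≠ 0 →
      (χ : G → ℂ) (upow u i) = 0)
    (hreg : ∀ g : G, ¬ p ∣ orderOf g → (ψ₁ : G → ℂ) g = (ψ₀ : G → ℂ) g + (ζ : G → ℂ) g) :
    classSum u t ζ = (ζ : G → ℂ) t ^ 2 / (ζ : G → ℂ) 1 + (ψ₀ : G → ℂ) t ^ 2 / (ψ₀ : G → ℂ) 1 -
      ((ψ₀ : G → ℂ) t + (ζ : G → ℂ) t) ^ 2 / ((ψ₀ : G → ℂ) 1 + (ζ : G → ℂ) 1) := by
  have hu1 : upow u (1 : ZMod p) = u := upow_one A.base.hu
  have htr := A.base.not_dvd_orderOf_inverts ht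
  have h1g : ¬ p ∣ orderOf (1 : G) := by rw [orderOf_one]; exact hpr.out.not_dvd_one
  have hsub : insert ψ₀ (insert ψ₁ A.conjs) ⊆ overSet ζ := by
    intro x hx
    rcases Finset.mem_insert.1 hx with rfl | hx
    · exact h0
    rcases Finset.mem_insert.1 hx with rfl | hx
    · exact h1
    · exact A.conjs_subset hx
  have hW : ∑ χ ∈ A.conjs, (χ : G → ℂ) t ^ 2 * (χ : G → ℂ) (upow u (1 : ZMod p)) / (χ : G → ℂ) 1 =
      (ζ : G → ℂ) t ^ 2 / (ζ : G → ℂ) 1 := by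
    refine mul_left_cancel₀ (two_ne_zero : (2 : ℂ) ≠ 0) ?_
    rw [← A.sum_units_gal fun χ => (χ : G → ℂ) t ^ 2 * (χ : G → ℂ) (upow u (1 : ZMod p)) / (χ : G → ℂ) 1,
      Finset.sum_congr rfl (g := fun k : (ZMod p)ˣ =>
        -((ζ : G → ℂ) t ^ 2 / (ζ : G → ℂ) 1) * vv p ((k : ZMod p) * 1)) fun k _ => by
          rw [A.base.gal_regular k htr, A.base.gal_regular k h1g, A.gal_val k one_ne_zero]
          ring,
      ← Finset.mul_sum, sum_units_vv_self one_ne_zero]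
    ring
  rw [classSum, ← hu1, ← Finset.sum_sdiff hsub, Finset.sum_eq_zero fun χ hχ => ?_,
    Finset.sum_insert (by simp [hne, hc0]), Finset.sum_insert hc1, hW, hv0 1 one_ne_zero,
    hv1 1 one_ne_zero, hreg t htr, hreg 1 h1g]
  · ring
  · obtain ⟨hχ1, hχ2⟩ := Finset.mem_sdiff.1 hχ
    simp only [Finset.mem_insert, not_or] at hχ2
    rw [hvan χ hχ1 hχ2.2.2 hχ2.1 hχ2.2.1 1 one_ne_zero]
    ring

/-- The values at `t` when `p = 7`. -/
theorem seven_case (hp : p = 7) (hδ : δ = 1) {k : ℕ} (hk : (charDegree (θ : G → ℂ) : ℤ) = k * p + δ)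
    (hk1 : 1 ≤ k) {t : G} (ht : Inverts u t) {x : ℤ} (hx : (θ : G → ℂ) t = x) {ν : ℂ}
    (hν : ‖ν‖ = 1) (hνt : (ζ : G → ℂ) t = ν) : k = 1 ∧ x + 1 ≤ 1 := by
  subst hp hδ
  obtain ⟨c, R, hR, -⟩ := Pr.exists_tensor
  choose n hn1 hn using fun χ (hχ : χ ∈ restSet θ X) => Pr.exists_rest_deg hχ
  set N : ℕ := ∑ χ ∈ (restSet θ X).attach, R χ.1 * n χ.1 χ.2 with hN
  have hθ1 : (θ : G → ℂ) 1 = (k : ℂ) * 7 + 1 := by
    rw [← coe_charDegree]
    exact_mod_cast hk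
  have h1 := hR 1 (by rw [orderOf_one]; norm_num)
  have hsum1 : ∑ χ ∈ restSet θ X, (R χ : ℂ) * (χ : G → ℂ) 1 = (N : ℂ) * 7 := by
    rw [hN, ← Finset.sum_attach, Nat.cast_sum, Finset.sum_mul]
    refine Finset.sum_congr rfl fun χ _ => ?_
    have e : ((charDegree ((χ.1 : IrrCharacter G) : G → ℂ) : ℤ) : ℂ) = ((n χ.1 χ.2 * 7 : ℤ) : ℂ) :=
      congrArg Int.cast (hn χ.1 χ.2)
    rw [Int.cast_natCast, coe_charDegree] at e
    rw [e]
    push_cast
    ring
  rw [hsum1, hθ1, conj_map_one (isCharacter_coe ζ), ← coe_charDegree ζ, A.base.deg] at h1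
  have h1' : (50 : ℤ) = 2 * c * ((k : ℤ) * 7 + 1) + (6 * c + 4) * ((k : ℤ) * 7 + 2) + 14 * N := by
    apply Int.cast_injective (α := ℂ)
    push_cast at h1 ⊢
    norm_num at h1 ⊢
    linear_combination h1
  have hc : c = 0 := by
    by_contra hc
    have : (1 : ℤ) ≤ c := by exact_mod_cast Nat.pos_of_ne_zero hc
    nlinarith
  subst hc
  have hk' : k = 1 ∧ N = 1 := by
    push_cast at h1'
    omega
  refine ⟨hk'.1, ?_⟩
  have h2 := hR t (A.base.not_dvd_orderOf_inverts ht)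
  rw [hνt, hx, Complex.mul_conj, Complex.normSq_eq_norm_sq, hν] at h2
  have hb : ‖∑ χ ∈ restSet θ X, (R χ : ℂ) * (χ : G → ℂ) t‖ ≤ (N : ℝ) := by
    rw [← Finset.sum_attach, hN, Nat.cast_sum]
    refine (norm_sum_le _ _).trans (Finset.sum_le_sum fun χ _ => ?_)
    rw [norm_mul, Complex.norm_natCast, Nat.cast_mul]
    exact mul_le_mul_of_nonneg_left (Pr.norm_rest_le ht χ.2 (hn χ.1 χ.2)) (Nat.cast_nonneg _)
  rw [show ∑ χ ∈ restSet θ X, (R χ : ℂ) * (χ : G → ℂ) t = ((1 - 2 * (x + 1) : ℤ) : ℂ) by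
    push_cast at h2 ⊢
    linear_combination (-1 / 2 : ℂ) * h2, Complex.norm_intCast, hk'.2, ← Int.cast_abs] at hb
  have : |1 - 2 * (x + 1)| ≤ 1 := by exact_mod_cast hb
  rw [abs_le] at this
  omega

/-- **The sign is `-1`.** -/
theorem delta_eq : δ = -1 := by
  refine Pr.hδ.resolve_left fun hδ => ?_
  have hp7 := Pr.p_seven_of_prime
  obtain ⟨t, ht⟩ := A.base.exists_inverts
  obtain ⟨ν, hν, hνt, hνc⟩ := A.exists_nu ht
  have hν0 : ν ≠ 0 := fun e => by rw [e, norm_zero] at hν; exact zero_ne_one hν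
  obtain ⟨ψ₀, ψ₁, k₀, h0, h1, hne, hc0, hc1, hv0, hv1, hvan, hreg, hψ1⟩ := A.exists_psi
  have hk0 : 1 ≤ k₀ := Nat.pos_of_ne_zero fun e =>
    Pr.psi_deg_ne_one hδ h0 (by rw [hψ1, e, Nat.cast_zero, zero_mul, zero_add])
  obtain ⟨m, hm, hmt⟩ := A.base.exists_mult_inverts ht ψ₀ (a := k₀ + 1)
    (by rw [A.base.sum_upow_const hv0, hψ1]; push_cast; ring) hν
    (by rw [← hνc]; exact mem_overSet.1 h0 _ ht.sq)
  obtain ⟨k, hk, -⟩ := Pr.exists_deg
  have hθ1 : (θ : G → ℂ) 1 = (k : ℂ) * p + 1 := by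
    rw [← coe_charDegree]
    rw [hδ] at hk
    exact_mod_cast hk
  obtain ⟨x, hxt⟩ := Pr.θ_int t
  have hxb : |x| ≤ (k : ℤ) + 1 := by
    have h := A.base.norm_apply_inverts_le ht (isCharacter_coe θ) (a := k + 1)
      (by rw [A.base.sum_upow_const Pr.θ_val, hθ1, hδ]; push_cast; ring)
    rw [hxt, Complex.norm_intCast] at h
    exact_mod_cast h
  -- the equation
  have hf : (ζ : G → ℂ) 1 = (p : ℂ) - 2 := by
    rw [← coe_charDegree, A.base.deg, Nat.cast_sub (by omega), Nat.cast_two]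
  have h := A.base.classSum_eq ht (by rw [hνt]; exact hν0)
  rw [A.classSum_self ht h0 h1 hne hc0 hc1 hv0 hv1 hvan hreg, Pr.classSum_one ht, hνc, hνt, hmt,
    hψ1, hf, hxt, hθ1, hδ] at h
  have hE : (1 : ℂ) / ((p : ℂ) - 2) + (m : ℂ) ^ 2 / ((k₀ : ℂ) * p + 1) -
      ((m : ℂ) + 1) ^ 2 / ((k₀ : ℂ) * p + 1 + ((p : ℂ) - 2)) =
      1 + (x : ℂ) ^ 2 / ((k : ℂ) * p + 1) - ((x : ℂ) + 1) ^ 2 / ((k : ℂ) * p + 1 + 1) := by
    refine mul_left_cancel₀ (pow_ne_zero 2 hν0) ?_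
    push_cast at h
    linear_combination h
  have hE' : (1 : ℝ) / ((p : ℝ) - 2) + (m : ℝ) ^ 2 / ((k₀ : ℝ) * p + 1) -
      ((m : ℝ) + 1) ^ 2 / ((k₀ : ℝ) * p + 1 + ((p : ℝ) - 2)) =
      1 + (x : ℝ) ^ 2 / ((k : ℝ) * p + 1) - ((x : ℝ) + 1) ^ 2 / ((k : ℝ) * p + 1 + 1) := by
    apply Complex.ofReal_injective
    push_cast
    exact hE
  have hm' : |(m : ℝ)| ≤ (k₀ : ℝ) + 1 := by exact_mod_cast hm
  have hx' : |(x : ℝ)| ≤ (k : ℝ) + 1 := by exact_mod_cast hxb
  have hk0' : (1 : ℝ) ≤ k₀ := by exact_mod_cast hk0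
  have hp' : (7 : ℝ) ≤ p := by exact_mod_cast hp7
  have hD : (0 : ℝ) < (k : ℝ) * p + 1 := by positivity
  rcases Nat.eq_zero_or_pos k with hk00 | hk1
  · -- `θ` is linear
    subst hk00
    rw [Nat.cast_zero, zero_mul, zero_add] at hθ1
    obtain ⟨l, hl⟩ := exists_linChar_eq θ hθ1
    have hx2 : x ^ 2 = 1 := by
      apply Int.cast_injective (α := ℂ)
      have h3 := apply_center_mul_of_mem Pr.θ_mem ht.sq 1
      rw [mul_one, hθ1, ← hl, linChar_apply, map_mul, Units.val_mul] at h3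
      rw [← hl, linChar_apply] at hxt
      push_cast
      rw [← hxt, pow_two, h3]
    rcases sq_eq_one_iff.1 hx2 with rfl | rfl
    · -- `x = 1`: the kernel contains `N(P)`
      apply Pr.θ_ne
      rw [← hl, linChar_eq_oneChar_iff]
      rw [← hl] at hxt
      have hlt : t ∈ l.ker := by
        rw [MonoidHom.mem_ker]
        exact Units.ext (by simpa using hxt)
      have hlu : u ∈ l.ker := by
        rw [MonoidHom.mem_ker]
        refine Units.ext ?_
        have h4 := Pr.θ_val 1 one_ne_zero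
        rw [upow_one A.base.hu, ← hl, hδ] at h4
        simpa using h4
      have hlz : ∀ z ∈ Subgroup.center G, z ∈ l.ker := fun z hz => by
        rw [MonoidHom.mem_ker]
        refine Units.ext ?_
        have h3 := apply_center_mul_of_mem Pr.θ_mem hz 1
        rw [mul_one, hθ1, ← hl] at h3
        simpa using h3
      have hP : IsPGroup p (Subgroup.zpowers u) :=
        IsPGroup.of_card (n := 1) (by rw [Nat.card_zpowers, A.base.hu, pow_one])
      have hle : ((hP.toSylow A.base.hidx : Sylow p G) : Subgroup G) ≤ l.ker :=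
        Subgroup.zpowers_le.2 hlu
      have htop := Sylow.normalizer_sup_eq_top' (hP.toSylow A.base.hidx) hle
      have hNle : Subgroup.normalizer (((hP.toSylow A.base.hidx : Sylow p G) : Subgroup G) : Set G) ≤
          l.ker := by
        intro g hg
        have hgu : g * u * g⁻¹ ∈ Subgroup.zpowers u :=
          (Subgroup.mem_normalizer_iff.1 hg u).1 (Subgroup.mem_zpowers u)
        have hc : ∀ c : G, c * u = u * c → c ∈ l.ker := fun c hc => by
          obtain ⟨i, z, rfl⟩ := A.base.cent_upow hc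
          exact mul_mem (pow_mem hlu _) (hlz _ z.2)
        rcases A.base.fusion g hgu with e | e
        · exact hc g (mul_inv_eq_iff_eq_mul.1 e)
        · have h5 : t⁻¹ * g ∈ l.ker := hc _ (by
            calc t⁻¹ * g * u = t⁻¹ * (g * u * g⁻¹) * g := by group
              _ = t⁻¹ * (t * u * t⁻¹) * g := by rw [e, ht.inv_eq]
              _ = u * (t⁻¹ * g) := by group)
          simpa using mul_mem hlt h5
      exact MonoidHom.ker_eq_top_iff.1 (top_le_iff.1 (htop ▸ sup_le hNle le_rfl))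
    · have hb := bound_left hp' hk0' hm'
      have e1 : 1 / ((p : ℝ) - 2) ≤ 1 / 5 := one_div_le_one_div_of_le (by norm_num) (by linarith)
      have e2 : 4 / (p : ℝ) ≤ 4 / 7 := div_le_div_of_nonneg_left (by norm_num) (by norm_num) hp'
      norm_num at hE' e1
      linarith
  · have hk1' : (1 : ℝ) ≤ k := by exact_mod_cast hk1
    rcases eq_or_ne p 7 with hp | hp
    · obtain ⟨rfl, hx1⟩ := Pr.seven_case hp hδ hk hk1 ht hxt hν hνt
      have hx1' : (x : ℝ) + 1 ≤ 1 := by exact_mod_cast hx1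
      have hp'' : (p : ℝ) = 7 := by exact_mod_cast hp
      refine numeric_false hp' hk0' hm' hD (R := 1 / 9) ?_ ?_ hE'
      · rw [hp'', Nat.cast_one, div_le_div_iff₀ (by norm_num) (by norm_num)]
        linarith
      · rw [hp'']; norm_num
    · have hp11 : 11 ≤ p := by
        by_contra h11
        have : p = 8 ∨ p = 9 ∨ p = 10 := by omega
        rcases this with e | e | e <;> exact absurd (e ▸ hpr.out) (by norm_num)
      have hp11' : (11 : ℝ) ≤ p := by exact_mod_cast hp11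
      refine numeric_false hp' hk0' hm' hD (R := 5 / ((p : ℝ) + 2)) ?_ ?_ hE'
      · rw [div_le_div_iff₀ (by positivity) (by positivity)]
        obtain ⟨-, hx2⟩ := abs_le.1 hx'
        nlinarith
      · have e1 : 1 / ((p : ℝ) - 2) ≤ 1 / 9 := one_div_le_one_div_of_le (by norm_num) (by linarith)
        have e2 : 4 / (p : ℝ) ≤ 4 / 11 := div_le_div_of_nonneg_left (by norm_num) (by norm_num) hp11'
        have e3 : 5 / ((p : ℝ) + 2) ≤ 5 / 13 :=
          div_le_div_of_nonneg_left (by norm_num) (by norm_num) (by linarith)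
        linarith

end Princ

end CfsgLib.DegPSubTwo
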