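import Cfsg.Agent.Chars.DegPSubTwo.CaseA
import Cfsg.Agent.Chars.Ito.AltSquare
import Cfsg.Agent.Constrained.PSolvable
import Cfsg.Agent.S4468

/-!
# The order of the group
-/

set_option autoImplicit false
set_option linter.unusedSectionVars false

namespace CfsgLib.DegPSubTwo

open Cfsg CfsgLib CfsgLib.Chars CfsgLib.Blocks.OrderP
open scoped ComplexConjugate Classical

universe u

variable {G : Type u} [Group G] [Fintype G] {p : ℕ} [hpr : Fact p.Prime] {u : G}
  {ζ : IrrCharacter G}

theorem card_sub_re_sq_le {s : Multiset ℂ} (h : ∀ z ∈ s, ‖z‖ = 1) :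
    (s.card : ℝ) - (s.map fun z => z ^ 2).sum.re ≤ 4 * ((s.card : ℝ) - s.sum.re) := by
  induction s using Multiset.induction_on with
  | empty => simp
  | cons z r ih =>
    have ih := ih fun y hy => h y (Multiset.mem_cons_of_mem hy)
    rw [Multiset.map_cons, Multiset.sum_cons, Multiset.sum_cons, Multiset.card_cons]
    push_cast [Complex.add_re]
    have h1 : z.re * z.re + z.im * z.im = 1 := by
      rw [← Complex.normSq_apply, Complex.normSq_eq_norm_sq, h z (Multiset.mem_cons_self _ _)]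
      simp
    have h2 : (z ^ 2).re = z.re * z.re - z.im * z.im := by rw [pow_two, Complex.mul_re]
    nlinarith [sq_nonneg (z.re - 1)]

namespace Princ

variable {A : Good p u ζ} {θ : IrrCharacter G} {δ : ℤ} {X : (ZMod p)ˣ → IrrCharacter G}
  (Pr : Princ A θ δ X)
include Pr

theorem theta_singular {g : G} (hg : p ∣ orderOf g) : (θ : G → ℂ) g = δ := by
  obtain ⟨x, i, hi, z, rfl⟩ := A.base.exists_conj_of_dvd hg
  rw [isClassFunction_coe θ, Subgroup.mem_center_iff.1 z.2 (upow u i),
    apply_center_mul_of_mem Pr.θ_mem z.2, Pr.θ_val i hi]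

theorem sum_theta : ∑ g : G, (θ : G → ℂ) g = 0 := by
  have h := classInner_of_ne Pr.θ_ne
  simp only [classInner, oneChar_apply, map_one, mul_one] at h
  exact (mul_eq_zero.1 h).resolve_left (inv_ne_zero Chars.natCard_ne_zero)

theorem sum_theta_sq : ∑ g : G, (θ : G → ℂ) g ^ 2 = Nat.card G := by
  have h := classInner_self θ
  simp only [classInner] at h
  rw [inv_mul_eq_one₀ Chars.natCard_ne_zero] at h
  rw [h]
  refine Finset.sum_congr rfl fun g _ => ?_
  obtain ⟨m, hm⟩ := Pr.θ_int g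
  rw [hm, map_intCast, pow_two]

omit Pr in
theorem _root_.CfsgLib.DegPSubTwo.Base.two_mul_card_singular_lt (B : Base p u ζ) :
    2 * (Finset.univ.filter fun g : G => p ∣ orderOf g).card < Fintype.card G := by
  have h := B.card_singular
  set n := (Finset.univ.filter fun g : G => p ∣ orderOf g).card with hn
  have h' : n * (2 * p) + Nat.card G = Nat.card G * p := by
    apply Nat.cast_injective (R := ℂ)
    push_cast
    linear_combination h
  rw [← Nat.card_eq_fintype_card]
  have hG : 0 < Nat.card G := Nat.card_pos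
  have hp := hpr.out.pos
  nlinarith

/-- The degree of `θ` is `p - 1`. -/
theorem theta_one : (θ : G → ℂ) 1 = (p : ℂ) - 1 := by
  have hδ := Pr.delta_eq
  have hp7 := Pr.p_seven_of_prime
  obtain ⟨k, hk, hk1⟩ := Pr.exists_deg
  have hk1 := hk1 hδ
  have hθ : (θ : G → ℂ) 1 = (k : ℂ) * p - 1 := by
    rw [← coe_charDegree]
    rw [hδ] at hk
    exact_mod_cast hk
  suffices k = 1 by rw [hθ, this, Nat.cast_one, one_mul]
  obtain ⟨c, R, hR, hcδ⟩ := Pr.exists_tensor
  have hc : 1 ≤ (c : ℤ) := by omega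
  have h1 := hR 1 (by rw [orderOf_one]; exact hpr.out.not_dvd_one)
  set N : ℕ := ∑ χ ∈ restSet θ X, R χ * charDegree (χ : G → ℂ) with hN
  have hsum : ∑ χ ∈ restSet θ X, (R χ : ℂ) * (χ : G → ℂ) 1 = (N : ℂ) := by
    rw [hN, Nat.cast_sum]
    exact Finset.sum_congr rfl fun χ _ => by rw [Nat.cast_mul, coe_charDegree]
  rw [hsum, hθ, conj_map_one (isCharacter_coe ζ), ← coe_charDegree ζ, A.base.deg, hδ,
    Nat.cast_sub (by omega), Nat.cast_two] at h1
  have h1' : 2 * ((p : ℤ) - 2) ^ 2 =
      2 * (c : ℤ) * ((k : ℤ) * p - 1) + (((p : ℤ) - 1) * c - 4) * ((k : ℤ) * p - 2) + 2 * N := by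
    apply Int.cast_injective (α := ℂ)
    push_cast at h1 ⊢
    linear_combination h1
  have hP : (7 : ℤ) ≤ p := by exact_mod_cast hp7
  have hk2 : k ≤ 2 := by
    by_contra hk3
    have hk3' : (3 : ℤ) ≤ k := by omega
    have e1 : 3 * (p : ℤ) ≤ k * p := by nlinarith
    have e2 : (2 * ((k : ℤ) * p - 1) + ((p : ℤ) - 1) * ((k : ℤ) * p - 2)) * 1 ≤
        (2 * ((k : ℤ) * p - 1) + ((p : ℤ) - 1) * ((k : ℤ) * p - 2)) * c :=
      mul_le_mul_of_nonneg_left hc (by nlinarith)
    nlinarith
  interval_cases k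
  · rfl
  exfalso
  push_cast at h1'
  have hc1 : c = 1 ∧ N = 0 := by
    have hz : (0 : ℤ) = 2 * (p : ℤ) ^ 2 * ((c : ℤ) - 1) + 2 * N := by linear_combination h1'
    have hc' : (c : ℤ) ≤ 1 := by nlinarith
    exact ⟨by omega, by nlinarith⟩
  obtain ⟨rfl, hN0⟩ := hc1
  have hR0 : ∀ χ ∈ restSet θ X, R χ = 0 := fun χ hχ => by
    have := (Finset.sum_eq_zero_iff.1 (hN ▸ hN0)) χ hχ
    exact (Nat.mul_eq_zero.1 this).resolve_right (charDegree_pos χ).ne'
  have hpos : ∀ g : G, ¬ p ∣ orderOf g → ∀ m : ℤ, (θ : G → ℂ) g = m → 1 ≤ m := by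
    intro g hg m hm
    have h := hR g hg
    rw [Finset.sum_eq_zero fun χ hχ => by rw [hR0 χ hχ, Nat.cast_zero, zero_mul], mul_zero,
      add_zero, hm, Complex.mul_conj, hδ] at h
    have h' : 2 * Complex.normSq ((ζ : G → ℂ) g) + ((p : ℝ) - 5) = ((p : ℝ) - 3) * m := by
      apply Complex.ofReal_injective
      push_cast at h ⊢
      linear_combination h
    have hpR : (7 : ℝ) ≤ p := by exact_mod_cast hp7
    have := Complex.normSq_nonneg ((ζ : G → ℂ) g)
    have hm0 : (0 : ℝ) < m := by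
      by_contra hm0
      push Not at hm0
      nlinarith
    exact_mod_cast hm0
  -- `θ` has positive sum
  choose f hf using Pr.θ_int
  have hsum0 : ∑ g : G, f g = 0 := by
    apply Int.cast_injective (α := ℂ)
    push_cast
    simp only [← hf]
    exact Pr.sum_theta
  have hle : ∀ g : G, (if p ∣ orderOf g then (-1 : ℤ) else 1) ≤ f g := fun g => by
    by_cases hg : p ∣ orderOf g
    · rw [if_pos hg]
      have e := (hf g).symm.trans (Pr.theta_singular hg)
      rw [hδ] at e
      exact (Int.cast_injective e).symm.le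
    · rw [if_neg hg]; exact hpos g hg _ (hf g)
  have h2 := Finset.sum_le_sum (s := (Finset.univ : Finset G)) fun g _ => hle g
  rw [hsum0, Finset.sum_ite, Finset.sum_const, Finset.sum_const] at h2
  have h3 := A.base.two_mul_card_singular_lt
  have h4 := Finset.card_filter_add_card_filter_not (s := (Finset.univ : Finset G))
    (fun g : G => p ∣ orderOf g)
  rw [Finset.card_univ] at h4
  simp only [nsmul_eq_mul, mul_neg, mul_one] at h2
  omega

/-- The alternating square of `θ` on the regular elements. -/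
theorem theta_sq_relation {g : G} (hg : ¬ p ∣ orderOf g) :
    (θ : G → ℂ) (g * g) =
      (θ : G → ℂ) g ^ 2 - ((p : ℂ) - 1) * (θ : G → ℂ) g + ((p : ℂ) - 1) := by
  have hδ := Pr.delta_eq
  have hθ1 := Pr.theta_one
  have hp7 := Pr.p_seven_of_prime
  obtain ⟨t, ht⟩ := A.base.exists_inverts
  set F := Ito.altSq (θ : G → ℂ) with hF
  have hFch : IsCharacter G F := Ito.isCharacter_altSq (isCharacter_coe θ)
  have hFc := isClassFunction_of_isCharacter hFch
  have hZ : ∀ z ∈ Subgroup.center G, ∀ g, F (z * g) = F g := fun z hz g => by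
    simp only [hF, Ito.altSq, apply_center_mul_of_mem Pr.θ_mem hz,
      show z * g * (z * g) = (z * z) * (g * g) by
        rw [mul_assoc, ← mul_assoc g z, Subgroup.mem_center_iff.1 hz g]; group,
      apply_center_mul_of_mem Pr.θ_mem (mul_mem hz hz)]
  have hFu : ∀ i : ZMod p, i ≠ 0 → F (upow u i) = 1 := by
    intro i hi
    have h2 : upow u i * upow u i = upow u (2 * i) := by
      rw [← pow_two, upow_pow A.base.hu, mul_comm, Nat.cast_two]
    simp only [hF, Ito.altSq, h2, Pr.θ_val i hi,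
      Pr.θ_val _ (mul_ne_zero (two_ne_zero_zmod A.base.five_lt) hi), hδ]
    norm_num
  obtain ⟨q, hq⟩ := hpr.out.odd_of_ne_two (by omega)
  have hqC : (p : ℂ) = 2 * (q : ℂ) + 1 := by exact_mod_cast hq
  have hF1 : F 1 = ((p : ℂ) - 1) * ((p : ℂ) - 2) / 2 := by
    simp only [hF, Ito.altSq, mul_one, hθ1]
    ring
  have hc1 : classInner F (oneChar G : G → ℂ) = 0 := by
    by_contra hne
    obtain ⟨F', hF', e⟩ := exists_add_of_classInner_ne_zero hFch (oneChar G) hne
    have hF'v : ∀ x, F' x = F x - 1 := fun x => by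
      have := congrFun e x
      rw [Pi.add_apply, oneChar_apply] at this
      linear_combination -this
    have hnorm := A.base.norm_apply_inverts_le ht hF' (a := q - 1) (by
      rw [A.base.sum_upow_const (c := 0) fun i hi => by rw [hF'v, hFu i hi, sub_self],
        hF'v, hF1, Nat.cast_sub (by omega), hqC]
      push_cast
      ring)
    have ht0 : (θ : G → ℂ) t = 0 := by
      have h := A.base.norm_apply_inverts_le ht (isCharacter_coe θ) (a := 0)
        (by rw [A.base.sum_upow_const Pr.θ_val, hθ1, hδ]; push_cast; ring)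
      simpa using h
    have htt : (θ : G → ℂ) (t * t) = (p : ℂ) - 1 := by
      have := apply_center_mul_of_mem Pr.θ_mem ht.sq 1
      rwa [mul_one, hθ1] at this
    rw [hF'v, show F t = ((-q : ℤ) : ℂ) by
      simp only [hF, Ito.altSq, ht0, htt, hqC]; push_cast; ring,
      show ((-q : ℤ) : ℂ) - 1 = ((-(q + 1 : ℤ) : ℤ) : ℂ) by push_cast; ring,
      Complex.norm_intCast, Int.cast_neg, abs_neg, Nat.cast_sub (by omega)] at hnorm
    push_cast at hnorm
    rw [abs_of_nonneg (by positivity)] at hnorm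
    linarith
  obtain ⟨c, hc⟩ := exists_nat_classInner hFch θ
  choose R hR using exists_nat_classInner hFch
  have hs : ∀ i : ZMod p, i ≠ 0 → ∑ k : (ZMod p)ˣ, vv p ((k : ZMod p) * i) = -2 :=
    fun i hi => sum_units_vv_self hi
  have hco : ∀ k, classInner F (X k : G → ℂ) = 1 + (c : ℂ) := by
    have hdiff : ∀ k, classInner F (X k : G → ℂ) = classInner F (X 1 : G → ℂ) := fun k => by
      have h := Pr.coeff_sub hFc hZ k 1
      rw [Finset.sum_congr rfl fun (i : (ZMod p)ˣ) _ => by rw [hFu _ i.ne_zero, one_mul],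
        Finset.sum_sub_distrib, hs _ k.ne_zero, hs _ (Units.ne_zero _), sub_self, mul_zero] at h
      refine sub_eq_zero.1 ((mul_eq_zero.1 h).resolve_left ?_)
      exact mul_ne_zero two_ne_zero (Nat.cast_ne_zero.2 hpr.out.ne_zero)
    have h := Pr.expand_upow hFc hZ (i := 1) one_ne_zero
    rw [hc1, hc, hFu 1 one_ne_zero, Finset.sum_congr rfl fun k _ => by rw [hdiff k],
      ← Finset.mul_sum, ← Finset.mul_sum, hs 1 one_ne_zero, hδ] at h
    push_cast at h
    intro k
    linear_combination hdiff k - (1 / 2 : ℂ) * h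
  have key : ∀ x : G, ¬ p ∣ orderOf x → 2 * F x = 2 * (c : ℂ) * (θ : G → ℂ) x +
      ((p : ℂ) - 1) * (1 + c) * ((θ : G → ℂ) x - 1) +
      2 * ∑ χ ∈ restSet θ X, (R χ : ℂ) * (χ : G → ℂ) x := fun x hx => by
    have h := Pr.expand_regular hFc hZ hx
    rw [hc1, hc, Finset.sum_congr rfl fun k _ => hco k, Finset.sum_const, Finset.card_univ,
      ZMod.card_units, nsmul_eq_mul, Nat.cast_sub hpr.out.pos, hδ] at h
    simp only [hR] at h
    push_cast at h
    linear_combination h
  have h1 := key 1 (by rw [orderOf_one]; exact hpr.out.not_dvd_one)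
  set N : ℕ := ∑ χ ∈ restSet θ X, R χ * charDegree (χ : G → ℂ) with hN
  have hsum : ∑ χ ∈ restSet θ X, (R χ : ℂ) * (χ : G → ℂ) 1 = (N : ℂ) := by
    rw [hN, Nat.cast_sum]
    exact Finset.sum_congr rfl fun χ _ => by rw [Nat.cast_mul, coe_charDegree]
  rw [hsum, hF1, hθ1] at h1
  have h1' : (0 : ℤ) = c * (((p : ℤ) - 1) * p) + 2 * N := by
    apply Int.cast_injective (α := ℂ)
    push_cast
    linear_combination h1
  have hP : (7 : ℤ) ≤ p := by exact_mod_cast hp7
  have hc0 : c = 0 ∧ N = 0 := by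
    have e : (0 : ℤ) < ((p : ℤ) - 1) * p := by nlinarith
    have hcz : (c : ℤ) = 0 := by nlinarith
    exact ⟨by omega, by nlinarith⟩
  obtain ⟨rfl, hN0⟩ := hc0
  have h := key g hg
  rw [Finset.sum_eq_zero (s := restSet θ X) fun χ hχ => by
    have := (Finset.sum_eq_zero_iff.1 (hN ▸ hN0)) χ hχ
    rw [(Nat.mul_eq_zero.1 this).resolve_right (charDegree_pos χ).ne', Nat.cast_zero, zero_mul]] at h
  simp only [hF, Ito.altSq] at h
  push_cast at h
  linear_combination -h

/-- The values of `θ` on the regular elements. -/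
theorem theta_regular {g : G} (hg : ¬ p ∣ orderOf g) {m : ℤ} (hm : (θ : G → ℂ) g = m) :
    m = 0 ∨ m = 1 ∨ m = (p : ℤ) - 1 := by
  have hp7 : (7 : ℤ) ≤ p := by exact_mod_cast Pr.p_seven_of_prime
  have hθ1 := Pr.theta_one
  have hreg2 : ∀ x : G, ¬ p ∣ orderOf x → ¬ p ∣ orderOf (x * x) := fun x hx h =>
    hx (h.trans (by rw [← pow_two]; exact orderOf_pow_dvd 2))
  have hsq : ∀ x : G, ¬ p ∣ orderOf x → ∀ a b : ℤ, (θ : G → ℂ) x = a → (θ : G → ℂ) (x * x) = b →
      b = a ^ 2 - ((p : ℤ) - 1) * a + ((p : ℤ) - 1) := fun x hx a b ha hb => by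
    apply Int.cast_injective (α := ℂ)
    push_cast
    rw [← ha, ← hb]
    exact Pr.theta_sq_relation hx
  have hle : ∀ (x : G) (a : ℤ), (θ : G → ℂ) x = a → a ≤ (p : ℤ) - 1 := fun x a ha => by
    have h := norm_apply_le (isCharacter_coe θ) x
    rw [ha, hθ1, show (p : ℂ) - 1 = (((p : ℤ) - 1 : ℤ) : ℂ) by push_cast; ring,
      Complex.norm_intCast, Complex.norm_intCast] at h
    have h' : |a| ≤ |(p : ℤ) - 1| := by exact_mod_cast h
    rw [abs_of_nonneg (show (0 : ℤ) ≤ (p : ℤ) - 1 by omega)] at h'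
    exact (abs_le.1 h').2
  have hnn : ∀ (x : G) (a : ℤ), ¬ p ∣ orderOf x → (θ : G → ℂ) x = a → 0 ≤ a := fun x a hx ha => by
    obtain ⟨b, hb⟩ := Pr.θ_int (x * x)
    have h1 := hsq x hx a b ha hb
    have h2 := hle _ b hb
    by_contra hneg
    push Not at hneg
    nlinarith
  obtain ⟨b, hb⟩ := Pr.θ_int (g * g)
  have h1 := hsq g hg m b hm hb
  have h2 := hnn _ b (hreg2 g hg) hb
  have h3 := hnn g m hg hm
  have h4 := hle g m hm
  have h5 : m ≤ 1 ∨ (p : ℤ) - 2 ≤ m := by
    by_contra hh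
    push Not at hh
    nlinarith [mul_nonneg (show (0 : ℤ) ≤ m - 2 by omega) (show (0 : ℤ) ≤ (p : ℤ) - 3 - m by omega)]
  rcases h5 with h5 | h5
  · omega
  rcases Int.lt_or_eq_of_le h4 with h6 | h6
  · exfalso
    have hm' : m = (p : ℤ) - 2 := by omega
    subst hm'
    have hb1 : b = 1 := by rw [h1]; ring
    obtain ⟨s, hs1, hs2, hs3⟩ := exists_roots (isCharacter_coe θ) g
    have hsum : s.sum = (((p : ℤ) - 2 : ℤ) : ℂ) := by
      rw [← hm]; simpa using (hs3 1).symm
    have hsum2 : (s.map fun z => z ^ 2).sum = (b : ℂ) := by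
      rw [← hb, ← hs3 2, pow_two]
    have h := card_sub_re_sq_le (s := s) fun z hz => norm_eq_one_of_pow_orderOf (hs1 z hz)
    have hcard : (s.card : ℝ) = (p : ℝ) - 1 := by
      apply Complex.ofReal_injective
      push_cast
      rw [hs2, hθ1]
    rw [hsum, hsum2, hb1, Complex.intCast_re, Complex.intCast_re, hcard] at h
    push_cast at h
    have : (7 : ℝ) ≤ p := by exact_mod_cast Pr.p_seven_of_prime
    linarith
  · omega

/-- The order in terms of the kernel of `θ`. -/
theorem card_eq_mul_charKer :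
    Nat.card G = p * (p - 1) * (p - 2) * Nat.card (charKer (θ : G → ℂ)) := by
  have hp7 := Pr.p_seven_of_prime
  have hθ1 := Pr.theta_one
  have hδ := Pr.delta_eq
  have hpC : (p : ℂ) ≠ 0 := Nat.cast_ne_zero.2 hpr.out.ne_zero
  have hterm : ∀ g : G, (θ : G → ℂ) g ^ 2 - (θ : G → ℂ) g =
      (if (θ : G → ℂ) g = (θ : G → ℂ) 1 then ((p : ℂ) - 1) * ((p : ℂ) - 2) else 0) +
        if p ∣ orderOf g then 2 else 0 := by
    intro g
    by_cases hg : p ∣ orderOf g
    · rw [if_pos hg, Pr.theta_singular hg, hδ, if_neg]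
      · norm_num
      · rw [hθ1]
        intro e
        have : ((p : ℕ) : ℂ) = ((0 : ℕ) : ℂ) := by push_cast at e ⊢; linear_combination -e
        exact hpr.out.ne_zero (Nat.cast_injective this)
    · rw [if_neg hg, add_zero]
      obtain ⟨m, hm⟩ := Pr.θ_int g
      have hne : ∀ j : ℕ, j < 2 → ((j : ℤ) : ℂ) ≠ (θ : G → ℂ) 1 := fun j hj e => by
        rw [hθ1] at e
        have : ((j + 1 : ℕ) : ℂ) = ((p : ℕ) : ℂ) := by push_cast at e ⊢; linear_combination e
        have := Nat.cast_injective this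
        omega
      rcases Pr.theta_regular hg hm with rfl | rfl | rfl
      · rw [hm, if_neg (by simpa using hne 0 (by omega))]
        simp
      · rw [hm, if_neg (by simpa using hne 1 (by omega))]
        simp
      · rw [hm, if_pos (by rw [hθ1]; push_cast; ring)]
        push_cast
        ring
  have h := Finset.sum_congr rfl (s₁ := (Finset.univ : Finset G)) fun g _ => hterm g
  rw [Finset.sum_sub_distrib, Pr.sum_theta_sq, Pr.sum_theta, Finset.sum_add_distrib,
    ← Finset.sum_filter, ← Finset.sum_filter, Finset.sum_const, Finset.sum_const, sub_zero,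
    nsmul_eq_mul, nsmul_eq_mul] at h
  have hK : (Finset.univ.filter fun g : G => (θ : G → ℂ) g = (θ : G → ℂ) 1).card =
      Nat.card (charKer (θ : G → ℂ)) := by
    rw [← natCard_eq_map_one (isCharacter_coe θ), ← Fintype.card_subtype, Nat.card_eq_fintype_card]
  rw [hK] at h
  apply Nat.cast_injective (R := ℂ)
  rw [Nat.cast_mul, Nat.cast_mul, Nat.cast_mul, Nat.cast_sub hpr.out.pos, Nat.cast_sub (by omega)]
  push_cast
  linear_combination (p : ℂ) * h + A.base.card_singular

/-- The kernel of `θ` is the centre. -/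
theorem charKer_eq_center : charKer (θ : G → ℂ) = Subgroup.center G := by
  have hp7 := Pr.p_seven_of_prime
  set K := charKer (θ : G → ℂ) with hK
  have hKn : K.Normal := instNormalCharKer θ
  refine le_antisymm ?_ fun z hz => (mem_charKer_iff (isCharacter_coe θ)).2 ?_
  swap
  · have := apply_center_mul_of_mem Pr.θ_mem hz 1
    rwa [mul_one] at this
  have hsing : ∀ g ∈ K, ¬ p ∣ orderOf g := fun g hg hd => by
    have h := map_eq_map_one_of_mem_charKer hg
    rw [Pr.theta_singular hd, Pr.theta_one, Pr.delta_eq] at h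
    have : ((p : ℕ) : ℂ) = ((0 : ℕ) : ℂ) := by push_cast at h ⊢; linear_combination -h
    exact hpr.out.ne_zero (Nat.cast_injective this)
  have hpK : ¬ p ∣ Nat.card K := fun h => by
    obtain ⟨x, hx⟩ := exists_prime_orderOf_dvd_card' p h
    exact hsing x x.2 (by rw [Subgroup.orderOf_coe, hx])
  have hPg : IsPGroup p (Subgroup.zpowers u) :=
    IsPGroup.of_card (n := 1) (by rw [Nat.card_zpowers, A.base.hu, pow_one])
  obtain ⟨H, hH⟩ : ∃ H : Subgroup G, H = K ⊔ Subgroup.zpowers u := ⟨_, rfl⟩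
  have hKH : K ≤ H := hH ▸ le_sup_left
  have huH : Subgroup.zpowers u ≤ H := hH ▸ le_sup_right
  have hNn : (K.subgroupOf H).Normal := Subgroup.normal_subgroupOf
  have hsolv : IsPSolvable p H := by
    refine Constrained.isPSolvable_of_quotient (K.subgroupOf H)
      (Or.inr (by rwa [Nat.card_congr (Subgroup.subgroupOfEquivOfLe hKH).toEquiv]))
      (Constrained.isPSolvable_of_isPGroup ?_)
    refine ((hPg.of_equiv (Subgroup.subgroupOfEquivOfLe huH).symm).map
      (QuotientGroup.mk' (K.subgroupOf H))).to_le ?_ |>.of_equiv Subgroup.topEquiv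
    rw [top_le_iff, ← (Subgroup.map_top_of_surjective _ (QuotientGroup.mk'_surjective (K.subgroupOf H)))]
    have htop : (K.subgroupOf H) ⊔ (Subgroup.zpowers u).subgroupOf H = ⊤ := by
      rw [← Subgroup.subgroupOf_sup hKH huH, ← hH, Subgroup.subgroupOf_self]
    rw [← htop, Subgroup.map_sup, show (K.subgroupOf H).map (QuotientGroup.mk' _) = ⊥ from
      (Subgroup.map_eq_bot_iff _).2 (QuotientGroup.ker_mk' _).ge, bot_sup_eq]
  have hidx : ¬ p ∣ ((Subgroup.zpowers u).subgroupOf H).index := fun h =>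
    A.base.hidx (h.trans (Subgroup.relIndex_dvd_index_of_le huH))
  set Q : Sylow p H := (hPg.of_equiv (Subgroup.subgroupOfEquivOfLe huH).symm).toSylow hidx
  have hres : IsCharacter H (fun x : H => (ζ : G → ℂ) x) := isCharacter_restrict (isCharacter_coe ζ) H
  have hdegH : charDegree (fun x : H => (ζ : G → ℂ) x) = p - 2 := by
    rw [← A.base.deg, charDegree, charDegree, OneMemClass.coe_one]
  have hQn : (Q : Subgroup H).Normal := by
    by_contra hn
    have := (Cfsg.Agent.S4468.result (fun x : H => (ζ : G → ℂ) x) hres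
      (fun g hg => Subtype.ext (A.base.faith g hg)) (p - 2) hdegH p hpr.out hsolv (by omega) Q hn).1
    omega
  intro k hk
  have h1 : k * u * k⁻¹ ∈ Subgroup.zpowers u := by
    have := hQn.conj_mem ⟨u, huH (Subgroup.mem_zpowers u)⟩ (Subgroup.mem_zpowers u) ⟨k, hKH hk⟩
    exact this
  have h2 : k * u * k⁻¹ * u⁻¹ ∈ K := by
    have := mul_mem hk (hKn.conj_mem _ (inv_mem hk) u)
    simpa only [mul_assoc] using this
  have h3 : k * u * k⁻¹ * u⁻¹ = 1 := by
    obtain ⟨i, hi⟩ := (mem_zpowers_iff_upow A.base.hu).1 (mul_mem h1 (inv_mem (Subgroup.mem_zpowers u)))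
    by_contra hne
    refine hsing _ h2 ?_
    rw [hi, orderOf_upow A.base.hu (fun e => hne (by rw [hi, e, upow_zero A.base.hu]))]
  obtain ⟨i, z, rfl⟩ := A.base.cent_upow (mul_inv_eq_iff_eq_mul.1 (mul_inv_eq_one.1 h3))
  by_cases hi : i = 0
  · rw [hi, upow_zero A.base.hu, one_mul]
    exact z.2
  · exact absurd (A.base.dvd_orderOf_upow_mul hi z) (hsing _ hk)

/-- **The order of the group.** -/
theorem card_eq : Nat.card G = p * (p - 1) * (p - 2) * Nat.card (Subgroup.center G) := by
  rw [Pr.card_eq_mul_charKer, Pr.charKer_eq_center]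

end Princ

end CfsgLib.DegPSubTwo
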