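import Cfsg.Agent.Chars.DegPSubTwo.Tensor

/-!
# Products of two conjugates of an inverting element in a coset `u Z(G)`
-/

set_option autoImplicit false
set_option linter.unusedSectionVars false

namespace CfsgLib.DegPSubTwo

open Cfsg CfsgLib CfsgLib.Chars CfsgLib.Blocks.OrderP
open scoped ComplexConjugate Classical

universe u

variable {G : Type u} [Group G] [Fintype G] {p : ℕ} [hpr : Fact p.Prime] {u : G}
  {ζ : IrrCharacter G}

/-- `Σ χ(t)² χ(u) / χ(1)` over the characters with the central character of `χ₀`. -/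
noncomputable def classSum (u t : G) (χ₀ : IrrCharacter G) : ℂ :=
  ∑ χ ∈ overSet χ₀, (χ : G → ℂ) t ^ 2 * (χ : G → ℂ) u / (χ : G → ℂ) 1

/-- The number of factorisations `(z u)⁻¹ = x y` into conjugates of `t`, with multiplicity. -/
noncomputable def mCount (u t z : G) : ℕ :=
  (Finset.univ.filter fun q : G × G =>
    (q.1 * t * q.1⁻¹) * (q.2 * t * q.2⁻¹) * (z * u) = 1).card

theorem sum_class_mult (χ : IrrCharacter G) (t w : G) :
    ∑ q : G × G, (χ : G → ℂ) ((q.1 * t * q.1⁻¹) * (q.2 * t * q.2⁻¹) * w) =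
      (Nat.card G : ℂ) ^ 2 * ((χ : G → ℂ) t ^ 2 * (χ : G → ℂ) w) / (χ : G → ℂ) 1 ^ 2 := by
  have hcomm : ∀ a b : G, (χ : G → ℂ) (a * b) = (χ : G → ℂ) (b * a) := fun a b => by
    rw [← isClassFunction_coe χ (a * b) a⁻¹]
    group
  have h2 : ∀ a : G, ∑ b : G, (χ : G → ℂ) ((a * t * a⁻¹) * (b * t * b⁻¹) * w) =
      (Nat.card G : ℂ) * ((χ : G → ℂ) (w * (a * t * a⁻¹)) * (χ : G → ℂ) t) / (χ : G → ℂ) 1 := by
    intro a
    rw [← sum_map_mul_conjugate χ (w * (a * t * a⁻¹)) t]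
    refine Finset.sum_congr rfl fun b _ => ?_
    rw [hcomm, ← mul_assoc]
  rw [Fintype.sum_prod_type, Finset.sum_congr rfl fun a _ => h2 a, ← Finset.sum_div,
    ← Finset.mul_sum, ← Finset.sum_mul, sum_map_mul_conjugate χ w t]
  have h1 := map_one_ne_zero χ
  field_simp

theorem mCount_eq (t u z : G) (hz : z ∈ Subgroup.center G) :
    (mCount u t z : ℂ) = (Nat.card G : ℂ) *
      ∑ χ : IrrCharacter G, cval χ z * ((χ : G → ℂ) t ^ 2 * (χ : G → ℂ) u / (χ : G → ℂ) 1) := by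
  have hG : (Nat.card G : ℂ) ≠ 0 := Chars.natCard_ne_zero
  refine mul_left_cancel₀ hG ?_
  calc (Nat.card G : ℂ) * (mCount u t z : ℂ)
      = ∑ q : G × G, ∑ χ : IrrCharacter G, (χ : G → ℂ) 1 *
          (χ : G → ℂ) ((q.1 * t * q.1⁻¹) * (q.2 * t * q.2⁻¹) * (z * u)) := by
        simp only [sum_irr_map_one_mul]
        rw [← Finset.sum_filter, Finset.sum_const, nsmul_eq_mul, mCount, mul_comm]
    _ = _ := by
        rw [Finset.sum_comm, Finset.mul_sum, Finset.mul_sum]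
        refine Finset.sum_congr rfl fun χ _ => ?_
        rw [← Finset.mul_sum, sum_class_mult, apply_center_mul χ hz]
        have h1 := map_one_ne_zero χ
        field_simp

namespace Base

variable (B : Base p u ζ)
include B

/-- An inverting conjugate of `t` lies in `t P`. -/
theorem exists_of_conj_inverts {t : G} (ht : Inverts u t) (hζt : (ζ : G → ℂ) t ≠ 0) {g : G}
    (hinv : g * t * g⁻¹ * u * (g * t * g⁻¹)⁻¹ = u⁻¹) :
    ∃ j : ZMod p, g * t * g⁻¹ = t * upow u j := by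
  have hcomm : t⁻¹ * (g * t * g⁻¹) * u = u * (t⁻¹ * (g * t * g⁻¹)) := by
    have h1 : t⁻¹ * u⁻¹ * t = u := by rw [← ht.inv_eq]; group
    calc t⁻¹ * (g * t * g⁻¹) * u = t⁻¹ * (g * t * g⁻¹ * u * (g * t * g⁻¹)⁻¹) * (g * t * g⁻¹) := by
          group
      _ = t⁻¹ * u⁻¹ * (g * t * g⁻¹) := by rw [hinv]
      _ = (t⁻¹ * u⁻¹ * t) * (t⁻¹ * (g * t * g⁻¹)) := by group
      _ = _ := by rw [h1]
  obtain ⟨j, z, hz⟩ := B.cent_upow hcomm
  have hx : g * t * g⁻¹ = t * upow u j * z := by rw [mul_assoc t, ← hz]; group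
  refine ⟨j, ?_⟩
  have hz1 : (ζ : G → ℂ) (z : G) = (ζ : G → ℂ) 1 := by
    have h1 : (ζ : G → ℂ) t = cval ζ (z : G) * (ζ : G → ℂ) t := by
      conv_lhs => rw [← isClassFunction_coe ζ t g, hx, Subgroup.mem_center_iff.1 z.2 (t * upow u j),
        apply_center_mul ζ z.2, ← eq_of_isConj (isClassFunction_coe ζ) (B.isConj_mul_upow ht j)]
    have h2 : cval ζ (z : G) = 1 := mul_right_cancel₀ hζt (h1.symm.trans (one_mul _).symm)
    exact (div_eq_one_iff_eq (map_one_ne_zero ζ)).1 h2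
  rw [hx, B.faith _ hz1, mul_one]

theorem eq_of_mCount_ne_zero {t : G} (ht : Inverts u t) (hζt : (ζ : G → ℂ) t ≠ 0) {z : G}
    (hz : z ∈ Subgroup.center G) (h : mCount u t z ≠ 0) : z = (t * t)⁻¹ := by
  obtain ⟨⟨a, b⟩, hab⟩ := Finset.card_pos.1 (Nat.pos_of_ne_zero h)
  have hab' : a * t * a⁻¹ * (b * t * b⁻¹) * (z * u) = 1 := (Finset.mem_filter.1 hab).2
  clear hab h
  set x := a * t * a⁻¹ with hx
  set y := b * t * b⁻¹ with hy
  have hsq : ∀ c : G, (c * t * c⁻¹) * (c * t * c⁻¹) = t * t := fun c => by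
    calc (c * t * c⁻¹) * (c * t * c⁻¹) = c * (t * t) * c⁻¹ := by group
      _ = t * t := by rw [Subgroup.mem_center_iff.1 ht.sq c, mul_inv_cancel_right]
  set w := t * t with hw
  have hwc : ∀ g : G, g * w = w * g := Subgroup.mem_center_iff.1 ht.sq
  have hzc : ∀ g : G, g * z = z * g := Subgroup.mem_center_iff.1 hz
  have hyv : y = x⁻¹ * u⁻¹ * z⁻¹ := by
    calc y = x⁻¹ * (x * y * (z * u)) * u⁻¹ * z⁻¹ := by group
      _ = _ := by rw [hab', mul_one]
  have hzi : ∀ g : G, g * z⁻¹ = z⁻¹ * g := Subgroup.mem_center_iff.1 (inv_mem hz)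
  have e1 : x⁻¹ * u⁻¹ * x⁻¹ * u⁻¹ = w * (z * z) := by
    have h2 : y * y = w := hsq b
    rw [hyv] at h2
    calc x⁻¹ * u⁻¹ * x⁻¹ * u⁻¹ = (x⁻¹ * u⁻¹ * z⁻¹) * (x⁻¹ * u⁻¹ * z⁻¹) * (z * z) := by
          rw [show (x⁻¹ * u⁻¹ * z⁻¹) * (x⁻¹ * u⁻¹ * z⁻¹) =
            (x⁻¹ * u⁻¹ * x⁻¹ * u⁻¹) * (z⁻¹ * z⁻¹) by
              simp only [mul_assoc]
              rw [← mul_assoc z⁻¹ x⁻¹, ← hzi x⁻¹, mul_assoc, ← mul_assoc z⁻¹ u⁻¹, ← hzi u⁻¹,
                mul_assoc]]
          group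
      _ = _ := by rw [h2]
  have e2 : x⁻¹ * (upow u (1 : ZMod p))⁻¹ * x = upow u (1 : ZMod p) * (w * (z * z) * w) := by
    rw [upow_one B.hu]
    have hx2 : x * x = w := hsq a
    have hc : ∀ g : G, g * (w * (z * z)) = (w * (z * z)) * g :=
      Subgroup.mem_center_iff.1 (mul_mem ht.sq (mul_mem hz hz))
    calc x⁻¹ * u⁻¹ * x = x⁻¹ * u⁻¹ * x⁻¹ * u⁻¹ * u * (x * x) := by group
      _ = w * (z * z) * u * w := by rw [e1, hx2]
      _ = u * (w * (z * z)) * w := by rw [hc u]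
      _ = _ := by rw [mul_assoc]
  have hne1 : (1 : ZMod p) ≠ 0 := one_ne_zero
  have hcnt := B.card_conj (i := (-1 : ZMod p)) (j := 1) (neg_ne_zero.2 hne1) (z := 1)
    (z' := w * (z * z) * w) (one_mem _) (mul_mem (mul_mem ht.sq (mul_mem hz hz)) ht.sq)
  have hone : (1 : G) = w * (z * z) * w := by
    by_contra hne
    rw [if_neg fun h => hne h.1, Nat.card_eq_zero] at hcnt
    rcases hcnt with h | h
    · exact h.elim ⟨x⁻¹, by rw [mul_one, inv_inv, upow_neg B.hu, e2]⟩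
    · exact absurd h (not_infinite_iff_finite.2 inferInstance)
  rw [← hone, mul_one, upow_one B.hu] at e2
  have hxinv : x * u * x⁻¹ = u⁻¹ := by
    conv_lhs => rw [← e2]
    group
  have hyinv : y * u * y⁻¹ = u⁻¹ := by
    rw [hyv]
    calc x⁻¹ * u⁻¹ * z⁻¹ * u * (x⁻¹ * u⁻¹ * z⁻¹)⁻¹
        = x⁻¹ * u⁻¹ * (z⁻¹ * u) * z * u * x := by group
      _ = x⁻¹ * u * x := by rw [← hzi u]; group
      _ = u⁻¹ := by
        calc x⁻¹ * u * x = (x⁻¹ * u⁻¹ * x)⁻¹ := by group
          _ = u⁻¹ := by rw [e2]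
  obtain ⟨i, hi⟩ := B.exists_of_conj_inverts ht hζt (g := a) hxinv
  obtain ⟨j, hj⟩ := B.exists_of_conj_inverts ht hζt (g := b) hyinv
  rw [← hx] at hi
  rw [← hy] at hj
  have hti : upow u i * t = t * upow u (-i) := by
    have h1 : t * upow u (-i) * t⁻¹ = upow u i := by
      rw [upow, ← conj_pow, ht.inv_eq, inv_pow]
      show (upow u (-i))⁻¹ = upow u i
      rw [← upow_neg B.hu, neg_neg]
    rw [← h1, inv_mul_cancel_right]
  have h3 : upow u (-i) * upow u j * u = (z * w)⁻¹ := by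
    have h4 : w * (upow u (-i) * upow u j * u) * z = 1 := by
      calc w * (upow u (-i) * upow u j * u) * z
          = (t * (t * upow u (-i))) * upow u j * (u * z) := by rw [hw]; group
        _ = (t * (upow u i * t)) * upow u j * (z * u) := by rw [hti, hzc u]
        _ = x * y * (z * u) := by rw [hi, hj]; group
        _ = 1 := hab'
    calc upow u (-i) * upow u j * u = w⁻¹ * (w * (upow u (-i) * upow u j * u) * z) * z⁻¹ := by group
      _ = _ := by rw [h4, mul_one]; exact (mul_inv_rev z w).symm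
  obtain ⟨k, hk⟩ := (mem_zpowers_iff_upow B.hu).1 (show upow u (-i) * upow u j * u ∈ Subgroup.zpowers u from
    mul_mem (mul_mem (pow_mem (Subgroup.mem_zpowers u) _) (pow_mem (Subgroup.mem_zpowers u) _))
      (Subgroup.mem_zpowers u))
  have h5 : upow u k ∈ Subgroup.center G := by
    rw [← hk, h3]
    exact inv_mem (mul_mem hz ht.sq)
  rw [hk, B.eq_zero_of_upow_mem_center h5, upow_zero B.hu, eq_comm, inv_eq_one] at h3
  exact eq_inv_of_mul_eq_one_left h3

/-- **The two class sums agree up to the central character at `t²`.** -/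
theorem classSum_eq {t : G} (ht : Inverts u t) (hζt : (ζ : G → ℂ) t ≠ 0) :
    classSum u t ζ = cval ζ (t * t) * classSum u t (oneChar G) := by
  have key : ∀ χ₀ : IrrCharacter G, (Nat.card G : ℂ) * Nat.card (Subgroup.center G) * classSum u t χ₀ =
      cval χ₀ (t * t) * (mCount u t (t * t)⁻¹ : ℂ) := by
    intro χ₀
    have h1 : ∑ z : Subgroup.center G, conj (cval χ₀ (z : G)) * (mCount u t (z : G) : ℂ) =
        cval χ₀ (t * t) * (mCount u t (t * t)⁻¹ : ℂ) := by
      rw [Finset.sum_eq_single (⟨(t * t)⁻¹, inv_mem ht.sq⟩ : Subgroup.center G)]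
      · simp only [cval_inv χ₀ ht.sq, Complex.conj_conj]
      · intro z _ hne
        by_contra h
        apply hne
        refine Subtype.ext (B.eq_of_mCount_ne_zero ht hζt z.2 ?_)
        intro e
        exact h (by rw [e, Nat.cast_zero, mul_zero])
      · simp
    rw [← h1]
    simp only [mCount_eq t u _ (Subtype.prop _), Finset.mul_sum]
    rw [Finset.sum_comm, classSum, overSet, Finset.sum_filter, Finset.mul_sum]
    refine Finset.sum_congr rfl fun χ _ => ?_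
    rw [Finset.sum_congr rfl (g := fun z : Subgroup.center G => (cval χ z * conj (cval χ₀ z)) *
      ((Nat.card G : ℂ) * ((χ : G → ℂ) t ^ 2 * (χ : G → ℂ) u / (χ : G → ℂ) 1))) fun z _ => by ring,
      ← Finset.sum_mul, sum_cval_conj]
    simp only [mem_overSet]
    split_ifs <;> ring
  have hne : (Nat.card G : ℂ) * Nat.card (Subgroup.center G) ≠ 0 :=
    mul_ne_zero Chars.natCard_ne_zero (Nat.cast_ne_zero.2 Nat.card_pos.ne')
  refine mul_left_cancel₀ hne ?_
  rw [key ζ, mul_left_comm, key (oneChar G), cval_oneChar, one_mul]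

end Base

end CfsgLib.DegPSubTwo
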