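import Cfsg.Agent.Chars.DegPSubTwo.Local

/-!
# Columns over a central character, and the `p`-singular elements
-/

set_option autoImplicit false
set_option linter.unusedSectionVars false

namespace CfsgLib.DegPSubTwo

open Cfsg CfsgLib CfsgLib.Chars CfsgLib.Blocks.OrderP
open scoped ComplexConjugate Classical

universe u

variable {G : Type u} [Group G] [Fintype G] {p : ℕ} [hpr : Fact p.Prime] {u : G}
  {ζ : IrrCharacter G}

namespace Base

variable (B : Base p u ζ)
include B

theorem upow_comm_iff {i : ZMod p} (hi : i ≠ 0) (g : G) :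
    g * upow u i = upow u i * g ↔ g * u = u * g := by
  constructor
  · intro h
    obtain ⟨k, hk⟩ := Subgroup.mem_zpowers_iff.1
      (show u ∈ Subgroup.zpowers (upow u i) by rw [zpowers_upow B.hu hi]; exact Subgroup.mem_zpowers u)
    rw [← hk]
    exact ((show Commute g (upow u i) from h).zpow_right k).eq
  · intro h
    exact ((show Commute g u from h).pow_right i.val).eq

/-- `zpowers u` meets the centre trivially. -/
theorem eq_zero_of_upow_mem_center {i : ZMod p} (h : upow u i ∈ Subgroup.center G) : i = 0 := by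
  by_contra hi
  obtain ⟨t, ht, -⟩ := B.inv
  have h1 : t * u = u * t :=
    (B.upow_comm_iff hi t).1 (Subgroup.mem_center_iff.1 h t)
  rw [h1, mul_inv_cancel_right] at ht
  have h2 : u ^ 2 = 1 := by
    rw [pow_two]
    nth_rewrite 2 [ht]
    exact mul_inv_cancel u
  have := B.hu ▸ orderOf_dvd_of_pow_eq_one h2
  have := Nat.le_of_dvd two_pos this
  have := B.five_lt
  omega

theorem upow_mul_center_inj {i j : ZMod p} {z z' : G} (hz : z ∈ Subgroup.center G)
    (hz' : z' ∈ Subgroup.center G) (h : upow u i * z = upow u j * z') : i = j ∧ z = z' := by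
  have h1 : (upow u j)⁻¹ * upow u i = z' * z⁻¹ := by
    rw [inv_mul_eq_iff_eq_mul, ← mul_assoc, ← h, mul_inv_cancel_right]
  have h2 : upow u (-j + i) = (upow u j)⁻¹ * upow u i := by
    rw [← upow_neg B.hu, upow, upow, upow, ← pow_add, pow_eq_pow_iff_modEq, B.hu,
      ← ZMod.natCast_eq_natCast_iff]
    push_cast
    simp
  have h3 := B.eq_zero_of_upow_mem_center (i := -j + i)
    (by rw [h2, h1]; exact mul_mem hz' (inv_mem hz))
  have h4 : i = j := by linear_combination h3
  subst h4
  exact ⟨rfl, mul_left_cancel h⟩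

theorem not_dvd_card_center : ¬ p ∣ Nat.card (Subgroup.center G) := by
  intro h
  obtain ⟨z, hz⟩ := exists_prime_orderOf_dvd_card' p h
  have hP : IsPGroup p (Subgroup.zpowers u) :=
    IsPGroup.of_card (n := 1) (by rw [Nat.card_zpowers, B.hu, pow_one])
  have hZ : IsPGroup p (Subgroup.zpowers (z : G)) :=
    IsPGroup.of_card (n := 1) (by rw [Nat.card_zpowers, Subgroup.orderOf_coe, hz, pow_one])
  have hle : Subgroup.zpowers (z : G) ≤ Subgroup.normalizer (Subgroup.zpowers u : Set G) :=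
    Subgroup.zpowers_le.2 (Subgroup.mem_normalizer_iff.2 fun x => by
      rw [← Subgroup.mem_center_iff.1 z.2 x, mul_inv_cancel_right])
  have hsup := IsPGroup.to_sup_of_normal_right' hZ hP hle
  have hzu : (z : G) ∈ Subgroup.zpowers u :=
    ((hP.toSylow B.hidx).is_maximal' hsup le_sup_right).le
      (Subgroup.mem_sup_left (Subgroup.mem_zpowers _))
  obtain ⟨i, hi⟩ := (mem_zpowers_iff_upow B.hu).1 hzu
  have := B.eq_zero_of_upow_mem_center (i := i) (hi ▸ z.2)
  rw [this, upow_zero B.hu] at hi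
  rw [show z = 1 from Subtype.ext hi, orderOf_one] at hz
  exact hpr.out.ne_one hz.symm

theorem cent_upow {g : G} (hg : g * u = u * g) :
    ∃ i : ZMod p, ∃ z : Subgroup.center G, g = upow u i * z := by
  obtain ⟨x, hx, z, hz, rfl⟩ := B.cent g hg
  obtain ⟨i, rfl⟩ := (mem_zpowers_iff_upow B.hu).1 hx
  exact ⟨i, ⟨z, hz⟩, rfl⟩

theorem card_cent : Nat.card {g : G // g * u = u * g} = p * Nat.card (Subgroup.center G) := by
  rw [← Nat.card_zmod p, ← Nat.card_prod]
  symm
  refine Nat.card_congr (Equiv.ofBijective (fun q : ZMod p × Subgroup.center G =>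
    (⟨upow u q.1 * q.2, ?_⟩ : {g : G // g * u = u * g})) ⟨?_, ?_⟩)
  · have h1 : Commute u (upow u q.1) := Commute.self_pow u _
    rw [mul_assoc, ← Subgroup.mem_center_iff.1 q.2.2 u, ← mul_assoc, ← h1.eq, mul_assoc]
  · rintro ⟨i, z⟩ ⟨j, z'⟩ h
    obtain ⟨rfl, h2⟩ := B.upow_mul_center_inj z.2 z'.2 (congrArg Subtype.val h)
    rw [Subtype.ext h2]
  · rintro ⟨g, hg⟩
    obtain ⟨i, z, rfl⟩ := B.cent_upow hg
    exact ⟨(i, z), rfl⟩

theorem isConj_upow_neg (i : ZMod p) : IsConj (upow u i) (upow u (-i)) := by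
  obtain ⟨t, ht, -⟩ := B.inv
  refine isConj_iff.2 ⟨t, ?_⟩
  rw [upow_neg B.hu, upow, ← conj_pow, ht, inv_pow]

/-- The elements conjugating `u^i z` into `u^j z'`. -/
theorem card_conj {i j : ZMod p} (hi : i ≠ 0) {z z' : G} (hz : z ∈ Subgroup.center G)
    (hz' : z' ∈ Subgroup.center G) :
    Nat.card {g : G // g * (upow u i * z) * g⁻¹ = upow u j * z'} =
      if z = z' ∧ (j = i ∨ j = -i) then p * Nat.card (Subgroup.center G) else 0 := by
  have hrw : ∀ g : G, g * (upow u i * z) * g⁻¹ = g * upow u i * g⁻¹ * z := fun g => by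
    rw [← mul_assoc, mul_assoc (g * upow u i), ← Subgroup.mem_center_iff.1 hz g⁻¹, ← mul_assoc]
  split_ifs with h
  · obtain ⟨rfl, hj⟩ := h
    obtain ⟨g₀, hg₀⟩ : ∃ g₀, g₀ * upow u i * g₀⁻¹ = upow u j := by
      rcases hj with rfl | rfl
      · exact ⟨1, by simp⟩
      · exact isConj_iff.1 (B.isConj_upow_neg i)
    rw [← B.card_cent]
    refine Nat.card_congr ((Equiv.mulLeft g₀⁻¹).subtypeEquiv fun g => ?_)
    rw [Equiv.coe_mulLeft, ← B.upow_comm_iff hi, hrw, mul_left_inj, ← hg₀]
    constructor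
    · intro h
      calc g₀⁻¹ * g * upow u i = g₀⁻¹ * (g * upow u i * g⁻¹) * g := by group
        _ = g₀⁻¹ * (g₀ * upow u i * g₀⁻¹) * g := by rw [h]
        _ = upow u i * (g₀⁻¹ * g) := by group
    · intro h
      calc g * upow u i * g⁻¹ = g₀ * (g₀⁻¹ * g * upow u i) * g⁻¹ := by group
        _ = g₀ * (upow u i * (g₀⁻¹ * g)) * g⁻¹ := by rw [h]
        _ = g₀ * upow u i * g₀⁻¹ := by group
  · refine @Nat.card_of_isEmpty _ ⟨fun ⟨g, hg⟩ => h ?_⟩
    rw [hrw] at hg
    -- taking `p`-th powers isolates the central part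
    have hp1 : ∀ k : ZMod p, upow u k ^ p = 1 := fun k => by
      rw [upow_pow B.hu, ZMod.natCast_self, mul_zero, upow_zero B.hu]
    have hzz : z = z' := by
      have e : (g * upow u i * g⁻¹ * z) ^ p = (upow u j * z') ^ p := congrArg (· ^ p) hg
      rw [(show Commute (g * upow u i * g⁻¹) z from
          (Subgroup.mem_center_iff.1 hz _)).mul_pow,
        (show Commute (upow u j) z' from (Subgroup.mem_center_iff.1 hz' _)).mul_pow, conj_pow,
        hp1, hp1, mul_one, mul_inv_cancel, one_mul, one_mul] at e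
      have hco : (Nat.card (Subgroup.center G)).Coprime p :=
        ((Nat.Prime.coprime_iff_not_dvd hpr.out).2 B.not_dvd_card_center).symm
      exact congrArg Subtype.val ((powCoprime hco).injective
        (a₁ := (⟨z, hz⟩ : Subgroup.center G)) (a₂ := ⟨z', hz'⟩) (Subtype.ext e))
    subst hzz
    refine ⟨rfl, ?_⟩
    have hg' : g * upow u i * g⁻¹ = upow u j := mul_right_cancel hg
    obtain ⟨k, hk⟩ := Subgroup.mem_zpowers_iff.1
      (show u ∈ Subgroup.zpowers (upow u i) by rw [zpowers_upow B.hu hi]; exact Subgroup.mem_zpowers u)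
    have hgu : g * u * g⁻¹ ∈ Subgroup.zpowers u := by
      have h1 : (g * upow u i * g⁻¹) ^ k ∈ Subgroup.zpowers u := by
        rw [hg']
        exact zpow_mem (pow_mem (Subgroup.mem_zpowers u) _) k
      rwa [conj_zpow, hk] at h1
    have hgi : g * upow u i * g⁻¹ = (g * u * g⁻¹) ^ i.val := by rw [conj_pow]; rfl
    rcases B.fusion g hgu with e | e
    · left
      rw [e, hg'] at hgi
      exact upow_inj B.hu hgi
    · right
      rw [e, inv_pow, hg'] at hgi
      exact upow_inj B.hu (hgi.trans (upow_neg B.hu i).symm)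

/-- Every `p`-singular element is conjugate to some `u^i z`. -/
theorem exists_conj_of_dvd {g : G} (hg : p ∣ orderOf g) :
    ∃ x : G, ∃ i : ZMod p, i ≠ 0 ∧ ∃ z : Subgroup.center G, g = x * (upow u i * z) * x⁻¹ := by
  obtain ⟨k, hk⟩ := hg
  have hk0 : k ≠ 0 := fun e => (orderOf_pos g).ne' (by rw [hk, e, mul_zero])
  have hw : orderOf (g ^ k) = p := by
    rw [orderOf_pow_of_dvd hk0 (Dvd.intro_left p hk.symm), hk,
      Nat.mul_div_cancel _ (Nat.pos_of_ne_zero hk0)]
  have hP : IsPGroup p (Subgroup.zpowers u) :=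
    IsPGroup.of_card (n := 1) (by rw [Nat.card_zpowers, B.hu, pow_one])
  obtain ⟨Q, hQ⟩ := (IsPGroup.of_card (n := 1)
    (by rw [Nat.card_zpowers, hw, pow_one]) : IsPGroup p (Subgroup.zpowers (g ^ k))).exists_le_sylow
  obtain ⟨x, hx⟩ := MulAction.exists_smul_eq G Q (hP.toSylow B.hidx)
  have hmem : x * g ^ k * x⁻¹ ∈ Subgroup.zpowers u := by
    have : x * g ^ k * x⁻¹ ∈ ((hP.toSylow B.hidx : Sylow p G) : Subgroup G) := by
      rw [← hx, Sylow.smul_def]
      exact ⟨g ^ k, hQ (Subgroup.mem_zpowers _), rfl⟩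
    exact this
  obtain ⟨j, hj⟩ := (mem_zpowers_iff_upow B.hu).1 hmem
  have hj0 : j ≠ 0 := fun e => by
    rw [e, upow_zero B.hu, conj_eq_one_iff] at hj
    rw [hj, orderOf_one] at hw
    exact hpr.out.ne_one hw.symm
  have hcomm : (x * g * x⁻¹) * u = u * (x * g * x⁻¹) := by
    rw [← B.upow_comm_iff hj0, ← hj, ← conj_pow]
    exact ((Commute.refl (x * g * x⁻¹)).pow_right k).eq
  obtain ⟨i, z, hi⟩ := B.cent_upow hcomm
  have hgx : g = x⁻¹ * (upow u i * z) * x⁻¹⁻¹ := by rw [← hi]; group
  refine ⟨x⁻¹, i, ?_, z, hgx⟩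
  rintro rfl
  rw [upow_zero B.hu, one_mul, Subgroup.mem_center_iff.1 z.2 x⁻¹, mul_assoc, mul_inv_cancel,
    mul_one] at hgx
  exact B.not_dvd_card_center ((Dvd.intro k hk.symm).trans (by
      rw [hgx, Subgroup.orderOf_coe]; exact orderOf_dvd_natCard z))

theorem dvd_orderOf_upow_mul {i : ZMod p} (hi : i ≠ 0) (z : Subgroup.center G) :
    p ∣ orderOf (upow u i * z) := by
  by_contra h
  have e : (upow u i * (z : G)) ^ orderOf (upow u i * z) = 1 := pow_orderOf_eq_one _
  rw [(show Commute (upow u i) (z : G) from Subgroup.mem_center_iff.1 z.2 _).mul_pow,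
    upow_pow B.hu] at e
  have := (B.upow_mul_center_inj (i := i * (orderOf (upow u i * z) : ZMod p)) (j := 0)
    (pow_mem z.2 _) (one_mem _) (by rw [e, upow_zero B.hu, one_mul])).1
  rcases mul_eq_zero.1 this with h1 | h1
  · exact hi h1
  · exact h ((ZMod.natCast_eq_zero_iff _ p).1 h1)

theorem center_mul_regular {g : G} (hg : ¬ p ∣ orderOf g) (z : Subgroup.center G) :
    ¬ p ∣ orderOf ((z : G) * g) := by
  intro h
  have h1 := h.trans
    ((show Commute (z : G) g from (Subgroup.mem_center_iff.1 z.2 g).symm).orderOf_mul_dvd_mul_orderOf)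
  rcases hpr.out.dvd_mul.1 h1 with h2 | h2
  · exact B.not_dvd_card_center (h2.trans (by rw [Subgroup.orderOf_coe]; exact orderOf_dvd_natCard z))
  · exact hg h2

/-- **Sums over the `p`-singular elements.** -/
theorem sum_singular {F : G → ℂ} (hF : IsClassFunction G F) :
    (2 * p * Nat.card (Subgroup.center G) : ℕ) *
        ∑ g ∈ Finset.univ.filter (fun g : G => p ∣ orderOf g), F g =
      (Nat.card G : ℂ) * ∑ i : {i : ZMod p // i ≠ 0}, ∑ z : Subgroup.center G,
        F (upow u i.1 * z) := by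
  let Φ : G × {i : ZMod p // i ≠ 0} × Subgroup.center G → G := fun q =>
    q.1 * (upow u q.2.1.1 * q.2.2) * q.1⁻¹
  have hmaps : ∀ q, Φ q ∈ Finset.univ.filter (fun g : G => p ∣ orderOf g) := fun q => by
    rw [Finset.mem_filter]
    refine ⟨Finset.mem_univ _, ?_⟩
    show p ∣ orderOf (MulAut.conj q.1 (upow u q.2.1.1 * q.2.2))
    rw [MulEquiv.orderOf_eq]
    exact B.dvd_orderOf_upow_mul q.2.1.2 q.2.2
  have hcount : ∀ g ∈ Finset.univ.filter (fun g : G => p ∣ orderOf g),
      (Finset.univ.filter fun q => Φ q = g).card = 2 * p * Nat.card (Subgroup.center G) := by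
    intro g hg
    obtain ⟨x₀, i₀, hi₀, z₀, rfl⟩ := B.exists_conj_of_dvd (Finset.mem_filter.1 hg).2
    rw [← Fintype.card_subtype, ← Nat.card_eq_fintype_card]
    have hE : {q // Φ q = x₀ * (upow u i₀ * z₀) * x₀⁻¹} ≃
        Σ q : {i : ZMod p // i ≠ 0} × Subgroup.center G,
          {g : G // g * (upow u q.1.1 * q.2) * g⁻¹ = upow u i₀ * z₀} :=
      { toFun := fun a => ⟨a.1.2, x₀⁻¹ * a.1.1, by
          have h := a.2
          simp only [Φ] at h
          calc x₀⁻¹ * a.1.1 * (upow u a.1.2.1.1 * a.1.2.2) * (x₀⁻¹ * a.1.1)⁻¹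
              = x₀⁻¹ * (a.1.1 * (upow u a.1.2.1.1 * a.1.2.2) * a.1.1⁻¹) * x₀ := by group
            _ = upow u i₀ * z₀ := by rw [h]; group⟩
        invFun := fun a => ⟨(x₀ * a.2.1, a.1), by
          simp only [Φ]
          calc x₀ * a.2.1 * (upow u a.1.1.1 * a.1.2) * (x₀ * a.2.1)⁻¹
              = x₀ * (a.2.1 * (upow u a.1.1.1 * a.1.2) * a.2.1⁻¹) * x₀⁻¹ := by group
            _ = _ := by rw [a.2.2]⟩
        left_inv := fun a => Subtype.ext (Prod.ext (mul_inv_cancel_left _ _) rfl)
        right_inv := fun a => Sigma.ext rfl (heq_of_eq (Subtype.ext (inv_mul_cancel_left _ _))) }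
    rw [Nat.card_congr hE, Nat.card_sigma]
    rw [Finset.sum_congr rfl fun q _ => B.card_conj q.1.2 q.2.2 z₀.2]
    rw [← Finset.sum_filter, Finset.sum_const, smul_eq_mul,
      show (Finset.univ.filter fun q : {i : ZMod p // i ≠ 0} × Subgroup.center G =>
        (q.2 : G) = z₀ ∧ (i₀ = q.1.1 ∨ i₀ = -q.1.1)) =
        {(⟨i₀, hi₀⟩, z₀), (⟨-i₀, neg_ne_zero.2 hi₀⟩, z₀)} from ?_, Finset.card_pair ?_]
    · ring
    · intro h
      have h1 : i₀ = -i₀ := congrArg (fun q => q.1.1) h
      have h2 : ((2 : ℕ) : ZMod p) * i₀ = 0 := by push_cast; linear_combination h1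
      rcases mul_eq_zero.1 h2 with h3 | h3
      · rw [ZMod.natCast_eq_zero_iff] at h3
        have := Nat.le_of_dvd two_pos h3
        have := B.five_lt
        omega
      · exact hi₀ h3
    · ext ⟨⟨i, hi⟩, z⟩
      simp only [Finset.mem_filter, Finset.mem_univ, true_and, Finset.mem_insert,
        Finset.mem_singleton, Prod.mk.injEq, Subtype.mk.injEq]
      constructor
      · rintro ⟨h1, rfl | rfl⟩
        · exact Or.inl ⟨rfl, Subtype.ext h1⟩
        · exact Or.inr ⟨(neg_neg i).symm, Subtype.ext h1⟩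
      · rintro (⟨rfl, rfl⟩ | ⟨rfl, rfl⟩)
        · exact ⟨rfl, Or.inl rfl⟩
        · exact ⟨rfl, Or.inr (neg_neg _).symm⟩
  have hlhs : ∑ q, F (Φ q) = (2 * p * Nat.card (Subgroup.center G) : ℕ) *
      ∑ g ∈ Finset.univ.filter (fun g : G => p ∣ orderOf g), F g := by
    rw [← Finset.sum_fiberwise_of_maps_to (fun q _ => hmaps q), Finset.mul_sum]
    refine Finset.sum_congr rfl fun g hg => ?_
    rw [Finset.sum_congr rfl (g := fun _ => F g) fun q hq => by rw [(Finset.mem_filter.1 hq).2],
      Finset.sum_const, hcount g hg, nsmul_eq_mul]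
  rw [← hlhs, Fintype.sum_prod_type]
  simp only [Φ, fun x a => (hF a x : F (x * a * x⁻¹) = F a)]
  rw [Finset.sum_const, Fintype.sum_prod_type, Finset.card_univ, Nat.card_eq_fintype_card,
    nsmul_eq_mul]

/-- The number of `p`-singular elements. -/
theorem card_singular :
    ((Finset.univ.filter fun g : G => p ∣ orderOf g).card : ℂ) * (2 * p) =
      (Nat.card G : ℂ) * ((p : ℂ) - 1) := by
  have h := B.sum_singular (F := fun _ => 1) fun _ _ => rfl
  simp only [Finset.sum_const, nsmul_one, Finset.card_univ, Fintype.card_subtype_compl,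
    Fintype.card_subtype_eq, ZMod.card, smul_eq_mul] at h
  have hz : (Nat.card (Subgroup.center G) : ℂ) ≠ 0 := Nat.cast_ne_zero.2 Nat.card_pos.ne'
  have hp1 : 1 ≤ p := hpr.out.pos
  rw [← Nat.card_eq_fintype_card, nsmul_eq_mul] at h
  push_cast [Nat.cast_sub hp1] at h
  refine mul_left_cancel₀ hz ?_
  linear_combination h

end Base

/-- The ratio `χ(z) / χ(1)` on the centre. -/
noncomputable def cval (χ : IrrCharacter G) (z : G) : ℂ := (χ : G → ℂ) z / (χ : G → ℂ) 1

/-- The irreducible characters with the central character of `χ₀`. -/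
noncomputable def overSet (χ₀ : IrrCharacter G) : Finset (IrrCharacter G) :=
  Finset.univ.filter fun χ => ∀ z ∈ Subgroup.center G, cval χ z = cval χ₀ z

theorem mem_overSet {χ₀ χ : IrrCharacter G} :
    χ ∈ overSet χ₀ ↔ ∀ z ∈ Subgroup.center G, cval χ z = cval χ₀ z := by simp [overSet]

theorem apply_center_mul (χ : IrrCharacter G) {z : G} (hz : z ∈ Subgroup.center G) (g : G) :
    (χ : G → ℂ) (z * g) = cval χ z * (χ : G → ℂ) g := map_mul_of_mem_center χ hz g

theorem cval_one (χ : IrrCharacter G) : cval χ 1 = 1 := div_self (map_one_ne_zero χ)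

theorem cval_mul (χ : IrrCharacter G) {z : G} (hz : z ∈ Subgroup.center G) (z' : G) :
    cval χ (z * z') = cval χ z * cval χ z' := by
  simp only [cval, map_mul_of_mem_center χ hz, mul_div_assoc]

theorem cval_inv (χ : IrrCharacter G) {z : G} (hz : z ∈ Subgroup.center G) :
    cval χ z⁻¹ = conj (cval χ z) := by
  rw [cval, cval, map_inv_eq_conj (isCharacter_coe χ), map_div₀, conj_map_one (isCharacter_coe χ)]

theorem cval_mul_conj (χ : IrrCharacter G) {z : G} (hz : z ∈ Subgroup.center G) :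
    cval χ z * conj (cval χ z) = 1 := by
  rw [← cval_inv χ hz, ← cval_mul χ hz, mul_inv_cancel, cval_one]

/-- Orthogonality of central characters. -/
theorem sum_cval_conj (χ ψ : IrrCharacter G) :
    ∑ z : Subgroup.center G, cval χ z * conj (cval ψ z) =
      if χ ∈ overSet ψ then (Nat.card (Subgroup.center G) : ℂ) else 0 := by
  split_ifs with h
  · rw [Finset.sum_congr rfl (g := fun _ => (1 : ℂ)) fun z _ => by
      rw [mem_overSet.1 h z z.2, cval_mul_conj ψ z.2], Finset.sum_const, Finset.card_univ,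
      Nat.card_eq_fintype_card, nsmul_one]
  · rw [mem_overSet] at h
    push Not at h
    obtain ⟨z₀, hz₀, hne⟩ := h
    set S := ∑ z : Subgroup.center G, cval χ z * conj (cval ψ z)
    have h1 : cval χ z₀ * conj (cval ψ z₀) * S = S := by
      rw [Finset.mul_sum]
      refine Fintype.sum_equiv (Equiv.mulLeft (⟨z₀, hz₀⟩ : Subgroup.center G)) _ _ fun z => ?_
      simp only [Equiv.coe_mulLeft, Subgroup.coe_mul, cval_mul _ hz₀, map_mul]
      ring
    have h2 : (cval χ z₀ * conj (cval ψ z₀) - 1) * S = 0 := by linear_combination h1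
    refine (mul_eq_zero.1 h2).resolve_left fun e => hne ?_
    linear_combination cval ψ z₀ * e - cval χ z₀ * cval_mul_conj ψ hz₀

/-- Column orthogonality over a central character. -/
theorem sum_over_mul_conj (χ₀ : IrrCharacter G) (y h : G) :
    (Nat.card (Subgroup.center G) : ℂ) *
        ∑ χ ∈ overSet χ₀, (χ : G → ℂ) y * conj ((χ : G → ℂ) h) =
      ∑ z : Subgroup.center G, conj (cval χ₀ z) *
        (Nat.card {g : G // g * h * g⁻¹ = (z : G) * y} : ℂ) := by
  have e : ∀ z : Subgroup.center G, (Nat.card {g : G // g * h * g⁻¹ = (z : G) * y} : ℂ) =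
      ∑ χ : IrrCharacter G, (χ : G → ℂ) ((z : G) * y) * conj ((χ : G → ℂ) h) := fun z => by
    rw [DegreeLtPrime.sum_irr_eq_sum_conj, Finset.sum_boole, Nat.card_eq_fintype_card,
      Fintype.card_subtype]
  simp only [e, Finset.mul_sum, overSet, Finset.sum_filter]
  rw [Finset.sum_comm]
  refine Finset.sum_congr rfl fun χ _ => ?_
  rw [Finset.sum_congr rfl (g := fun z : Subgroup.center G => cval χ z * conj (cval χ₀ z) *
      ((χ : G → ℂ) y * conj ((χ : G → ℂ) h))) fun z _ => by rw [apply_center_mul χ z.2]; ring,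
    ← Finset.sum_mul, sum_cval_conj]
  simp [mem_overSet, ite_mul]

namespace Base

variable (B : Base p u ζ)
include B

theorem conj_apply_upow_self (χ : IrrCharacter G) (i : ZMod p) :
    conj ((χ : G → ℂ) (upow u i)) = (χ : G → ℂ) (upow u i) := by
  rw [Blocks.OrderP.conj_apply_upow B.hu, eq_of_isConj (isClassFunction_coe χ) (B.isConj_upow_neg i)]

/-- The columns of `u^i` and `u^j` over a central character. -/
theorem sum_over_upow (χ₀ : IrrCharacter G) {i j : ZMod p} (hi : i ≠ 0) :
    ∑ χ ∈ overSet χ₀, (χ : G → ℂ) (upow u j) * (χ : G → ℂ) (upow u i) =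
      if j = i ∨ j = -i then (p : ℂ) else 0 := by
  have h := sum_over_mul_conj χ₀ (upow u j) (upow u i)
  have hrw : ∀ z : Subgroup.center G,
      Nat.card {g : G // g * upow u i * g⁻¹ = (z : G) * upow u j} =
      if (1 : G) = z ∧ (j = i ∨ j = -i) then p * Nat.card (Subgroup.center G) else 0 := fun z => by
    rw [← B.card_conj hi (one_mem _) z.2, mul_one, Subgroup.mem_center_iff.1 z.2 (upow u j)]
  simp only [hrw, B.conj_apply_upow_self] at h
  rw [Finset.sum_eq_single (1 : Subgroup.center G)] at h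
  · refine mul_left_cancel₀ (Nat.cast_ne_zero.2 (Nat.card_pos (α := Subgroup.center G)).ne') ?_
    rw [h, OneMemClass.coe_one, cval_one, map_one, one_mul]
    simp only [true_and]
    split_ifs <;> push_cast <;> ring
  · intro z _ hz
    rw [if_neg fun e => hz (Subtype.ext e.1.symm), Nat.cast_zero, mul_zero]
  · simp

/-- A regular column is orthogonal to the column of `u^i` over a central character. -/
theorem sum_over_regular (χ₀ : IrrCharacter G) {g : G} (hg : ¬ p ∣ orderOf g) {i : ZMod p}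
    (hi : i ≠ 0) : ∑ χ ∈ overSet χ₀, (χ : G → ℂ) g * (χ : G → ℂ) (upow u i) = 0 := by
  have h := sum_over_mul_conj χ₀ g (upow u i)
  rw [Finset.sum_eq_zero (s := (Finset.univ : Finset (Subgroup.center G))) fun z _ => ?_] at h
  · simp only [B.conj_apply_upow_self] at h
    exact (mul_eq_zero.1 h).resolve_left
      (Nat.cast_ne_zero.2 (Nat.card_pos (α := Subgroup.center G)).ne')
  · have : IsEmpty {x : G // x * upow u i * x⁻¹ = (z : G) * g} := ⟨fun ⟨x, hx⟩ => by
      apply B.center_mul_regular hg z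
      rw [← hx]
      show p ∣ orderOf (MulAut.conj x (upow u i))
      rw [MulEquiv.orderOf_eq, orderOf_upow B.hu hi]⟩
    rw [Nat.card_of_isEmpty, Nat.cast_zero, mul_zero]

end Base

end CfsgLib.DegPSubTwo
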