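import Cfsg.Agent.Chars.DegPSubTwo.Fixed

/-!
# Expansions in the characters with trivial central character
-/

set_option autoImplicit false
set_option linter.unusedSectionVars false

namespace CfsgLib.DegPSubTwo

open Cfsg CfsgLib CfsgLib.Chars CfsgLib.Blocks.OrderP
open scoped ComplexConjugate Classical

universe u

variable {G : Type u} [Group G] [Fintype G] {p : ℕ} [hpr : Fact p.Prime] {u : G}
  {ζ : IrrCharacter G} {A : Good p u ζ} {θ : IrrCharacter G} {δ : ℤ}
  {X : (ZMod p)ˣ → IrrCharacter G}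

/-- The sum of two cosines as a product. -/
theorem vv_mul_vv (a b : ZMod p) : vv p a * vv p b = vv p (a + b) + vv p (a - b) := by
  simp only [vv, add_mul, mul_add, ← AddChar.map_add_eq_mul]
  ring_nf

theorem sum_units_vv_mul {a b : ZMod p} :
    ∑ k : (ZMod p)ˣ, vv p ((k : ZMod p) * a) * vv p ((k : ZMod p) * b) =
      (if a + b = 0 then 2 * (p : ℂ) else 0) + (if a = b then 2 * (p : ℂ) else 0) - 4 := by
  rw [sum_units fun k => vv p (k * a) * vv p (k * b), sum_vv_mul]
  simp only [vv, zero_mul, neg_zero, AddChar.map_zero_eq_one]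
  ring

theorem sum_units_vv_self {c : ZMod p} (hc : c ≠ 0) : ∑ k : (ZMod p)ˣ, vv p ((k : ZMod p) * c) = -2 := by
  rw [sum_units fun k => vv p (k * c)]
  simp only [vv, Finset.sum_add_distrib, zero_mul, neg_zero, AddChar.map_zero_eq_one, ← mul_neg,
    sum_ech, if_neg hc, if_neg (neg_ne_zero.2 hc)]
  ring

/-- `[k = ± c]`. -/
noncomputable def ind (c : ZMod p) (k : (ZMod p)ˣ) : ℂ :=
  if (k : ZMod p) = c ∨ (k : ZMod p) = -c then 1 else 0

theorem sum_ind_mul {c : ZMod p} (hc : c ≠ 0) (h5 : 5 < p) (F : ZMod p → ℂ) :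
    ∑ k : (ZMod p)ˣ, ind c k * F k = F c + F (-c) := by
  simp only [ind, ite_mul, one_mul, zero_mul]
  rw [← Finset.sum_filter,
    show ((Finset.univ : Finset (ZMod p)ˣ).filter fun k : (ZMod p)ˣ =>
      (k : ZMod p) = c ∨ (k : ZMod p) = -c) = {Units.mk0 c hc, -Units.mk0 c hc} from ?_,
    Finset.sum_pair (units_neg_ne h5 _).symm]
  · simp
  · ext k
    simp [Units.ext_iff]

/-- The members vanishing on the non-trivial powers of `u`. -/
noncomputable def restSet (θ : IrrCharacter G) (X : (ZMod p)ˣ → IrrCharacter G) :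
    Finset (IrrCharacter G) :=
  overSet (oneChar G) \ insert (oneChar G) (insert θ (Finset.univ.image X))

namespace Princ

variable (Pr : Princ A θ δ X)
include Pr

theorem delta_ne_zero : (δ : ℂ) ≠ 0 := by rcases Pr.hδ with rfl | rfl <;> norm_num

theorem delta_mul_self : (δ : ℂ) * δ = 1 := by rcases Pr.hδ with rfl | rfl <;> norm_num

theorem θ_not_mem_range (k : (ZMod p)ˣ) : X k ≠ θ := by
  intro e
  have e1 := Pr.X_val k ((k⁻¹ : (ZMod p)ˣ) : ZMod p) (Units.ne_zero _)
  have e2 := Pr.X_val k (((k⁻¹ : (ZMod p)ˣ) : ZMod p) * 2)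
    (mul_ne_zero (Units.ne_zero _) (two_ne_zero_zmod A.base.five_lt))
  rw [e, Pr.θ_val _ (Units.ne_zero _), Units.mul_inv] at e1
  rw [e, Pr.θ_val _ (mul_ne_zero (Units.ne_zero _) (two_ne_zero_zmod A.base.five_lt)),
    Units.mul_inv_cancel_left] at e2
  rcases vv_eq_iff.1 (mul_left_cancel₀ Pr.delta_ne_zero (e1.symm.trans e2)) with e | e
  · exact one_ne_zero (show (1 : ZMod p) = 0 by linear_combination -e)
  · have h3 : ((3 : ℕ) : ZMod p) = 0 := by push_cast; linear_combination e
    rw [ZMod.natCast_eq_zero_iff] at h3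
    have := Nat.le_of_dvd (by norm_num) h3
    have := A.base.five_lt
    omega

theorem X_ne_one (k : (ZMod p)ˣ) : X k ≠ oneChar G := by
  intro e
  have e1 := Pr.X_val k ((k⁻¹ : (ZMod p)ˣ) : ZMod p) (Units.ne_zero _)
  have e2 := Pr.X_val k (((k⁻¹ : (ZMod p)ˣ) : ZMod p) * 2)
    (mul_ne_zero (Units.ne_zero _) (two_ne_zero_zmod A.base.five_lt))
  rw [e, oneChar_apply, Units.mul_inv] at e1
  rw [e, oneChar_apply, Units.mul_inv_cancel_left] at e2
  rcases vv_eq_iff.1 (mul_left_cancel₀ Pr.delta_ne_zero (e1.symm.trans e2)) with e | e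
  · exact one_ne_zero (show (1 : ZMod p) = 0 by linear_combination -e)
  · have h3 : ((3 : ℕ) : ZMod p) = 0 := by push_cast; linear_combination e
    rw [ZMod.natCast_eq_zero_iff] at h3
    have := Nat.le_of_dvd (by norm_num) h3
    have := A.base.five_lt
    omega

theorem rest_apply {χ : IrrCharacter G} (hχ : χ ∈ restSet θ X) {i : ZMod p} (hi : i ≠ 0) :
    (χ : G → ℂ) (upow u i) = 0 := by
  obtain ⟨h1, h2⟩ := Finset.mem_sdiff.1 hχ
  refine Pr.rest χ h1 (fun e => h2 (by simp [e])) (fun e => h2 (by simp [e]))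
    (fun k e => h2 (by simp [e])) i hi

/-- Twice the expansion of a class function invariant under the centre. -/
theorem expand {F : G → ℂ} (hF : IsClassFunction G F)
    (hZ : ∀ z ∈ Subgroup.center G, ∀ g, F (z * g) = F g) (g : G) :
    2 * F g = 2 * classInner F (oneChar G : G → ℂ) +
      2 * classInner F (θ : G → ℂ) * (θ : G → ℂ) g +
      ∑ k : (ZMod p)ˣ, classInner F (X k : G → ℂ) * (X k : G → ℂ) g +
      2 * ∑ χ ∈ restSet θ X, classInner F (χ : G → ℂ) * (χ : G → ℂ) g := by
  have hsum := eq_sum_classInner_mul hF g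
  rw [hsum, ← Finset.sum_subset (Finset.subset_univ (overSet (oneChar G))) fun χ _ hχ => ?_]
  · have hsub : insert (oneChar G) (insert θ (Finset.univ.image X)) ⊆ overSet (oneChar G) := by
      intro x hx
      rcases Finset.mem_insert.1 hx with rfl | hx
      · exact mem_overSet.2 fun z _ => rfl
      rcases Finset.mem_insert.1 hx with rfl | hx
      · exact Pr.θ_mem
      · obtain ⟨k, -, rfl⟩ := Finset.mem_image.1 hx
        exact Pr.X_mem k
    have hθW : θ ∉ Finset.univ.image X := fun h => by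
      obtain ⟨k, -, hk⟩ := Finset.mem_image.1 h
      exact Pr.θ_not_mem_range k hk
    have h1W : oneChar G ∉ insert θ (Finset.univ.image X) := fun h => by
      rcases Finset.mem_insert.1 h with h | h
      · exact Pr.θ_ne h.symm
      · obtain ⟨k, -, hk⟩ := Finset.mem_image.1 h
        exact Pr.X_ne_one k hk
    rw [← Finset.sum_sdiff hsub, Finset.sum_insert h1W, Finset.sum_insert hθW, oneChar_apply]
    have hW : ∑ k : (ZMod p)ˣ, classInner F (X k : G → ℂ) * (X k : G → ℂ) g =
        2 * ∑ χ ∈ Finset.univ.image X, classInner F (χ : G → ℂ) * (χ : G → ℂ) g := by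
      rw [← Finset.sum_fiberwise_of_maps_to (t := Finset.univ.image X) (g := X)
        (fun k _ => Finset.mem_image_of_mem _ (Finset.mem_univ k)), Finset.mul_sum]
      refine Finset.sum_congr rfl fun χ hχ => ?_
      obtain ⟨l, -, rfl⟩ := Finset.mem_image.1 hχ
      rw [Finset.sum_congr rfl (g := fun _ => classInner F (X l : G → ℂ) * (X l : G → ℂ) g)
          fun k hk => by rw [(Finset.mem_filter.1 hk).2], Finset.sum_const,
        show ((Finset.univ : Finset (ZMod p)ˣ).filter fun k => X k = X l) = {l, -l} from ?_,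
        Finset.card_pair (units_neg_ne A.base.five_lt l).symm, nsmul_eq_mul, Nat.cast_two]
      ext k
      rw [Finset.mem_filter, eq_comm, Pr.X_eq_iff, Finset.mem_insert, Finset.mem_singleton]
      simp
    rw [hW]
    show _ = _ + _ + _ + 2 * ∑ χ ∈ overSet (oneChar G) \ _, _
    ring
  · rw [mem_overSet] at hχ
    push Not at hχ
    obtain ⟨z, hz, hne⟩ := hχ
    rw [cval_oneChar] at hne
    have h1 : classInner F (χ : G → ℂ) = cval χ z⁻¹ * classInner F (χ : G → ℂ) := by
      conv_lhs => unfold classInner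
      rw [classInner, mul_left_comm (cval χ z⁻¹)]
      congr 1
      rw [Finset.mul_sum]
      refine Fintype.sum_equiv (Equiv.mulLeft z⁻¹) _ _ fun x => ?_
      rw [Equiv.coe_mulLeft, hZ _ (inv_mem hz), apply_center_mul χ (inv_mem hz), map_mul]
      have := cval_mul_conj χ (inv_mem hz)
      linear_combination (-(F x * conj ((χ : G → ℂ) x))) * this
    have h2 : (cval χ z⁻¹ - 1) * classInner F (χ : G → ℂ) = 0 := by linear_combination -h1
    have h3 : classInner F (χ : G → ℂ) = 0 := (mul_eq_zero.1 h2).resolve_left fun e => hne (by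
      have e1 := sub_eq_zero.1 e
      rw [cval_inv χ hz] at e1
      simpa using congrArg conj e1)
    rw [h3, zero_mul]

theorem expand_upow {F : G → ℂ} (hF : IsClassFunction G F)
    (hZ : ∀ z ∈ Subgroup.center G, ∀ g, F (z * g) = F g) {i : ZMod p} (hi : i ≠ 0) :
    2 * F (upow u i) = 2 * classInner F (oneChar G : G → ℂ) + 2 * classInner F (θ : G → ℂ) * δ +
      ∑ k : (ZMod p)ˣ, classInner F (X k : G → ℂ) * ((δ : ℂ) * vv p (k * i)) := by
  rw [Pr.expand hF hZ, Pr.θ_val i hi,
    Finset.sum_eq_zero (s := restSet θ X) fun χ hχ => by rw [Pr.rest_apply hχ hi, mul_zero],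
    mul_zero, add_zero, Finset.sum_congr rfl fun k _ => by rw [Pr.X_val k i hi]]

theorem expand_regular {F : G → ℂ} (hF : IsClassFunction G F)
    (hZ : ∀ z ∈ Subgroup.center G, ∀ g, F (z * g) = F g) {g : G} (hg : ¬ p ∣ orderOf g) :
    2 * F g = 2 * classInner F (oneChar G : G → ℂ) +
      2 * classInner F (θ : G → ℂ) * (θ : G → ℂ) g +
      (∑ k : (ZMod p)ˣ, classInner F (X k : G → ℂ)) * ((θ : G → ℂ) g + δ) +
      2 * ∑ χ ∈ restSet θ X, classInner F (χ : G → ℂ) * (χ : G → ℂ) g := by
  rw [Pr.expand hF hZ, Finset.sum_mul, Finset.sum_congr rfl fun k _ => by rw [Pr.X_reg k g hg]]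

/-- The differences of the coefficients on the family. -/
theorem coeff_sub {F : G → ℂ} (hF : IsClassFunction G F)
    (hZ : ∀ z ∈ Subgroup.center G, ∀ g, F (z * g) = F g) (k l : (ZMod p)ˣ) :
    2 * (p : ℂ) * (classInner F (X k : G → ℂ) - classInner F (X l : G → ℂ)) =
      (δ : ℂ) * ∑ i : (ZMod p)ˣ, F (upow u (i : ZMod p)) *
        (vv p ((i : ZMod p) * k) - vv p ((i : ZMod p) * l)) := by
  set f : G → ℂ := fun g => F g * (conj ((X k : G → ℂ) g) - conj ((X l : G → ℂ) g)) with hf
  have hfc : IsClassFunction G f := fun g h => by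
    simp only [hf]
    rw [hF g h, isClassFunction_coe (X k) g h, isClassFunction_coe (X l) g h]
  have e1 : classInner F (X k : G → ℂ) - classInner F (X l : G → ℂ) =
      (Nat.card G : ℂ)⁻¹ * ∑ g ∈ Finset.univ.filter (fun g : G => p ∣ orderOf g), f g := by
    rw [Finset.sum_filter_of_ne (p := fun g : G => p ∣ orderOf g) fun g _ hg => by
      by_contra hd
      exact hg (by simp only [hf, Pr.X_reg k g hd, Pr.X_reg l g hd, sub_self, mul_zero])]
    simp only [hf, mul_sub, Finset.sum_sub_distrib, classInner]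
  have h2 := A.base.sum_singular hfc
  have e2 : ∀ i : {i : ZMod p // i ≠ 0}, ∀ z : Subgroup.center G, f (upow u i.1 * z) =
      F (upow u i.1) * ((δ : ℂ) * (vv p (i.1 * k) - vv p (i.1 * l))) := by
    intro i z
    simp only [hf]
    rw [Subgroup.mem_center_iff.1 z.2 (upow u i.1), hZ _ z.2,
      apply_center_mul_of_mem (Pr.X_mem k) z.2, apply_center_mul_of_mem (Pr.X_mem l) z.2,
      A.base.conj_apply_upow_self, A.base.conj_apply_upow_self, Pr.X_val k _ i.2, Pr.X_val l _ i.2,
      mul_comm (k : ZMod p), mul_comm (l : ZMod p)]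
    ring
  simp only [e2, Finset.sum_const, Finset.card_univ, ← Nat.card_eq_fintype_card, nsmul_eq_mul] at h2
  rw [e1]
  have hz : (Nat.card (Subgroup.center G) : ℂ) ≠ 0 := Nat.cast_ne_zero.2 Nat.card_pos.ne'
  have hG : (Nat.card G : ℂ) ≠ 0 := Chars.natCard_ne_zero
  have h3 : ∑ i : {i : ZMod p // i ≠ 0}, (Nat.card (Subgroup.center G) : ℂ) *
      (F (upow u i.1) * ((δ : ℂ) * (vv p (i.1 * k) - vv p (i.1 * l)))) =
      (Nat.card (Subgroup.center G) : ℂ) * ((δ : ℂ) * ∑ i : (ZMod p)ˣ, F (upow u (i : ZMod p)) *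
        (vv p ((i : ZMod p) * k) - vv p ((i : ZMod p) * l))) := by
    rw [Finset.mul_sum, Finset.mul_sum]
    exact Fintype.sum_equiv unitsEquivNeZero.symm _ _ fun i => by
      show _ = _
      simp only [unitsEquivNeZero, Equiv.coe_fn_symm_mk, Units.val_mk0]
      ring
  rw [h3] at h2
  push_cast at h2
  have h4 : 2 * (p : ℂ) * ∑ g ∈ Finset.univ.filter (fun g : G => p ∣ orderOf g), f g =
      (Nat.card G : ℂ) * ((δ : ℂ) * ∑ i : (ZMod p)ˣ, F (upow u (i : ZMod p)) *
        (vv p ((i : ZMod p) * k) - vv p ((i : ZMod p) * l))) :=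
    mul_left_cancel₀ hz (by linear_combination h2)
  rw [mul_left_comm, h4, inv_mul_cancel_left₀ hG]

end Princ

end CfsgLib.DegPSubTwo
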