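import Cfsg.Agent.Chars.DegPSubTwo.Mults

/-!
# The characters over the central character of `ζ` not vanishing on the Sylow subgroup

They are the `(p - 1) / 2` conjugates of `ζ` and two characters with the values `1` and `-1` there.
-/

set_option autoImplicit false
set_option linter.unusedSectionVars false

namespace CfsgLib.DegPSubTwo

open Cfsg CfsgLib CfsgLib.Chars CfsgLib.Blocks.OrderP
open scoped ComplexConjugate Classical

universe u

variable {G : Type u} [Group G] [Fintype G] {p : ℕ} [hpr : Fact p.Prime] {u : G}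
  {ζ : IrrCharacter G}

/-- The setting with a normalised generator. -/
structure Good (p : ℕ) [Fact p.Prime] (u : G) (ζ : IrrCharacter G) : Prop where
  base : Base p u ζ
  val : ∀ i : ZMod p, i ≠ 0 → (ζ : G → ℂ) (upow u i) = -vv p i

theorem sum_units (F : ZMod p → ℂ) : ∑ k : (ZMod p)ˣ, F k = ∑ j, F j - F 0 := by
  rw [← Finset.sum_erase_eq_sub (Finset.mem_univ (0 : ZMod p))]
  refine Finset.sum_bij' (fun k _ => (k : ZMod p))
    (fun j hj => Units.mk0 j (Finset.ne_of_mem_erase hj)) (fun k _ => ?_) (fun j _ => Finset.mem_univ _)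
    (fun k _ => Units.ext rfl) (fun j _ => rfl) (fun k _ => rfl)
  exact Finset.mem_erase.2 ⟨k.ne_zero, Finset.mem_univ _⟩

theorem two_ne_zero_zmod (h5 : 5 < p) : (2 : ZMod p) ≠ 0 := by
  intro h
  rw [← Nat.cast_two, ZMod.natCast_eq_zero_iff] at h
  have := Nat.le_of_dvd two_pos h
  omega

theorem units_neg_ne (h5 : 5 < p) (k : (ZMod p)ˣ) : -k ≠ k := by
  intro e
  have e' : -(k : ZMod p) = k := by rw [← Units.val_neg, e]
  have h1 : (2 : ZMod p) * k = 0 := by linear_combination -e'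
  rcases mul_eq_zero.1 h1 with h2 | h2
  · exact two_ne_zero_zmod h5 h2
  · exact k.ne_zero h2

/-- A character whose value at the non-trivial powers of `u` is constant: the constant is an
integer congruent to the degree. -/
theorem exists_int_of_const (hu : orderOf u = p) {χ : G → ℂ} (hχ : IsCharacter G χ) {c : ℂ}
    (h : ∀ i : ZMod p, i ≠ 0 → χ (upow u i) = c) :
    ∃ m n : ℤ, c = m ∧ χ 1 = (m : ℂ) + (p : ℂ) * n := by
  obtain ⟨D, m₀, hD, hD0, h1, -⟩ := exists_int_colD hu hχ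
  have hc : ∀ j, j ≠ 0 → (D j : ℂ) = -c := fun j hj => by rw [← hD, colD_const hu χ c h hj]
  have hone := hc 1 one_ne_zero
  refine ⟨-D 1, (m₀ : ℤ) + D 1, by push_cast; linear_combination hone, ?_⟩
  rw [h1, ← Finset.add_sum_erase _ _ (Finset.mem_univ (0 : ZMod p)), hD0, Int.cast_zero, zero_add,
    Finset.sum_congr rfl (g := fun _ => (D 1 : ℂ)) fun j hj => by
      rw [hc j (Finset.ne_of_mem_erase hj), hone],
    Finset.sum_const, Finset.card_erase_of_mem (Finset.mem_univ _), Finset.card_univ, ZMod.card,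
    nsmul_eq_mul, Nat.cast_sub hpr.out.pos]
  push_cast
  ring

namespace Good

variable (A : Good p u ζ)
include A

theorem gal_val (k : (ZMod p)ˣ) {i : ZMod p} (hi : i ≠ 0) :
    (A.base.gal k : G → ℂ) (upow u i) = -vv p (k * i) := by
  rw [A.base.gal_upow, A.val _ (mul_ne_zero k.ne_zero hi)]

theorem gal_eq_iff (k l : (ZMod p)ˣ) : A.base.gal k = A.base.gal l ↔ l = k ∨ l = -k := by
  rw [A.base.gal_eq_iff]
  constructor
  · intro h
    have h1 := h 1 one_ne_zero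
    rw [mul_one, A.val _ (Units.ne_zero _), A.val _ one_ne_zero, neg_inj, vv_eq_iff] at h1
    rcases h1 with e | e
    · left
      have : k⁻¹ * l = 1 := Units.ext e
      rw [inv_mul_eq_one] at this
      exact this.symm
    · right
      have : k⁻¹ * l = -1 := Units.ext (e.trans (by simp))
      rw [inv_mul_eq_iff_eq_mul] at this
      rw [this, mul_neg, mul_one]
  · rintro h i hi
    rcases h with rfl | rfl
    · rw [inv_mul_cancel, Units.val_one, one_mul]
    · rw [mul_neg, inv_mul_cancel, Units.val_neg, Units.val_one, neg_one_mul,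
        A.val _ (neg_ne_zero.2 hi), A.val _ hi, vv_neg]

/-- The conjugates of `ζ`. -/
noncomputable def conjs : Finset (IrrCharacter G) :=
  (Finset.univ : Finset (ZMod p)ˣ).image A.base.gal

theorem mem_conjs {χ : IrrCharacter G} : χ ∈ A.conjs ↔ ∃ k, A.base.gal k = χ := by simp [conjs]

theorem conjs_subset : A.conjs ⊆ overSet ζ := fun χ hχ => by
  obtain ⟨k, rfl⟩ := A.mem_conjs.1 hχ
  exact A.base.gal_mem_overSet k

theorem sum_units_gal (F : IrrCharacter G → ℂ) :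
    ∑ k : (ZMod p)ˣ, F (A.base.gal k) = 2 * ∑ χ ∈ A.conjs, F χ := by
  rw [← Finset.sum_fiberwise_of_maps_to (t := A.conjs) (g := A.base.gal)
    (fun k _ => A.mem_conjs.2 ⟨k, rfl⟩), Finset.mul_sum]
  refine Finset.sum_congr rfl fun χ hχ => ?_
  obtain ⟨l, rfl⟩ := A.mem_conjs.1 hχ
  rw [Finset.sum_congr rfl (g := fun _ => F (A.base.gal l)) fun k hk => by
    rw [(Finset.mem_filter.1 hk).2], Finset.sum_const,
    show ((Finset.univ : Finset (ZMod p)ˣ).filter fun k => A.base.gal k = A.base.gal l) = {l, -l}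
      from ?_, Finset.card_pair (units_neg_ne A.base.five_lt l).symm, nsmul_eq_mul, Nat.cast_two]
  ext k
  rw [Finset.mem_filter, eq_comm, A.gal_eq_iff, Finset.mem_insert, Finset.mem_singleton]
  simp

theorem card_conjs : (2 : ℂ) * A.conjs.card = (p : ℂ) - 1 := by
  have h := A.sum_units_gal fun _ => 1
  rw [Finset.sum_const, Finset.sum_const, nsmul_one, nsmul_one, Finset.card_univ,
    ZMod.card_units] at h
  rw [← h, Nat.cast_sub hpr.out.pos, Nat.cast_one]

theorem sum_conjs_mul {i j : ZMod p} (hi : i ≠ 0) (hj : j ≠ 0) :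
    ∑ χ ∈ A.conjs, (χ : G → ℂ) (upow u j) * (χ : G → ℂ) (upow u i) =
      (if j = i ∨ j = -i then (p : ℂ) else 0) - 2 := by
  refine mul_left_cancel₀ (two_ne_zero : (2 : ℂ) ≠ 0) ?_
  rw [← A.sum_units_gal fun χ => (χ : G → ℂ) (upow u j) * (χ : G → ℂ) (upow u i)]
  simp only [A.gal_val _ hi, A.gal_val _ hj, neg_mul_neg]
  rw [sum_units fun k => vv p (k * j) * vv p (k * i), sum_vv_mul]
  have h2 : i ≠ -i := fun e => by
    have : (2 : ZMod p) * i = 0 := by linear_combination e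
    rcases mul_eq_zero.1 this with h | h
    · exact two_ne_zero_zmod A.base.five_lt h
    · exact hi h
  simp only [vv, zero_mul, neg_zero, AddChar.map_zero_eq_one, add_eq_zero_iff_eq_neg]
  by_cases h3 : j = -i
  · rw [if_pos h3, if_neg fun e => h2 (e.symm.trans h3), if_pos (Or.inr h3)]
    ring
  · by_cases h4 : j = i
    · rw [if_neg h3, if_pos h4, if_pos (Or.inl h4)]; ring
    · rw [if_neg h3, if_neg h4, if_neg (by tauto)]; ring

theorem sum_conjs_regular {g : G} (hg : ¬ p ∣ orderOf g) :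
    ∑ χ ∈ A.conjs, (χ : G → ℂ) g * (χ : G → ℂ) (upow u (1 : ZMod p)) = (ζ : G → ℂ) g := by
  refine mul_left_cancel₀ (two_ne_zero : (2 : ℂ) ≠ 0) ?_
  rw [← A.sum_units_gal fun χ => (χ : G → ℂ) g * (χ : G → ℂ) (upow u (1 : ZMod p))]
  simp only [A.base.gal_regular _ hg, A.gal_val _ one_ne_zero, mul_one, ← Finset.mul_sum,
    Finset.sum_neg_distrib]
  rw [sum_units (vv p)]
  simp only [vv, Finset.sum_add_distrib, neg_zero, AddChar.map_zero_eq_one]
  have h1 : ∑ x : ZMod p, ech p x = 0 := by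
    have := sum_ech (p := p) (1 : ZMod p)
    simpa using this
  have h2 : ∑ x : ZMod p, ech p (-x) = 0 := by
    rw [← h1]
    exact Equiv.sum_comp (Equiv.neg _) (ech p)
  rw [h1, h2]
  ring

theorem not_mem_conjs_of_const {χ : IrrCharacter G} {c : ℂ}
    (h : ∀ i : ZMod p, i ≠ 0 → (χ : G → ℂ) (upow u i) = c) : χ ∉ A.conjs := by
  intro hχ
  obtain ⟨k, rfl⟩ := A.mem_conjs.1 hχ
  have h1 := h ((k⁻¹ : (ZMod p)ˣ) : ZMod p) (Units.ne_zero _)
  have h2 := h (((k⁻¹ : (ZMod p)ˣ) : ZMod p) * 2)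
    (mul_ne_zero (Units.ne_zero _) (two_ne_zero_zmod A.base.five_lt))
  rw [A.gal_val _ (Units.ne_zero _), Units.mul_inv] at h1
  rw [A.gal_val _ (mul_ne_zero (Units.ne_zero _) (two_ne_zero_zmod A.base.five_lt)),
    Units.mul_inv_cancel_left, ← h1, neg_inj, vv_eq_iff] at h2
  rcases h2 with e | e
  · have : (1 : ZMod p) = 0 := by linear_combination e
    exact one_ne_zero this
  · have h3 : ((3 : ℕ) : ZMod p) = 0 := by push_cast; linear_combination e
    rw [ZMod.natCast_eq_zero_iff] at h3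
    have := Nat.le_of_dvd (by norm_num) h3
    have := A.base.five_lt
    omega

/-- **The two rational characters.** -/
theorem exists_psi : ∃ (ψ₀ ψ₁ : IrrCharacter G) (k₀ : ℕ), ψ₀ ∈ overSet ζ ∧ ψ₁ ∈ overSet ζ ∧
    ψ₀ ≠ ψ₁ ∧ ψ₀ ∉ A.conjs ∧ ψ₁ ∉ A.conjs ∧
    (∀ i : ZMod p, i ≠ 0 → (ψ₀ : G → ℂ) (upow u i) = 1) ∧
    (∀ i : ZMod p, i ≠ 0 → (ψ₁ : G → ℂ) (upow u i) = -1) ∧
    (∀ χ ∈ overSet ζ, χ ∉ A.conjs → χ ≠ ψ₀ → χ ≠ ψ₁ → ∀ i : ZMod p, i ≠ 0 →
      (χ : G → ℂ) (upow u i) = 0) ∧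
    (∀ g : G, ¬ p ∣ orderOf g → (ψ₁ : G → ℂ) g = (ψ₀ : G → ℂ) g + (ζ : G → ℂ) g) ∧
    (ψ₀ : G → ℂ) 1 = (k₀ : ℂ) * p + 1 := by
  set O := overSet ζ \ A.conjs with hO
  have hsum : ∀ i j : ZMod p, i ≠ 0 → j ≠ 0 →
      ∑ χ ∈ O, (χ : G → ℂ) (upow u j) * (χ : G → ℂ) (upow u i) = 2 := by
    intro i j hi hj
    have h1 := Finset.sum_sdiff A.conjs_subset
      (f := fun χ : IrrCharacter G => (χ : G → ℂ) (upow u j) * (χ : G → ℂ) (upow u i))
    rw [A.base.sum_over_upow ζ hi, A.sum_conjs_mul hi hj] at h1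
    linear_combination h1
  -- constant on the powers
  have hconst : ∀ χ ∈ O, ∀ i : ZMod p, i ≠ 0 →
      (χ : G → ℂ) (upow u i) = (χ : G → ℂ) (upow u (1 : ZMod p)) := by
    intro χ hχ i hi
    set r : IrrCharacter G → ℝ := fun ψ =>
      (((ψ : G → ℂ) (upow u i)).re - ((ψ : G → ℂ) (upow u (1 : ZMod p))).re) with hr
    have hre : ∀ (ψ : IrrCharacter G) (j : ZMod p),
        (ψ : G → ℂ) (upow u j) = (((ψ : G → ℂ) (upow u j)).re : ℂ) :=
      fun ψ j => (Complex.conj_eq_iff_re.1 (A.base.conj_apply_upow_self ψ j)).symm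
    have h0 : ∑ ψ ∈ O, r ψ ^ 2 = 0 := by
      apply Complex.ofReal_injective
      push_cast [hr]
      simp only [← hre, pow_two, mul_sub, sub_mul, Finset.sum_sub_distrib]
      rw [hsum i i hi hi, hsum i 1 hi one_ne_zero, hsum 1 i one_ne_zero hi,
        hsum 1 1 one_ne_zero one_ne_zero]
      ring
    have h1 := (Finset.sum_eq_zero_iff_of_nonneg fun ψ _ => sq_nonneg (r ψ)).1 h0 χ hχ
    rw [sq_eq_zero_iff, hr, sub_eq_zero] at h1
    rw [hre, h1, ← hre]
  choose! m n hm hn using fun χ (hχ : χ ∈ O) =>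
    exists_int_of_const A.base.hu (isCharacter_coe χ) (hconst χ hχ)
  have hm2 : ∑ χ ∈ O, m χ ^ 2 = 2 := by
    apply Int.cast_injective (α := ℂ)
    push_cast
    rw [← hsum 1 1 one_ne_zero one_ne_zero]
    exact Finset.sum_congr rfl fun χ hχ => by rw [hm χ hχ, pow_two]
  -- the relation on regular elements
  have hrel : ∀ g, ¬ p ∣ orderOf g →
      (ζ : G → ℂ) g + ∑ χ ∈ O, (χ : G → ℂ) g * (m χ : ℂ) = 0 := by
    intro g hg
    have h1 := Finset.sum_sdiff A.conjs_subset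
      (f := fun χ : IrrCharacter G => (χ : G → ℂ) g * (χ : G → ℂ) (upow u (1 : ZMod p)))
    rw [A.base.sum_over_regular ζ hg one_ne_zero, A.sum_conjs_regular hg, add_comm] at h1
    rw [← h1]
    congr 1
    exact Finset.sum_congr rfl fun χ hχ => by rw [hm χ hχ]
  -- the degrees
  have h1g : ¬ p ∣ orderOf (1 : G) := by rw [orderOf_one]; exact hpr.out.not_dvd_one
  obtain ⟨d, hd⟩ : ∃ d : IrrCharacter G → ℕ, ∀ χ : IrrCharacter G, (χ : G → ℂ) 1 = d χ :=
    ⟨fun χ => charDegree (χ : G → ℂ), fun χ => (coe_charDegree χ).symm⟩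
  have hdpos : ∀ χ, 0 < d χ := fun χ => Nat.pos_of_ne_zero fun e =>
    map_one_ne_zero χ (by rw [hd, e, Nat.cast_zero])
  have hdm : ((p - 2 : ℕ) : ℤ) + ∑ χ ∈ O, (d χ : ℤ) * m χ = 0 := by
    apply Int.cast_injective (α := ℂ)
    push_cast
    rw [← hrel 1 h1g, ← A.base.deg, coe_charDegree]
    simp only [hd]
  have hdn : ∀ χ ∈ O, (d χ : ℤ) = m χ + p * n χ := fun χ hχ => by
    apply Int.cast_injective (α := ℂ)
    push_cast
    rw [← hd, hn χ hχ]
  -- exactly two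
  set S := O.filter fun χ => m χ ≠ 0 with hS
  have hsq : ∀ χ ∈ S, m χ = 1 ∨ m χ = -1 := by
    intro χ hχ
    rw [hS, Finset.mem_filter] at hχ
    have h1 : m χ ^ 2 ≤ 2 := hm2 ▸ Finset.single_le_sum (fun y _ => sq_nonneg (m y)) hχ.1
    have : m χ ≤ 1 := by nlinarith
    have : -1 ≤ m χ := by nlinarith
    omega
  have hcard : S.card = 2 := by
    have h : ∑ χ ∈ S, m χ ^ 2 = 2 := by
      rw [hS, Finset.sum_filter_of_ne (p := fun χ => m χ ≠ 0)
        fun x _ hx => fun e => hx (by simp [e])]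
      exact hm2
    rw [Finset.sum_congr rfl (g := fun _ => (1 : ℤ)) fun χ hχ => by
      rcases hsq χ hχ with e | e <;> simp [e], Finset.sum_const, nsmul_eq_mul, mul_one] at h
    exact_mod_cast h
  obtain ⟨a, b, hab, hSab⟩ := Finset.card_eq_two.1 hcard
  have hp5 := A.base.five_lt
  have hpos : ∀ χ ∈ S, m χ = 1 → 0 ≤ n χ := by
    intro χ hχ e
    have h1 := hdn χ (Finset.mem_filter.1 hχ).1
    have h2 := hdpos χ
    rw [e] at h1
    nlinarith
  have hneg : ∀ χ ∈ S, m χ = -1 → (p : ℤ) ≤ (d χ : ℤ) + 1 := by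
    intro χ hχ e
    have h1 := hdn χ (Finset.mem_filter.1 hχ).1
    have h2 := hdpos χ
    rw [e] at h1
    have h3 : 1 ≤ n χ := by nlinarith
    nlinarith
  have hrel' : ((p - 2 : ℕ) : ℤ) + ((d a : ℤ) * m a + (d b : ℤ) * m b) = 0 := by
    rw [← hdm, ← Finset.sum_pair (f := fun χ => (d χ : ℤ) * m χ) hab, ← hSab, hS,
      Finset.sum_filter_of_ne (p := fun χ => m χ ≠ 0) fun x _ hx e => hx (by simp [e])]
  have hmemS : a ∈ S ∧ b ∈ S := by simp [hSab]
  obtain ⟨ψ₀, ψ₁, hne, hS', e0, e1⟩ : ∃ ψ₀ ψ₁ : IrrCharacter G, ψ₀ ≠ ψ₁ ∧ S = {ψ₀, ψ₁} ∧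
      m ψ₀ = 1 ∧ m ψ₁ = -1 := by
    have := hdpos a
    have := hdpos b
    rcases hsq a hmemS.1 with ea | ea <;> rcases hsq b hmemS.2 with eb | eb
    · exfalso; rw [ea, eb] at hrel'; omega
    · exact ⟨a, b, hab, hSab, ea, eb⟩
    · exact ⟨b, a, hab.symm, by rw [hSab, Finset.pair_comm], eb, ea⟩
    · exfalso
      have := hneg a hmemS.1 ea
      have := hneg b hmemS.2 eb
      rw [ea, eb] at hrel'
      omega
  have h0S : ψ₀ ∈ S ∧ ψ₁ ∈ S := by simp [hS']
  have h0O := (Finset.mem_filter.1 h0S.1).1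
  have h1O := (Finset.mem_filter.1 h0S.2).1
  refine ⟨ψ₀, ψ₁, (n ψ₀).toNat, (Finset.mem_sdiff.1 h0O).1, (Finset.mem_sdiff.1 h1O).1, hne,
    (Finset.mem_sdiff.1 h0O).2, (Finset.mem_sdiff.1 h1O).2, fun i hi => ?_, fun i hi => ?_,
    fun χ hχ hW h0 h1 i hi => ?_, fun g hg => ?_, ?_⟩
  · rw [hconst _ h0O i hi, hm _ h0O, e0, Int.cast_one]
  · rw [hconst _ h1O i hi, hm _ h1O, e1, Int.cast_neg, Int.cast_one]
  · have hχO : χ ∈ O := Finset.mem_sdiff.2 ⟨hχ, hW⟩
    rw [hconst _ hχO i hi, hm _ hχO, show m χ = 0 from ?_, Int.cast_zero]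
    by_contra hh
    have : χ ∈ S := Finset.mem_filter.2 ⟨hχO, hh⟩
    rw [hS', Finset.mem_insert, Finset.mem_singleton] at this
    tauto
  · have h := hrel g hg
    rw [← Finset.sum_filter_of_ne (p := fun χ => m χ ≠ 0) fun x _ hx e => hx (by simp [e]), ← hS,
      hS', Finset.sum_pair hne, e0, e1] at h
    push_cast at h
    linear_combination -h
  · have hz := hdn _ h0O
    rw [e0] at hz
    have hn0 := hpos _ h0S.1 e0
    rw [hd, ← Int.cast_natCast, hz, ← Int.cast_natCast (n ψ₀).toNat, Int.toNat_of_nonneg hn0]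
    push_cast
    ring

end Good

end CfsgLib.DegPSubTwo
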