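import Cfsg.Agent.Chars.DegPSubTwo.Principal
import Cfsg.Agent.Blocks.OrderP.Perfect.Fixed

/-!
# The fixed points of the Sylow subgroup at an inverting element
-/

set_option autoImplicit false
set_option linter.unusedSectionVars false

namespace CfsgLib.DegPSubTwo

open Cfsg CfsgLib CfsgLib.Chars CfsgLib.Blocks.OrderP
open scoped ComplexConjugate Classical

universe u

variable {G : Type u} [Group G] [Fintype G] {p : ℕ} [hpr : Fact p.Prime] {u : G}
  {ζ : IrrCharacter G}

/-- An element inverting `u` with central square. -/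
structure Inverts (u t : G) : Prop where
  inv_eq : t * u * t⁻¹ = u⁻¹
  sq : t * t ∈ Subgroup.center G

namespace Base

variable (B : Base p u ζ)
include B

theorem exists_inverts : ∃ t, Inverts u t := by
  obtain ⟨t, h1, h2⟩ := B.inv
  exact ⟨t, h1, h2⟩

/-- The elements `t u^j` are conjugate. -/
theorem isConj_mul_upow {t : G} (ht : Inverts u t) (j : ZMod p) : IsConj t (t * upow u j) := by
  obtain ⟨m, hm⟩ : ∃ m : ZMod p, -2 * m = j :=
    ⟨(-2)⁻¹ * j, by rw [← mul_assoc, mul_inv_cancel₀ (neg_ne_zero.2 (two_ne_zero_zmod B.five_lt)),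
      one_mul]⟩
  refine isConj_iff.2 ⟨upow u m, ?_⟩
  have h1 : t⁻¹ * upow u m * t = upow u (-m) := by
    have h2 : t * upow u (-m) * t⁻¹ = upow u m := by
      rw [upow, ← conj_pow, ht.inv_eq, inv_pow]
      show (upow u (-m))⁻¹ = upow u m
      rw [← upow_neg B.hu, neg_neg]
    rw [← h2]
    group
  have h3 : (upow u m)⁻¹ = upow u (-m) := (upow_neg B.hu m).symm
  have h4 : upow u (-m) * upow u (-m) = upow u j := by
    rw [← hm, upow, upow, ← pow_add, pow_eq_pow_iff_modEq, B.hu, ← ZMod.natCast_eq_natCast_iff]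
    push_cast [ZMod.natCast_zmod_val]
    ring
  calc upow u m * t * (upow u m)⁻¹ = t * (t⁻¹ * upow u m * t) * (upow u m)⁻¹ := by group
    _ = _ := by rw [h1, h3, mul_assoc, h4]

theorem not_dvd_orderOf_inverts {t : G} (ht : Inverts u t) : ¬ p ∣ orderOf t := by
  intro h
  have h1 : orderOf t ∣ 2 * Nat.card (Subgroup.center G) := orderOf_dvd_of_pow_eq_one (by
    rw [pow_mul, pow_two]
    have := pow_card_eq_one' (x := (⟨t * t, ht.sq⟩ : Subgroup.center G))
    exact congrArg Subtype.val this)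
  rcases hpr.out.dvd_mul.1 (h.trans h1) with h2 | h2
  · have := Nat.le_of_dvd two_pos h2
    have := B.five_lt
    omega
  · exact B.not_dvd_card_center h2

/-- **The eigenvalues of `t` on the fixed points of `P`.** -/
theorem exists_fix_roots {t : G} (ht : Inverts u t) {χ : G → ℂ} (hχ : IsCharacter G χ) :
    ∃ s : Multiset ℂ, (p : ℂ) * s.card = ∑ i : ZMod p, χ (upow u i) ∧ χ t = s.sum ∧
      (∀ z ∈ s, ‖z‖ = 1) ∧ ∀ c : ℂ, (∀ g : G, χ (t * t * g) = c * χ g) →
        (s.map fun z => z ^ 2).sum = c * s.card := by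
  have hnorm : ∀ x ∈ Subgroup.zpowers t, ∀ y ∈ Subgroup.zpowers u,
      x * y * x⁻¹ ∈ Subgroup.zpowers u := by
    intro x hx y hy
    have hN : t ∈ Subgroup.normalizer (Subgroup.zpowers u : Set G) :=
      mem_normalizer_of_conj_gen (ht.inv_eq ▸ inv_mem (Subgroup.mem_zpowers u))
    exact (Subgroup.mem_normalizer_iff.1 ((Subgroup.zpowers_le.2 hN) hx) y).1 hy
  have hA := isCharacter_average hχ (Subgroup.zpowers u) (Subgroup.zpowers t) hnorm
  have hsum : ∀ F : G → ℂ, ∑ y : Subgroup.zpowers u, F y = ∑ i : ZMod p, F (upow u i) := fun F => by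
    refine (Fintype.sum_bijective (fun i : ZMod p =>
      (⟨upow u i, (mem_zpowers_iff_upow B.hu).2 ⟨i, rfl⟩⟩ : Subgroup.zpowers u)) ⟨?_, ?_⟩ _ _
        fun i => rfl).symm
    · exact fun i j h => upow_inj B.hu (congrArg Subtype.val h)
    · rintro ⟨y, hy⟩
      obtain ⟨i, rfl⟩ := (mem_zpowers_iff_upow B.hu).1 hy
      exact ⟨i, rfl⟩
  have hp0 : (p : ℂ) ≠ 0 := Nat.cast_ne_zero.2 hpr.out.ne_zero
  set g : Subgroup.zpowers t := ⟨t, Subgroup.mem_zpowers t⟩
  obtain ⟨s, hs1, hs2, hs3⟩ := exists_roots hA g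
  have hcard : (p : ℂ) * s.card = ∑ i : ZMod p, χ (upow u i) := by
    rw [hs2, Nat.card_zpowers, B.hu, hsum fun y => χ (((1 : Subgroup.zpowers t) : G) * y)]
    simp only [OneMemClass.coe_one, one_mul]
    rw [← mul_assoc, mul_inv_cancel₀ hp0, one_mul]
  refine ⟨s, hcard, ?_, fun z hz => ?_, fun c hc => ?_⟩
  · have h := hs3 1
    simp only [pow_one, Multiset.map_id'] at h
    rw [← h, Nat.card_zpowers, B.hu, hsum fun y => χ ((g : G) * y),
      Finset.sum_congr rfl (g := fun _ => χ t) fun i _ =>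
        (eq_of_isConj (isClassFunction_of_isCharacter hχ) (B.isConj_mul_upow ht i)).symm,
      Finset.sum_const, Finset.card_univ, ZMod.card, nsmul_eq_mul, ← mul_assoc,
      inv_mul_cancel₀ hp0, one_mul]
  · exact norm_eq_one_of_pow_orderOf (hs1 z hz)
  · have h := hs3 2
    rw [← h, pow_two, Nat.card_zpowers, B.hu, hsum fun y => χ (((g * g : Subgroup.zpowers t) : G) * y)]
    simp only [Subgroup.coe_mul]
    rw [show (g : G) = t from rfl, Finset.sum_congr rfl fun i _ => hc (upow u i), ← Finset.mul_sum,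
      ← hcard]
    field_simp

/-- The value at `t` is bounded by the dimension of the fixed points. -/
theorem norm_apply_inverts_le {t : G} (ht : Inverts u t) {χ : G → ℂ} (hχ : IsCharacter G χ) {a : ℕ}
    (ha : (p : ℂ) * a = ∑ i : ZMod p, χ (upow u i)) : ‖χ t‖ ≤ a := by
  obtain ⟨s, hs1, hs2, hs3, -⟩ := B.exists_fix_roots ht hχ
  have hsa : s.card = a := by
    apply Nat.cast_injective (R := ℂ)
    exact mul_left_cancel₀ (Nat.cast_ne_zero.2 hpr.out.ne_zero) (hs1.trans ha.symm)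
  rw [hs2, ← hsa]
  refine (norm_multiset_sum_le s).trans ?_
  rw [Multiset.map_congr rfl (g := fun _ => (1 : ℝ)) hs3, Multiset.map_const', Multiset.sum_replicate,
    nsmul_one]

/-- Sums over all powers of `u`. -/
theorem sum_upow_eq_add {χ : G → ℂ} :
    ∑ i : ZMod p, χ (upow u i) = χ 1 + ∑ k : (ZMod p)ˣ, χ (upow u (k : ZMod p)) := by
  rw [sum_units fun i => χ (upow u i), upow_zero B.hu]
  ring

theorem sum_upow_const {χ : G → ℂ} {c : ℂ} (h : ∀ i : ZMod p, i ≠ 0 → χ (upow u i) = c) :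
    ∑ i : ZMod p, χ (upow u i) = χ 1 + ((p : ℂ) - 1) * c := by
  rw [B.sum_upow_eq_add, Finset.sum_congr rfl fun (k : (ZMod p)ˣ) _ => h (k : ZMod p) k.ne_zero, Finset.sum_const,
    Finset.card_univ, ZMod.card_units, nsmul_eq_mul, Nat.cast_sub hpr.out.pos, Nat.cast_one]

end Base

end CfsgLib.DegPSubTwo
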