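import Cfsg.Agent.Chars.DegPSubTwo.ClassMult

/-!
# Values at an inverting element, and degrees
-/

set_option autoImplicit false
set_option linter.unusedSectionVars false

namespace CfsgLib.DegPSubTwo

open Cfsg CfsgLib CfsgLib.Chars CfsgLib.Blocks.OrderP
open scoped ComplexConjugate Classical

universe u

variable {G : Type u} [Group G] [Fintype G] {p : ℕ} [hpr : Fact p.Prime] {u : G}
  {ζ : IrrCharacter G}

/-- Equality in the triangle inequality for the squares. -/
theorem sq_eq_of_sum_sq {s : Multiset ℂ} {c : ℂ} (hc : ‖c‖ = 1) (hn : ∀ z ∈ s, ‖z‖ = 1)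
    (h : (s.map fun z => z ^ 2).sum = c * s.card) : ∀ z ∈ s, z ^ 2 = c := by
  intro z hz
  obtain ⟨r, rfl⟩ := Multiset.exists_cons_of_mem hz
  rw [Multiset.map_cons, Multiset.sum_cons, Multiset.card_cons, Nat.cast_succ] at h
  have hle : ∀ y : ℂ, ‖y‖ = 1 → (conj c * y).re ≤ 1 := fun y hy =>
    (Complex.re_le_norm _).trans (by rw [norm_mul, Complex.norm_conj, hc, hy, one_mul])
  have hr : (conj c * (r.map fun z => z ^ 2).sum).re ≤ r.card := by
    refine (Complex.re_le_norm _).trans ?_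
    rw [norm_mul, Complex.norm_conj, hc, one_mul]
    refine (norm_multiset_sum_le _).trans ?_
    rw [Multiset.map_map, Multiset.map_congr rfl (g := fun _ => (1 : ℝ)) (fun y hy => by
      rw [Function.comp_apply, norm_pow, hn y (Multiset.mem_cons_of_mem hy), one_pow]),
      Multiset.map_const', Multiset.sum_replicate, nsmul_one]
  have hcc : conj c * c = 1 := by rw [mul_comm, Complex.mul_conj, Complex.normSq_eq_norm_sq, hc]; simp
  have h1 : conj c * z ^ 2 + conj c * (r.map fun z => z ^ 2).sum = (r.card : ℂ) + 1 := by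
    linear_combination conj c * h + ((r.card : ℂ) + 1) * hcc
  have h2 := congrArg Complex.re h1
  rw [Complex.add_re, Complex.add_re, Complex.natCast_re, Complex.one_re] at h2
  have hn1 : ‖conj c * z ^ 2‖ = 1 := by
    rw [norm_mul, Complex.norm_conj, hc, norm_pow, hn z (Multiset.mem_cons_self _ _)]; simp
  have h4 := hle (z ^ 2) (by rw [norm_pow, hn z (Multiset.mem_cons_self _ _), one_pow])
  have h3 : conj c * z ^ 2 = 1 := by
    have e : (conj c * z ^ 2).re = 1 := by linarith
    have h5 := Complex.normSq_eq_norm_sq (conj c * z ^ 2)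
    rw [hn1, Complex.normSq_apply, e] at h5
    apply Complex.ext
    · rw [e, Complex.one_re]
    · rw [Complex.one_im]; nlinarith
  linear_combination c * h3 - z ^ 2 * hcc

/-- A sum of square roots of `ν ^ 2`. -/
theorem sum_eq_of_sq {s : Multiset ℂ} {ν : ℂ} (h : ∀ z ∈ s, z ^ 2 = ν ^ 2) :
    ∃ m : ℤ, |m| ≤ s.card ∧ s.sum = ν * m := by
  induction s using Multiset.induction_on with
  | empty => exact ⟨0, by simp, by simp⟩
  | cons z r ih =>
    obtain ⟨m, hm, hs⟩ := ih fun y hy => h y (Multiset.mem_cons_of_mem hy)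
    rw [abs_le] at hm
    rw [Multiset.sum_cons, hs, Multiset.card_cons, Nat.cast_succ]
    rcases sq_eq_sq_iff_eq_or_eq_neg.1 (h z (Multiset.mem_cons_self _ _)) with e | e
    · exact ⟨m + 1, abs_le.2 ⟨by linarith [hm.1], by linarith [hm.2]⟩, by rw [e]; push_cast; ring⟩
    · exact ⟨m - 1, abs_le.2 ⟨by linarith [hm.1], by linarith [hm.2]⟩, by rw [e]; push_cast; ring⟩

namespace Base

variable (B : Base p u ζ)
include B

/-- The value at `t` is an integral multiple of a square root of the central value at `t²`. -/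
theorem exists_mult_inverts {t : G} (ht : Inverts u t) (χ : IrrCharacter G) {a : ℕ}
    (ha : (p : ℂ) * a = ∑ i : ZMod p, (χ : G → ℂ) (upow u i)) {ν : ℂ} (hν : ‖ν‖ = 1)
    (hsq : cval χ (t * t) = ν ^ 2) : ∃ m : ℤ, |m| ≤ a ∧ (χ : G → ℂ) t = ν * m := by
  obtain ⟨s, h1, h2, h3, h4⟩ := B.exists_fix_roots ht (isCharacter_coe χ)
  have hsa : s.card = a := Nat.cast_injective (R := ℂ)
    (mul_left_cancel₀ (Nat.cast_ne_zero.2 hpr.out.ne_zero) (h1.trans ha.symm))
  obtain ⟨m, hm, hs⟩ := sum_eq_of_sq (sq_eq_of_sum_sq (by rw [norm_pow, hν, one_pow]) h3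
    (h4 (ν ^ 2) fun g => by rw [apply_center_mul χ ht.sq, hsq]))
  exact ⟨m, hsa ▸ hm, h2.trans hs⟩

/-- A degree given by the constant value on the powers of `u`. -/
theorem exists_deg_of_const (χ : IrrCharacter G) {m : ℤ}
    (h : ∀ i : ZMod p, i ≠ 0 → (χ : G → ℂ) (upow u i) = m) :
    ∃ n : ℤ, (charDegree (χ : G → ℂ) : ℤ) = m + p * n ∧ 0 < charDegree (χ : G → ℂ) := by
  obtain ⟨m', n, hm, hn⟩ := exists_int_of_const B.hu (isCharacter_coe χ) h
  have : m = m' := Int.cast_injective (α := ℂ) hm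
  subst this
  refine ⟨n, ?_, charDegree_pos χ⟩
  apply Int.cast_injective (α := ℂ)
  push_cast
  rw [coe_charDegree, hn]

end Base

theorem Good.exists_nu (A : Good p u ζ) {t : G} (ht : Inverts u t) :
    ∃ ν : ℂ, ‖ν‖ = 1 ∧ (ζ : G → ℂ) t = ν ∧ cval ζ (t * t) = ν ^ 2 := by
  obtain ⟨s, h1, h2, h3, h4⟩ := A.base.exists_fix_roots ht (isCharacter_coe ζ)
  have hs : s.card = 1 := by
    rw [A.base.sum_upow_eq_add, Finset.sum_congr rfl fun (k : (ZMod p)ˣ) _ => A.val _ k.ne_zero,
      Finset.sum_neg_distrib, ← coe_charDegree, A.base.deg] at h1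
    have h5 := sum_units_vv_self (p := p) (one_ne_zero (α := ZMod p))
    simp only [mul_one] at h5
    have := A.base.five_lt
    rw [h5, Nat.cast_sub (by omega)] at h1
    refine Nat.cast_injective (R := ℂ) (mul_left_cancel₀
      (Nat.cast_ne_zero.2 hpr.out.ne_zero) (h1.trans ?_))
    push_cast
    ring
  obtain ⟨ν, rfl⟩ := Multiset.card_eq_one.1 hs
  refine ⟨ν, h3 ν (Multiset.mem_singleton_self ν), by rw [h2, Multiset.sum_singleton], ?_⟩
  have := h4 (cval ζ (t * t)) fun g => apply_center_mul ζ ht.sq g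
  simpa using this.symm

namespace Princ

variable {A : Good p u ζ} {θ : IrrCharacter G} {δ : ℤ} {X : (ZMod p)ˣ → IrrCharacter G}
  (Pr : Princ A θ δ X)
include Pr

theorem exists_deg : ∃ k : ℕ, (charDegree (θ : G → ℂ) : ℤ) = k * p + δ ∧ (δ = -1 → 1 ≤ k) := by
  obtain ⟨n, hn, hd⟩ := A.base.exists_deg_of_const θ Pr.θ_val
  have h5 := A.base.five_lt
  have hn0 : 0 ≤ n := by
    by_contra h
    have : (p : ℤ) * n ≤ (p : ℤ) * (-1) := mul_le_mul_of_nonneg_left (by omega) (by positivity)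
    rcases Pr.hδ with e | e <;> omega
  obtain ⟨k, rfl⟩ := Int.eq_ofNat_of_zero_le hn0
  refine ⟨k, by linear_combination hn, fun e => Nat.pos_of_ne_zero ?_⟩
  rintro rfl
  simp only [Nat.cast_zero, mul_zero, add_zero] at hn
  omega

theorem X_apply_one (k : (ZMod p)ˣ) : (X k : G → ℂ) 1 = (θ : G → ℂ) 1 + δ :=
  Pr.X_reg k 1 (by rw [orderOf_one]; exact hpr.out.not_dvd_one)

theorem exists_rest_deg {χ : IrrCharacter G} (hχ : χ ∈ restSet θ X) :
    ∃ n : ℕ, 1 ≤ n ∧ (charDegree (χ : G → ℂ) : ℤ) = n * p := by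
  obtain ⟨n, hn, hd⟩ := A.base.exists_deg_of_const χ (m := 0)
    fun i hi => by rw [Pr.rest_apply hχ hi, Int.cast_zero]
  have hn0 : 0 < n := pos_of_mul_pos_right (a := (p : ℤ)) (by omega) (by positivity)
  obtain ⟨k, rfl⟩ := Int.eq_ofNat_of_zero_le hn0.le
  exact ⟨k, by exact_mod_cast hn0, by linear_combination hn⟩

/-- Twice a sum over the characters with trivial central character. -/
theorem sum_over_one (F : IrrCharacter G → ℂ) :
    2 * ∑ χ ∈ overSet (oneChar G), F χ =
      2 * F (oneChar G) + 2 * F θ + ∑ k : (ZMod p)ˣ, F (X k) + 2 * ∑ χ ∈ restSet θ X, F χ := by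
  have hsub : insert (oneChar G) (insert θ (Finset.univ.image X)) ⊆ overSet (oneChar G) := by
    intro x hx
    rcases Finset.mem_insert.1 hx with rfl | hx
    · exact mem_overSet.2 fun z _ => rfl
    rcases Finset.mem_insert.1 hx with rfl | hx
    · exact Pr.θ_mem
    · obtain ⟨k, -, rfl⟩ := Finset.mem_image.1 hx
      exact Pr.X_mem k
  have hθW : θ ∉ Finset.univ.image X := fun h => by
    obtain ⟨k, -, hk⟩ := Finset.mem_image.1 h
    exact Pr.θ_not_mem_range k hk
  have h1W : oneChar G ∉ insert θ (Finset.univ.image X) := fun h => by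
    rcases Finset.mem_insert.1 h with h | h
    · exact Pr.θ_ne h.symm
    · obtain ⟨k, -, hk⟩ := Finset.mem_image.1 h
      exact Pr.X_ne_one k hk
  have hW : ∑ k : (ZMod p)ˣ, F (X k) = 2 * ∑ χ ∈ Finset.univ.image X, F χ := by
    rw [← Finset.sum_fiberwise_of_maps_to (t := Finset.univ.image X) (g := X)
      (fun k _ => Finset.mem_image_of_mem _ (Finset.mem_univ k)), Finset.mul_sum]
    refine Finset.sum_congr rfl fun χ hχ => ?_
    obtain ⟨l, -, rfl⟩ := Finset.mem_image.1 hχ
    rw [Finset.sum_congr rfl (g := fun _ => F (X l))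
        fun k hk => by rw [(Finset.mem_filter.1 hk).2], Finset.sum_const,
      show ((Finset.univ : Finset (ZMod p)ˣ).filter fun k => X k = X l) = {l, -l} from ?_,
      Finset.card_pair (units_neg_ne A.base.five_lt l).symm, nsmul_eq_mul, Nat.cast_two]
    ext k
    rw [Finset.mem_filter, eq_comm, Pr.X_eq_iff, Finset.mem_insert, Finset.mem_singleton]
    simp
  rw [← Finset.sum_sdiff hsub, Finset.sum_insert h1W, Finset.sum_insert hθW, hW]
  show _ = _ + _ + _ + 2 * ∑ χ ∈ overSet (oneChar G) \ _, _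
  ring

/-- The rest at an inverting element. -/
theorem norm_rest_le {t : G} (ht : Inverts u t) {χ : IrrCharacter G} (hχ : χ ∈ restSet θ X)
    {n : ℕ} (hn : (charDegree (χ : G → ℂ) : ℤ) = n * p) : ‖(χ : G → ℂ) t‖ ≤ n := by
  refine A.base.norm_apply_inverts_le ht (isCharacter_coe χ) ?_
  have hn' : (charDegree (χ : G → ℂ) : ℂ) = (n : ℂ) * p := by exact_mod_cast hn
  rw [A.base.sum_upow_const (fun i hi => Pr.rest_apply hχ hi), ← coe_charDegree, hn']
  ring

end Princ

end CfsgLib.DegPSubTwo
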