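import Cfsg.Agent.Chars.DegPSubTwo.LocalMult
import Cfsg.Agent.Blocks.OrderP.Principal

/-!
# Local structure for a faithful character of degree `p - 2`

`C(P) = P × Z(G)` and an element of `N(P)` inverts `P`.
-/

set_option autoImplicit false
set_option linter.unusedSectionVars false

namespace CfsgLib.DegPSubTwo

open Cfsg CfsgLib CfsgLib.Chars CfsgLib.Blocks
open scoped ComplexConjugate Classical

universe u

variable {G : Type u} [Group G] [Fintype G] {p : ℕ} [hpr : Fact p.Prime]

/-- A faithful irreducible character of degree `p - 2`, the local structure at `u` of order `p`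
being known. -/
structure Base (p : ℕ) (u : G) (ζ : IrrCharacter G) : Prop where
  five_lt : 5 < p
  hu : orderOf u = p
  hidx : ¬ p ∣ (Subgroup.zpowers u).index
  faith : ∀ g : G, (ζ : G → ℂ) g = (ζ : G → ℂ) 1 → g = 1
  deg : charDegree (ζ : G → ℂ) = p - 2
  cent : ∀ g : G, g * u = u * g → ∃ x ∈ Subgroup.zpowers u, ∃ z ∈ Subgroup.center G, g = x * z
  inv : ∃ t : G, t * u * t⁻¹ = u⁻¹ ∧ t * t ∈ Subgroup.center G
  fusion : ∀ g : G, g * u * g⁻¹ ∈ Subgroup.zpowers u → g * u * g⁻¹ = u ∨ g * u * g⁻¹ = u⁻¹

/-- A faithful irreducible representation is scalar exactly on the centre. -/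
theorem mem_center_of_norm {χ : IrrCharacter G} (hfaith : ∀ g : G, (χ : G → ℂ) g = (χ : G → ℂ) 1 → g = 1)
    {g : G} (hg : ‖(χ : G → ℂ) g‖ = ‖(χ : G → ℂ) 1‖) : g ∈ Subgroup.center G := by
  obtain ⟨n, ρ, hρ, hχ⟩ := χ.2
  rw [← hχ] at hg hfaith
  have hn : n ≠ 0 := by
    rintro rfl
    refine map_one_ne_zero χ ?_
    rw [← hχ, Representation.char_one]
    simp
  obtain ⟨c, hc⟩ : ∃ c : ℂ, ρ g = c • 1 := by
    refine ⟨ρ.character g / (n : ℂ), rep_eq_smul_of_norm_character_eq ρ hn ?_⟩
    simpa using hg
  refine Subgroup.mem_center_iff.2 fun h => ?_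
  have h1 : ρ (h * g * h⁻¹ * g⁻¹) = 1 := by
    have h2 : ρ (h * g * h⁻¹) = ρ g := by
      rw [map_mul, map_mul, hc, mul_smul_comm, mul_one, smul_mul_assoc, ← map_mul, mul_inv_cancel,
        map_one]
    rw [map_mul, h2, ← map_mul, mul_inv_cancel, map_one]
  have h3 : h * g * h⁻¹ * g⁻¹ = 1 := hfaith _ (by simp [Representation.character, h1])
  rw [mul_inv_eq_one, mul_inv_eq_iff_eq_mul] at h3
  exact h3

/-- An element conjugating a generator into the cyclic subgroup normalizes it. -/
theorem mem_normalizer_of_conj_gen {u g : G} (hg : g * u * g⁻¹ ∈ Subgroup.zpowers u) :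
    g ∈ Subgroup.normalizer (Subgroup.zpowers u : Set G) := by
  have hle : (Subgroup.zpowers u).map (MulAut.conj g).toMonoidHom ≤ Subgroup.zpowers u := by
    rw [MonoidHom.map_zpowers, Subgroup.zpowers_le]
    exact hg
  have heq := Subgroup.eq_of_le_of_card_ge hle (Nat.card_congr
    ((Subgroup.zpowers u).equivMapOfInjective _ (MulAut.conj g).injective).toEquiv).le
  refine Subgroup.mem_normalizer_iff.2 fun x => ⟨fun hx => ?_, fun hx => ?_⟩
  · rw [← heq]
    exact ⟨x, hx, rfl⟩
  · rw [← heq] at hx
    obtain ⟨y, hy, hyx⟩ := hx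
    have : y = x := (MulAut.conj g).injective (hyx.trans (MulAut.conj_apply g x).symm)
    exact this ▸ hy

variable (Ps : Sylow p G)

local notation "CC" => Subgroup.centralizer ((Ps : Subgroup G) : Set G)
local notation "NN" => Subgroup.normalizer ((Ps : Subgroup G) : Set G)

/-- The local structure. -/
theorem exists_base (hp : 5 < p) (hP : Nat.card Ps = p)
    (hnn : ¬ (Ps : Subgroup G).Normal) (ζ : IrrCharacter G)
    (hfaith : ∀ g : G, (ζ : G → ℂ) g = (ζ : G → ℂ) 1 → g = 1)
    (hdeg : charDegree (ζ : G → ℂ) = p - 2) :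
    ∃ u : G, Subgroup.zpowers u = (Ps : Subgroup G) ∧ Base p u ζ := by
  obtain ⟨u, hu, hz, hidx⟩ := OrderP.exists_generator_sylow Ps hP
  have hsq : ¬ p ^ 2 ∣ Nat.card G := by
    intro h
    rw [← (Ps : Subgroup G).index_mul_card, hP, pow_two] at h
    exact Ps.not_dvd_index (Nat.dvd_of_mul_dvd_mul_right hpr.out.pos h)
  have S : DegreeLtPrime.OrderP (Ps : Subgroup G) p := ⟨hP, Ps.not_dvd_index⟩
  obtain ⟨R⟩ := exists_retr S
  obtain ⟨θ, k, a, d, e, hθ, hd, hk, hall, ha0, hdga, hec, hoe, hed, hcases⟩ :=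
    exists_orbit_mult (by omega) hP hsq S R ζ (by omega)
  rw [hdeg] at hdga
  set o := (orb θ).card with ho
  have he0 : 0 < e := Nat.pos_of_dvd_of_pos hed (by omega)
  have hd0 : 0 < d := hd ▸ Chars.charDegree_pos θ
  have ho0 : 0 < o := Finset.card_pos.2 ⟨θ, mem_orb.2 ⟨1, conjChr_one_eq θ⟩⟩
  have he0p : (CC).relIndex NN ∣ p - 1 := by
    have := (OrderP.exists_local_data hu hidx rfl).1
    rwa [hz] at this
  have hcop : ∀ n : ℕ, n ∣ p - 2 → n ∣ p - 1 → n = 1 := fun n h1 h2 => Nat.dvd_one.1 (by
    have := Nat.dvd_sub h2 h1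
    rwa [show p - 1 - (p - 2) = 1 by omega] at this)
  -- the multiplicities on `C(P)`
  have hker : ∀ (ξ : IrrCharacter CC), (∀ x : CC, (x : G) ∈ (Ps : Subgroup G) → ξ.1 x = ξ.1 1) →
      ∀ (m : NN) (x : CC), (x : G) ∈ (Ps : Subgroup G) → (conjChr m ξ).1 x = (conjChr m ξ).1 1 := by
    intro ξ h m x hx
    rw [conjChr_apply, conjChr_apply, map_one]
    exact h _ ((Subgroup.mem_normalizer_iff.1 m.2 _).1 hx)
  have hkinner : ∀ ξ, classInner (fun c : CC => (ζ : G → ℂ) c) ξ.1 = (k ξ : ℂ) := fun ξ => by
    rw [hk, classInner_sum_smul]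
  have hkconj : ∀ (m : NN) ξ, k (conjChr m ξ) = k ξ := by
    intro m ξ
    apply Nat.cast_injective (R := ℂ)
    rw [← hkinner, ← hkinner]
    unfold classInner
    congr 1
    let E := Equiv.ofBijective (conjC (Ps : Subgroup G) m)
      (Finite.surjective_iff_bijective.1 (conjC_surjective _ m))
    refine Fintype.sum_equiv E _ _ fun c => ?_
    show _ = (ζ : G → ℂ) (conjC _ m c : CC) * conj (ξ.1 (conjC _ m c))
    rw [coe_conjC, isClassFunction_coe ζ, conjChr_apply]
  -- with multiplicity one there is one constituent over each orbit member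
  have hone : a = 1 → ∃ ξ, k ξ = 1 ∧ flat R S ξ = θ ∧
      ∀ η, k η ≠ 0 → ∃ m : NN, η = conjChr m ξ := by
    intro ha
    have h1 := hall θ hθ
    rw [if_pos (mem_orb.2 ⟨1, conjChr_one_eq θ⟩), ha] at h1
    have huniq : ∀ η ∈ orb θ, flat R S η = η → ∀ x y, flat R S x = η → flat R S y = η → k x ≠ 0 →
        k y ≠ 0 → x = y := by
      intro η hη hη' x y hx hy hkx hky
      by_contra hne
      have h2 := hall η hη'
      rw [if_pos hη, ha] at h2
      have h3 : ∑ z ∈ ({x, y} : Finset _), k z ≤
          ∑ ξ ∈ Finset.univ.filter (fun ξ => flat R S ξ = η), k ξ :=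
        Finset.sum_le_sum_of_subset (by
          intro z hz
          rcases Finset.mem_insert.1 hz with rfl | hz
          · simp [hx]
          · rw [Finset.mem_singleton.1 hz]; simp [hy])
      rw [Finset.sum_pair hne, h2] at h3
      omega
    obtain ⟨ξ, hξ, hξk⟩ : ∃ ξ ∈ Finset.univ.filter (fun ξ => flat R S ξ = θ), k ξ ≠ 0 :=
      Finset.exists_ne_zero_of_sum_ne_zero (by rw [h1]; exact one_ne_zero)
    have hξθ : flat R S ξ = θ := (Finset.mem_filter.1 hξ).2
    have hk1 : k ξ = 1 := by
      have := Finset.single_le_sum (f := k) (fun _ _ => Nat.zero_le _) hξ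
      omega
    refine ⟨ξ, hk1, hξθ, fun η hη => ?_⟩
    have hflat : flat R S (flat R S η) = flat R S η :=
      Subtype.ext (funext fun c => by simp [flat_apply, R.idem])
    have hmem : flat R S η ∈ orb θ := by
      by_contra hn
      have h2 := hall _ hflat
      rw [if_neg hn] at h2
      exact hη (Finset.sum_eq_zero_iff.1 h2 η (by simp))
    obtain ⟨m, hm⟩ := mem_orb.1 hmem
    refine ⟨m, huniq _ hmem hflat η _ rfl ?_ hη (by rw [hkconj, hk1]; exact one_ne_zero)⟩
    rw [flat_conjChr, hξθ, hm]
  have main : e = 2 ∧ o * d = 1 := by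
    have hap : a < p := by
      have : a ≤ p - 2 := by
        calc a ≤ a * (o * d) := Nat.le_mul_of_pos_right _ (Nat.mul_pos ho0 hd0)
          _ = p - 2 := by rw [← mul_assoc, hdga]
      omega
    have hep : e ≤ p - 1 := Nat.le_of_dvd (by omega) hed
    have hane : a = 1 → False := by
      intro ha
      obtain ⟨ξ, hk1, hξθ, hξ⟩ := hone ha
      rcases Nat.lt_or_ge 1 e with he1 | he1
      · -- an element of the inertia group outside `C(P)`
        obtain ⟨n, hn, hnC⟩ : ∃ n ∈ stabChr Ps θ, (n : G) ∉ CC := by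
          by_contra hcon
          push Not at hcon
          have hle : Nat.card (stabChr Ps θ) ≤ Nat.card CC :=
            Nat.card_le_card_of_injective (fun n => (⟨(n.1 : G), hcon n.1 n.2⟩ : CC))
              fun x y h => Subtype.ext (Subtype.ext (congrArg (fun c : CC => (c : G)) h))
          rw [← hec] at hle
          have := Nat.card_pos (α := CC)
          nlinarith
        have hfix : conjChr n ξ = ξ := by
          have h2 := hall θ hθ
          rw [if_pos (mem_orb.2 ⟨1, conjChr_one_eq θ⟩), ha] at h2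
          by_contra hne
          have h3 : ∑ z ∈ ({conjChr n ξ, ξ} : Finset _), k z ≤
              ∑ ξ ∈ Finset.univ.filter (fun ξ => flat R S ξ = θ), k ξ :=
            Finset.sum_le_sum_of_subset (by
              intro z hz
              rcases Finset.mem_insert.1 hz with rfl | hz
              · simp [flat_conjChr, hξθ, show conjChr n θ = θ from hn]
              · rw [Finset.mem_singleton.1 hz]; simp [hξθ])
          rw [Finset.sum_pair hne, h2, hkconj, hk1] at h3
          omega
        obtain ⟨x, hx, hxn⟩ : ∃ x ∈ (Ps : Subgroup G), x * n ≠ n * x := by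
          by_contra hcon
          push Not at hcon
          exact hnC (Subgroup.mem_centralizer_iff.2 hcon)
        let xC : CC := ⟨x, S.le_centralizer hx⟩
        let yC : CC := conjC _ n xC * xC⁻¹
        have hyP : (yC : G) ∈ (Ps : Subgroup G) :=
          mul_mem ((Subgroup.mem_normalizer_iff.1 n.2 _).1 hx) (inv_mem hx)
        have hyker : yC ∈ Chars.charKer ξ.1 := by
          have hcen : ∀ c : CC, (c : G) ∈ (Ps : Subgroup G) → c ∈ Subgroup.center CC := fun c hc =>
            Subgroup.mem_center_iff.2 fun d => Subtype.ext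
              (Subgroup.mem_centralizer_iff.1 d.2 _ hc).symm
          have h1 : ξ.1 (conjC _ n xC) = ξ.1 xC := congrFun (congrArg Subtype.val hfix) xC
          have h2 := map_mul_of_mem_center ξ (hcen _ hyP) xC
          rw [show yC * xC = conjC _ n xC from inv_mul_cancel_right _ _, h1] at h2
          have hxC0 : ξ.1 xC ≠ 0 := by
            intro h0
            have h4 := norm_map_of_mem_center ξ (hcen xC hx)
            rw [show (ξ : CC → ℂ) xC = ξ.1 xC from rfl, h0, norm_zero, eq_comm, norm_eq_zero] at h4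
            exact map_one_ne_zero ξ h4
          rw [mem_charKer_iff (isCharacter_coe ξ)]
          have h3 : (ξ : CC → ℂ) yC / (ξ : CC → ℂ) 1 = 1 :=
            mul_right_cancel₀ hxC0 ((one_mul (ξ.1 xC)).trans h2).symm
          exact (div_eq_one_iff_eq (map_one_ne_zero ξ)).1 h3
        have hy1 : (⟨(yC : G), hyP⟩ : (Ps : Subgroup G)) ≠ 1 := by
          intro h1
          have h2 : (n : G) * x * (n : G)⁻¹ * x⁻¹ = 1 := congrArg Subtype.val h1
          rw [mul_inv_eq_one, mul_inv_eq_iff_eq_mul] at h2
          exact hxn h2.symm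
        have htriv : ∀ c : CC, (c : G) ∈ (Ps : Subgroup G) → ξ.1 c = ξ.1 1 := by
          intro c hc
          obtain ⟨j, hj⟩ := Subgroup.mem_zpowers_iff.1
            (mem_zpowers_of_prime_card hP hy1 (g' := (⟨c, hc⟩ : (Ps : Subgroup G))))
          refine map_eq_map_one_of_mem_charKer ?_
          rw [show c = yC ^ j from Subtype.ext (by
            have := congrArg Subtype.val hj
            simp only [Subgroup.coe_zpow] at this ⊢
            exact this.symm)]
          exact zpow_mem hyker j
        -- then every element of `P` is in the kernel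
        have hu1 : (ζ : G → ℂ) u = (ζ : G → ℂ) 1 := by
          have huP : u ∈ (Ps : Subgroup G) := hz ▸ Subgroup.mem_zpowers u
          have e1 := congrFun hk ⟨u, S.le_centralizer huP⟩
          have e2 := congrFun hk 1
          simp only [Finset.sum_apply, Pi.smul_apply, OneMemClass.coe_one] at e1 e2
          rw [e1, e2]
          refine Finset.sum_congr rfl fun η _ => ?_
          by_cases hη : k η = 0
          · simp [hη]
          obtain ⟨m, rfl⟩ := hξ η hη
          rw [hker ξ htriv m _ huP]
        have := hfaith u hu1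
        rw [this, orderOf_one] at hu
        omega
      · -- the restriction to `C(P)` is irreducible
        have he : e = 1 := by omega
        rw [he, mul_one] at hoe
        rw [ha, one_mul] at hdga
        have ho1 : o = 1 := hcop o ⟨d, hdga.symm⟩ (hoe ▸ he0p)
        have hNC : NN ≤ CC := by
          rw [← Subgroup.relIndex_eq_one, ← hoe, ho1]
        have hres : ∀ c : CC, (ζ : G → ℂ) c = ξ.1 c := by
          intro c
          refine (congrFun hk c).trans ?_
          rw [Finset.sum_apply, Finset.sum_eq_single ξ, Pi.smul_apply, hk1, Nat.cast_one, one_smul]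
          · intro η _ hne
            by_cases hη : k η = 0
            · simp [hη]
            obtain ⟨m, rfl⟩ := hξ η hη
            exfalso
            apply hne
            refine Subtype.ext (funext fun y => ?_)
            rw [conjChr_apply]
            have : conjC _ m y = (⟨m, hNC m.2⟩ : CC) * y * (⟨m, hNC m.2⟩ : CC)⁻¹ := rfl
            rw [this]
            exact isClassFunction_coe ξ y _
          · simp
        have huP : u ∈ (Ps : Subgroup G) := hz ▸ Subgroup.mem_zpowers u
        have hcen : u ∈ Subgroup.center G := by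
          refine mem_center_of_norm hfaith ?_
          have hc : (⟨u, S.le_centralizer huP⟩ : CC) ∈ Subgroup.center CC :=
            Subgroup.mem_center_iff.2 fun d => Subtype.ext
              (Subgroup.mem_centralizer_iff.1 d.2 _ huP).symm
          rw [show (ζ : G → ℂ) u = _ from hres ⟨u, S.le_centralizer huP⟩,
            show (ζ : G → ℂ) 1 = _ from hres 1]
          exact norm_map_of_mem_center ξ hc
        refine hnn ⟨fun x hx g => ?_⟩
        have hxc : x ∈ Subgroup.center G := by
          rw [← hz] at hx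
          exact (Subgroup.zpowers_le.2 hcen) hx
        rwa [Subgroup.mem_center_iff.1 hxc g, mul_inv_cancel_right]
    clear hone hall
    rcases hcases with h | h | h | h
    · rw [← Nat.cast_one (R := ZMod p), ZMod.natCast_eq_natCast_iff', Nat.mod_eq_of_lt hap,
        Nat.mod_eq_of_lt (by omega)] at h
      exact (hane h).elim
    · exfalso
      have h1 : p ∣ a + 1 := by
        rw [← ZMod.natCast_eq_zero_iff]; push_cast; rw [h]; ring
      have h2 := Nat.le_of_dvd (by omega) h1
      have h3 : a * 1 ≤ a * (o * d) := Nat.mul_le_mul_left a (Nat.mul_pos ho0 hd0)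
      rw [← mul_assoc, hdga] at h3
      omega
    · rw [ZMod.natCast_eq_natCast_iff', Nat.mod_eq_of_lt hap, Nat.mod_eq_of_lt (by omega)] at h
      exfalso
      subst h
      rcases Nat.lt_or_ge 1 a with ha1 | ha1
      · have h1 : o * a ∣ p - 2 := ⟨d, by rw [← hdga]; ring⟩
        rw [hoe] at h1
        have := hcop _ h1 he0p
        rw [← hoe] at this
        have := Nat.eq_one_of_mul_eq_one_left this
        omega
      · exact hane (by omega)
    · have h1 : p ∣ a + e := by
        rw [← ZMod.natCast_eq_zero_iff]; push_cast; rw [h]; ring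
      have h2 : a + e = p := by
        obtain ⟨q, hq⟩ := h1
        have h3 : q < 2 := by
          by_contra hq2
          have := Nat.mul_le_mul_left p (show 2 ≤ q by omega)
          omega
        interval_cases q <;> omega
      rcases Nat.eq_or_lt_of_le hep with rfl | hlt
      · exact (hane (by omega)).elim
      obtain ⟨q, hq⟩ := hed
      have hq2 : 2 ≤ q := by
        by_contra hq2
        interval_cases q <;> omega
      have h2e : 2 * e ≤ p - 1 := by
        calc 2 * e = e * 2 := mul_comm _ _
          _ ≤ e * q := Nat.mul_le_mul_left e hq2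
          _ = p - 1 := hq.symm
      have hod : o * d = 1 := by
        by_contra hne
        have h3 : a * 2 ≤ a * (o * d) :=
          Nat.mul_le_mul_left a (by have := Nat.mul_pos ho0 hd0; omega)
        rw [← mul_assoc, hdga] at h3
        omega
      refine ⟨?_, hod⟩
      rw [mul_assoc, hod, mul_one] at hdga
      omega
  obtain ⟨he2, hod⟩ := main
  have ho1 : o = 1 := Nat.eq_one_of_mul_eq_one_right hod
  have hd1 : d = 1 := Nat.eq_one_of_mul_eq_one_left hod
  -- the complement of `P` in `C(P)` is central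
  have hσZ : ∀ c : CC, ((R.σ c : CC) : G) ∈ Subgroup.center G := by
    intro c
    refine mem_center_of_norm hfaith ?_
    obtain ⟨w, hw⟩ := Finset.card_eq_one.1 (ho ▸ ho1 : (orb θ).card = 1)
    have hwθ : θ ∈ orb θ := mem_orb.2 ⟨1, conjChr_one_eq θ⟩
    rw [hw, Finset.mem_singleton] at hwθ
    subst hwθ
    have e1 : ∀ c : CC, (ζ : G → ℂ) (R.σ c : CC) = (a : ℂ) * θ.1 c := by
      intro c
      refine (congrFun hk (R.σ c)).trans ?_
      simp only [Finset.sum_apply, Pi.smul_apply, smul_eq_mul, ← flat_apply R S]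
      rw [← Finset.sum_fiberwise Finset.univ (fun ξ => flat R S ξ), Finset.sum_eq_single θ]
      · rw [Finset.sum_congr rfl (g := fun ξ => (k ξ : ℂ) * θ.1 c) fun ξ hξ => by
          rw [(Finset.mem_filter.1 hξ).2], ← Finset.sum_mul, ← Nat.cast_sum, hall θ hθ,
          if_pos (by rw [hw]; exact Finset.mem_singleton_self _)]
      · intro η _ hne
        refine Finset.sum_eq_zero fun ξ hξ => ?_
        have hflat : flat R S η = η := by
          rw [← (Finset.mem_filter.1 hξ).2]
          exact Subtype.ext (funext fun c => by simp [flat_apply, R.idem])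
        have h2 := hall η hflat
        rw [if_neg (by rw [hw, Finset.mem_singleton]; exact hne)] at h2
        simp [Finset.sum_eq_zero_iff.1 h2 ξ hξ]
      · simp
    have h1 := e1 1
    rw [map_one, OneMemClass.coe_one] at h1
    rw [e1, h1, norm_mul, norm_mul]
    congr 1
    have h11 : θ.1 1 = 1 := by
      rw [← Chars.coe_charDegree θ, ← hd] at *
      simp [hd1]
    obtain ⟨l, hl⟩ := exists_linChar_eq θ h11
    rw [← hl, linChar_apply, linChar_apply, map_one, Units.val_one, norm_one]
    refine Complex.norm_eq_one_of_pow_eq_one (n := orderOf c) ?_ (orderOf_pos c).ne'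
    rw [← Units.val_pow_eq_pow_val, ← map_pow, pow_orderOf_eq_one, map_one, Units.val_one]
  have hcent : ∀ g : G, g * u = u * g →
      ∃ x ∈ Subgroup.zpowers u, ∃ z ∈ Subgroup.center G, g = x * z := by
    intro g hg
    have hgC : g ∈ CC := by
      rw [← hz]
      refine Subgroup.mem_centralizer_iff.2 fun x hx => ?_
      obtain ⟨j, rfl⟩ := Subgroup.mem_zpowers_iff.1 hx
      exact ((show Commute g u from hg).zpow_right j).eq.symm
    refine ⟨g * ((R.σ ⟨g, hgC⟩ : CC) : G)⁻¹, by rw [hz]; exact R.mem ⟨g, hgC⟩, _, hσZ ⟨g, hgC⟩, ?_⟩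
    rw [inv_mul_cancel_right]
  have hidx2 : ((CC).subgroupOf NN).index = 2 := by
    show (CC).relIndex NN = 2
    rw [← hoe, ho1, he2]
  obtain ⟨t, htN, htC⟩ : ∃ t ∈ NN, t ∉ CC := by
    by_contra hcon
    push Not at hcon
    have := Subgroup.relIndex_eq_one.2 (show NN ≤ CC from hcon)
    rw [← hoe, ho1, he2] at this
    omega
  have huP : u ∈ (Ps : Subgroup G) := hz ▸ Subgroup.mem_zpowers u
  have huC : u ∈ CC := S.le_centralizer huP
  have hCu : ∀ g ∈ CC, g * u = u * g := fun g hg =>
    (Subgroup.mem_centralizer_iff.1 hg u huP).symm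
  obtain ⟨j, hj⟩ := Subgroup.mem_zpowers_iff.1
    (show t * u * t⁻¹ ∈ Subgroup.zpowers u from hz ▸ (Subgroup.mem_normalizer_iff.1 htN u).1 huP)
  have htt : t * t ∈ CC := by
    have := Subgroup.mul_self_mem_of_index_two hidx2 (⟨t, htN⟩ : NN)
    simpa [Subgroup.mem_subgroupOf] using this
  have hinv : t * u * t⁻¹ = u⁻¹ := by
    have h1 : u ^ (j * j) = u ^ (1 : ℤ) := by
      rw [zpow_mul, hj, conj_zpow, hj, zpow_one]
      calc t * (t * u * t⁻¹) * t⁻¹ = t * t * u * (t * t)⁻¹ := by group
        _ = u := by rw [hCu _ htt, mul_inv_cancel_right]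
    rw [zpow_eq_zpow_iff_modEq, hu, Int.modEq_iff_dvd] at h1
    have h2 : (p : ℤ) ∣ (1 - j) * (1 + j) := by
      rw [show (1 - j) * (1 + j) = 1 - j * j by ring]; exact h1
    rcases (Nat.prime_iff_prime_int.1 hpr.out).dvd_or_dvd h2 with h | h
    · exfalso
      apply htC
      rw [← hz, Subgroup.zpowers_eq_closure, Subgroup.centralizer_closure,
        Subgroup.mem_centralizer_singleton_iff]
      have hju : u ^ j = u := by
        conv_rhs => rw [← zpow_one u]
        rw [zpow_eq_zpow_iff_modEq, hu, Int.modEq_iff_dvd]; exact h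
      rw [hju] at hj
      conv_rhs => rw [hj]
      group
    · rw [← hj, ← zpow_neg_one, zpow_eq_zpow_iff_modEq, hu, Int.modEq_iff_dvd]
      rwa [show (-1 : ℤ) - j = -(1 + j) by ring, dvd_neg]
  refine ⟨u, hz, hp, hu, hidx, hfaith, hdeg, hcent, ⟨t, hinv, ?_⟩, fun g hg => ?_⟩
  · obtain ⟨x, hx, z, hzz, hxz⟩ := hcent _ (hCu _ htt)
    obtain ⟨i, rfl⟩ := Subgroup.mem_zpowers_iff.1 hx
    have h1 : (u ^ i : G) = (u ^ i)⁻¹ := by
      have h2 : t * (u ^ i * z) * t⁻¹ = u ^ i * z := by
        rw [← hxz]; group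
      rw [show t * (u ^ i * z) * t⁻¹ = (t * u ^ i * t⁻¹) * z by
        rw [← mul_assoc, mul_assoc (t * u ^ i), ← Subgroup.mem_center_iff.1 hzz t⁻¹, ← mul_assoc]] at h2
      rw [← conj_zpow, hinv, inv_zpow] at h2
      exact (mul_right_cancel h2).symm
    have h3 : u ^ (2 * i) = u ^ (0 : ℤ) := by
      rw [zpow_zero, two_mul, zpow_add]
      nth_rewrite 2 [h1]
      rw [mul_inv_cancel]
    rw [zpow_eq_zpow_iff_modEq, hu, Int.modEq_iff_dvd, zero_sub, dvd_neg] at h3
    have h4 : (p : ℤ) ∣ i := ((Nat.prime_iff_prime_int.1 hpr.out).dvd_or_dvd h3).resolve_left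
      fun h => by have := Int.le_of_dvd (by norm_num) h; omega
    have h5 : u ^ i = 1 := orderOf_dvd_iff_zpow_eq_one.1 (hu ▸ h4)
    rw [hxz, h5, one_mul]
    exact hzz
  · have hgN : g ∈ NN := by
      rw [← hz]
      exact mem_normalizer_of_conj_gen hg
    by_cases hgC : g ∈ CC
    · left; rw [hCu g hgC, mul_inv_cancel_right]
    · right
      have h1 : t⁻¹ * g ∈ CC := by
        have h2 := (Subgroup.mul_mem_iff_of_index_two hidx2
          (a := (⟨t⁻¹, inv_mem htN⟩ : NN)) (b := ⟨g, hgN⟩)).2
          ⟨fun h => absurd (show t ∈ CC by simpa [Subgroup.mem_subgroupOf] using h) htC,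
            fun h => absurd (show g ∈ CC by simpa [Subgroup.mem_subgroupOf] using h) hgC⟩
        simpa [Subgroup.mem_subgroupOf] using h2
      calc g * u * g⁻¹ = t * ((t⁻¹ * g) * u * (t⁻¹ * g)⁻¹) * t⁻¹ := by group
        _ = u⁻¹ := by rw [hCu _ h1, mul_inv_cancel_right, hinv]

end CfsgLib.DegPSubTwo
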