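import Cfsg.Agent.Chars.DegPSubTwo.OrbitMult
import Cfsg.Agent.S4442

/-!
# The orbit of the constituents on `C(P) / P` and the degree congruences
-/

set_option autoImplicit false
set_option linter.unusedSectionVars false

namespace CfsgLib.DegPSubTwo

open Cfsg CfsgLib CfsgLib.Chars CfsgLib.Blocks CfsgLib.Blocks.HeightZero
open scoped ComplexConjugate Classical

universe u

variable {G : Type u} [Group G] [Fintype G] {p : ℕ} [hpr : Fact p.Prime] {M : Ideal AlgInt}
  (Ps : Sylow p G)

local notation "CC" => Subgroup.centralizer ((Ps : Subgroup G) : Set G)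
local notation "NN" => Subgroup.normalizer ((Ps : Subgroup G) : Set G)

/-- A block of `C(P)` inducing the block of a character of degree prime to `p`, with a member
trivial on `P`. -/
theorem exists_flat_inducing (hM : IsPModular p M) (S : DegreeLtPrime.OrderP (Ps : Subgroup G) p)
    (R : Retr (p := p) (Ps : Subgroup G))
    (hν : (Nat.card G).factorization p = 1) {χ : IrrCharacter G}
    (hnd : ¬ p ∣ charDegree (χ : G → ℂ)) :
    IsDefectGroup p M (blockOf M (χ : G → ℂ)) (Ps : Subgroup G) ∧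
    ∃ b : Set (IrrCharacter CC), IsInducedBlock M CC b (blockOf M (χ : G → ℂ)) ∧
      ∃ θ ∈ b, flat R S θ = θ := by
  have := Blocks.isMaximal_of_isPModular hM
  have := Blocks.charP_kres hM
  have hB : IsPBlock M (blockOf M (χ : G → ℂ)) := ⟨χ, rfl⟩
  have hdef : IsDefectGroup p M (blockOf M (χ : G → ℂ)) (Ps : Subgroup G) := by
    obtain ⟨E, hE⟩ := HeightZero.exists_defectGroup hM hB
    have hE' := (isDefectGroup_topEl_iff (M := M) hB E).1 hE
    have h0 : minExp p (blockOf M (χ : G → ℂ)) = 0 :=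
      Nat.le_zero.1 ((minExp_le (self_mem_blockOf χ)).trans
        (Nat.factorization_eq_zero_of_not_dvd hnd).le)
    have hEc : Nat.card E = p := by
      rw [Contrib.natCard_defectGroup hM hB hE, blockDefect_eq, h0, hν, Nat.sub_zero, pow_one]
    obtain ⟨Q, hQ⟩ := hE'.2.1.exists_le_sylow
    obtain ⟨x, hx⟩ := MulAction.exists_smul_eq G Q Ps
    have hEQ : E = (Q : Subgroup G) := Subgroup.eq_of_le_of_card_ge hQ (by
      rw [hEc, Q.card_eq_multiplicity, hν, pow_one])
    have := HeightZero.isDefectGroup_conj hM hB hE x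
    rwa [show E.map (MulAut.conj x).toMonoidHom = (Ps : Subgroup G) by
      rw [hEQ, ← hx]; rfl] at this
  refine ⟨hdef, ?_⟩
  obtain ⟨b, hb⟩ := Blocks.Cyclic.exists_inducing hM hB hdef S.isCyclic
  obtain ⟨ξ, hξ⟩ := nonempty_of_isPBlock hb.1
  refine ⟨b, hb, flat R S ξ, ?_, Subtype.ext (funext fun c => by simp [flat_apply, R.idem])⟩
  rw [eq_blockOf_of_mem hb.1 hξ]
  intro g
  obtain ⟨w, hw, hwg⟩ := (isIrr_comp_retr R S ξ).2 g
  have hξ1 : (flat R S ξ).1 1 = ξ.1 1 := by rw [flat_apply, map_one]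
  have hw1 : MemLocalIdeal M (w - 1) :=
    HeightZero.memLocalIdeal_root_pow_sub_one hM (k := 1) (by rwa [pow_one])
  have e : centralChar ξ.1 g - centralChar (flat R S ξ).1 g =
      (w - 1) * centralChar (flat R S ξ).1 g := by
    simp only [centralChar, hξ1]
    rw [hwg, flat_apply]
    ring
  rw [e]
  exact memLocalIdeal_mul_right hw1 (memLocalRing_centralChar (flat R S ξ) g)

/-- The stabiliser of a character of `C(P)` in the normalizer. -/
def stabChr (θ : IrrCharacter CC) : Subgroup NN where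
  carrier := {n | conjChr n θ = θ}
  one_mem' := conjChr_one_eq θ
  mul_mem' := fun {a b} (ha : conjChr a θ = θ) (hb : conjChr b θ = θ) => by
    show conjChr (a * b) θ = θ
    rw [conjChr_mul, ha, hb]
  inv_mem' := fun {a} (ha : conjChr a θ = θ) => by
    show conjChr a⁻¹ θ = θ
    conv_lhs => rw [← ha]
    rw [← conjChr_mul, mul_inv_cancel, conjChr_one_eq]

variable {Ps}

theorem classInner_retr_eq (R : Retr (p := p) (Ps : Subgroup G)) (η : IrrCharacter CC)
    (hη : ∀ c, η.1 (R.σ c) = η.1 c) (F : CC → ℂ) :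
    classInner (fun c => F (R.σ c)) η.1 =
      (Nat.card R.σ.range : ℂ)⁻¹ * ∑ s : R.σ.range, F s * conj (η.1 s) := by
  have hfib : ∀ s : R.σ.range, (Finset.univ.filter fun c => R.σ.rangeRestrict c = s).card =
      Nat.card R.σ.ker := by
    intro s
    obtain ⟨c₀, hc₀⟩ := R.σ.rangeRestrict_surjective s
    rw [← Fintype.card_subtype, ← Nat.card_eq_fintype_card]
    refine Nat.card_congr ((Equiv.mulLeft c₀⁻¹).subtypeEquiv fun c => ?_)
    rw [Equiv.coe_mulLeft, MonoidHom.mem_ker, map_mul, map_inv, inv_mul_eq_one, ← hc₀]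
    exact ⟨fun h => (congrArg Subtype.val h).symm, fun h => Subtype.ext h.symm⟩
  have hcard : Nat.card CC = Nat.card R.σ.range * Nat.card R.σ.ker := by
    rw [← Subgroup.index_ker, Subgroup.index_mul_card]
  unfold classInner
  rw [← Finset.sum_fiberwise Finset.univ R.σ.rangeRestrict]
  have hin : ∀ s : R.σ.range, (∑ c ∈ Finset.univ.filter (fun c => R.σ.rangeRestrict c = s),
      F (R.σ c) * conj (η.1 c)) = (Nat.card R.σ.ker : ℂ) * (F s * conj (η.1 s)) := by
    intro s
    rw [Finset.sum_congr rfl (g := fun _ => F s * conj (η.1 s)) fun c hc => ?_, Finset.sum_const,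
      hfib, nsmul_eq_mul]
    have h : R.σ c = (s : CC) := congrArg Subtype.val (Finset.mem_filter.1 hc).2
    rw [← hη c, h]
  rw [Finset.sum_congr rfl fun s _ => hin s, ← Finset.mul_sum, hcard, Nat.cast_mul, mul_inv,
    mul_assoc, ← mul_assoc (Nat.card R.σ.ker : ℂ)⁻¹,
    inv_mul_cancel₀ (Nat.cast_ne_zero.2 Nat.card_pos.ne'), one_mul]

theorem classInner_navg (θ η : IrrCharacter CC) :
    classInner (navg Ps θ) η.1 = if η ∈ orb θ then ((orb θ).card : ℂ)⁻¹ else 0 := by
  have hnav : navg Ps θ = (Nat.card NN : ℂ)⁻¹ • ∑ n : NN, (conjChr n θ).1 := by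
    funext c
    simp [navg, conjChr_apply, Finset.sum_apply]
  rw [hnav, classInner_smul_left, classInner_sum_left]
  simp only [classInner_irr, Finset.sum_boole]
  obtain ⟨hfib, hcard⟩ := card_fiber_mul_card_orb θ
  split_ifs with h
  · have hne : Nonempty {n : NN // conjChr n θ = θ} := ⟨⟨1, conjChr_one_eq θ⟩⟩
    have h0 : Nat.card {n : NN // conjChr n θ = θ} ≠ 0 := Nat.card_pos.ne'
    have hh := hfib η h
    rw [Nat.card_eq_fintype_card, Fintype.card_subtype] at hh
    rw [hh, ← hcard, Nat.cast_mul, mul_inv, mul_assoc,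
      inv_mul_cancel₀ (Nat.cast_ne_zero.2 h0), mul_one]
  · rw [Finset.filter_false_of_mem fun n _ hn => h (mem_orb.2 ⟨n, hn⟩), Finset.card_empty,
      Nat.cast_zero, mul_zero]

/-- **The multiplicities on `C(P) / P`.** -/
theorem exists_orbit_mult (hp2 : p ≠ 2) (hP : Nat.card Ps = p) (hsq : ¬ p ^ 2 ∣ Nat.card G)
    (S : DegreeLtPrime.OrderP (Ps : Subgroup G) p) (R : Retr (p := p) (Ps : Subgroup G))
    (χ : IrrCharacter G) (hlt : charDegree (χ : G → ℂ) < p) :
    ∃ (θ : IrrCharacter CC) (k : IrrCharacter CC → ℕ) (a d e : ℕ),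
      flat R S θ = θ ∧ charDegree θ.1 = d ∧
      (fun c : CC => (χ : G → ℂ) c) = ∑ ξ, (k ξ : ℂ) • ξ.1 ∧
      (∀ η, flat R S η = η → (∑ ξ ∈ Finset.univ.filter (fun ξ => flat R S ξ = η), k ξ) =
        if η ∈ orb θ then a else 0) ∧
      0 < a ∧ a * (orb θ).card * d = charDegree (χ : G → ℂ) ∧
      e * Nat.card CC = Nat.card (stabChr Ps θ) ∧
      (orb θ).card * e = (CC).relIndex NN ∧ e ∣ p - 1 ∧
      ((a : ZMod p) = 1 ∨ (a : ZMod p) = -1 ∨ (a : ZMod p) = e ∨ (a : ZMod p) = -(e : ZMod p)) := by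
  have hp : p.Prime := hpr.out
  obtain ⟨M, hM⟩ := exists_isPModular p hp
  have := Blocks.isMaximal_of_isPModular hM
  have hν : (Nat.card G).factorization p = 1 := by
    rw [hp.pow_dvd_iff_le_factorization Nat.card_pos.ne'] at hsq
    have := hp.factorization_pos_of_dvd Nat.card_pos.ne'
      (hP ▸ Subgroup.card_subgroup_dvd_card (Ps : Subgroup G))
    omega
  set f := charDegree (χ : G → ℂ) with hf
  have hf0 : 0 < f := Chars.charDegree_pos χ
  have hnd : ¬ p ∣ f := fun h => absurd (Nat.le_of_dvd hf0 h) (by omega)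
  obtain ⟨hdef, b, hb, θ, hθb, hθ⟩ := exists_flat_inducing Ps hM S R hν hnd
  obtain ⟨k, -, hk, hkd⟩ := Chars.exists_restrict_coeff χ CC
  set o := (orb θ).card with ho
  set d := charDegree θ.1 with hd
  have hd0 : 0 < d := Chars.charDegree_pos θ
  have hσ1 : ∀ η : IrrCharacter CC, flat R S η = η → ∀ c, η.1 (R.σ c) = η.1 c := fun η h c =>
    congrFun (congrArg Subtype.val h) c
  set X : CC → ℂ := fun c => (χ : G → ℂ) (R.σ c) with hX
  let m : IrrCharacter CC → ℕ := fun η => ∑ ξ ∈ Finset.univ.filter (fun ξ => flat R S ξ = η), k ξ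
  have hm : ∀ η : IrrCharacter CC, classInner X η.1 = (m η : ℂ) := by
    intro η
    have e1 : X = ∑ ξ, (k ξ : ℂ) • (flat R S ξ).1 := by
      funext c
      have := congrFun hk (R.σ c)
      simp only [Finset.sum_apply, Pi.smul_apply, flat_apply] at this ⊢
      exact this
    rw [e1, classInner_sum_left]
    simp only [classInner_smul_left, classInner_irr, mul_ite, mul_one, mul_zero]
    rw [← Finset.sum_filter]
    simp [m]
  have horbflat : ∀ η ∈ orb θ, flat R S η = η := by
    intro η hη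
    obtain ⟨n, rfl⟩ := mem_orb.1 hη
    rw [flat_conjChr, hθ]
  -- the congruence
  set r := Nat.card R.σ.range with hr
  have hker : R.σ.ker = (Ps : Subgroup G).subgroupOf CC := by
    ext c
    rw [MonoidHom.mem_ker, Subgroup.mem_subgroupOf]
    refine ⟨fun h => ?_, R.one_of_mem c⟩
    have := R.mem c
    rwa [h, Subgroup.coe_one, inv_one, mul_one] at this
  have hrp : ¬ p ∣ r := by
    intro h
    apply hsq
    have h1 : Nat.card CC = r * Nat.card R.σ.ker := by
      rw [hr, ← Subgroup.index_ker, Subgroup.index_mul_card]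
    rw [hker, Nat.card_congr (Subgroup.subgroupOfEquivOfLe S.le_centralizer).toEquiv, hP] at h1
    exact ((pow_two p).symm ▸ Nat.mul_dvd_mul_right h p).trans
      (h1 ▸ Subgroup.card_subgroup_dvd_card CC)
  have hcong : ∀ η : IrrCharacter CC, flat R S η = η →
      ((m η : ZMod p) * (o * d : ℕ) = if η ∈ orb θ then (f : ZMod p) else 0) := by
    intro η hη
    have hloc : MemLocalIdeal M (∑ s : R.σ.range, ((χ : G → ℂ) (s : CC) / (χ : G → ℂ) 1 -
        navg Ps θ s / θ.1 1) * conj (η.1 s)) := by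
      refine memLocalIdeal_sum _ fun s _ => memLocalIdeal_mul_right
        (congr_apply_avg hM hP hsq hnd hb hθb _) ?_
      rw [Chars.conj_eq_map_inv (Chars.isCharacter_coe η)]
      exact HeightZero.memLocalRing_apply (Chars.isCharacter_coe η) _
    have hfl : ∀ c, navg Ps θ (R.σ c) = navg Ps θ c := fun c => by
      simp only [navg, ← R.map_conjC, hσ1 θ hθ]
    have e2 : classInner (navg Ps θ) η.1 = if η ∈ orb θ then (o : ℂ)⁻¹ else 0 := classInner_navg θ η
    have e3 := classInner_retr_eq R η (hσ1 η hη) (navg Ps θ)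
    simp only [hfl] at e3
    rw [e2] at e3
    have e4 := classInner_retr_eq R η (hσ1 η hη) (fun c : CC => (χ : G → ℂ) c)
    rw [show (fun c : CC => (fun c : CC => (χ : G → ℂ) c) (R.σ c)) = X from rfl, hm] at e4
    have hr0 : (r : ℂ) ≠ 0 := Nat.cast_ne_zero.2 fun e => hrp (e ▸ dvd_zero p)
    have ho0 : (o : ℂ) ≠ 0 := Nat.cast_ne_zero.2 (Finset.card_ne_zero.2 ⟨θ, mem_orb.2 ⟨1, conjChr_one_eq θ⟩⟩)
    have hsum : ∑ s : R.σ.range, ((χ : G → ℂ) (s : CC) / (χ : G → ℂ) 1 -
        navg Ps θ s / θ.1 1) * conj (η.1 s) =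
        (r : ℂ) * ((m η : ℂ) / f - (if η ∈ orb θ then (o : ℂ)⁻¹ else 0) / d) := by
      rw [← Chars.coe_charDegree χ, ← Chars.coe_charDegree θ, ← hf, ← hd]
      simp only [sub_mul, Finset.sum_sub_distrib, div_eq_mul_inv, mul_right_comm _ _ (conj _),
        ← Finset.sum_mul]
      rw [e4, e3, ← hr]
      field_simp
    rw [hsum] at hloc
    have hint : MemLocalIdeal M (((((m η * (o * d) : ℕ) : ℤ) -
        (if η ∈ orb θ then (f : ℤ) else 0) : ℤ) : ℂ) * r) := by
      have h' := memLocalIdeal_mul_right hloc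
        (memLocalRing_of_isIntegral (isIntegral_natCast (f * (o * d))))
      convert h' using 1
      have hf' : (f : ℂ) ≠ 0 := Nat.cast_ne_zero.2 hf0.ne'
      have hd' : (d : ℂ) ≠ 0 := Nat.cast_ne_zero.2 hd0.ne'
      split_ifs
      · push_cast; field_simp
      · push_cast; field_simp; ring
    set D : ℤ := ((m η * (o * d) : ℕ) : ℤ) - (if η ∈ orb θ then (f : ℤ) else 0) with hD
    have hDr : MemLocalIdeal M ((D : ℂ)) := by
      have hu : ¬ MemLocalIdeal M ((r : ℂ)) := fun hh =>
        hrp ((memLocalIdeal_natCast_iff hM _).1 hh)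
      have := memLocalIdeal_mul_right hint
        (memLocalRing_inv (memLocalRing_of_isIntegral (isIntegral_natCast r)) hu)
      rwa [mul_assoc, mul_inv_cancel₀ hr0, mul_one] at this
    have hpD : (p : ℤ) ∣ D := by
      have hn : MemLocalIdeal M ((D.natAbs : ℂ)) := by
        rcases Int.natAbs_eq D with he | he
        · rwa [he, Int.cast_natCast] at hDr
        · rw [he, Int.cast_neg, Int.cast_natCast] at hDr
          simpa using memLocalIdeal_neg hDr
      exact Int.natCast_dvd.2 ((memLocalIdeal_natCast_iff hM _).1 hn)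
    have h0 := (ZMod.intCast_zmod_eq_zero_iff_dvd D p).2 hpD
    rw [hD] at h0
    split_ifs at h0 ⊢ with h <;> push_cast at h0 <;> push_cast <;> exact sub_eq_zero.1 h0
  have hod : ((o * d : ℕ) : ZMod p) ≠ 0 := by
    intro h
    have h1 := hcong θ hθ
    rw [h, mul_zero, if_pos (mem_orb.2 ⟨1, conjChr_one_eq θ⟩), eq_comm,
      ZMod.natCast_eq_zero_iff] at h1
    exact hnd h1
  have hmle : ∀ η, flat R S η = η → m η ≤ f := by
    intro η _
    refine le_trans (Finset.sum_le_univ_sum_of_nonneg fun _ => Nat.zero_le _) ?_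
    rw [hf, hkd]
    exact Finset.sum_le_sum fun ξ _ => Nat.le_mul_of_pos_right _ (Chars.charDegree_pos ξ)
  set a := m θ with ha
  have hall : ∀ η, flat R S η = η → m η = if η ∈ orb θ then a else 0 := by
    intro η hη
    have h1 := hcong η hη
    split_ifs with h
    · rw [if_pos h, ← if_pos (c := θ ∈ orb θ) (t := (f : ZMod p)) (e := 0)
        (mem_orb.2 ⟨1, conjChr_one_eq θ⟩), ← hcong θ hθ] at h1
      have h2 := mul_right_cancel₀ hod h1
      rw [ZMod.natCast_eq_natCast_iff', Nat.mod_eq_of_lt ((hmle η hη).trans_lt hlt),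
        Nat.mod_eq_of_lt ((hmle θ hθ).trans_lt hlt)] at h2
      exact h2
    · rw [if_neg h] at h1
      have h2 := (mul_eq_zero.1 h1).resolve_right hod
      rw [ZMod.natCast_eq_zero_iff] at h2
      by_contra hne
      exact absurd (Nat.le_of_dvd (Nat.pos_of_ne_zero hne) h2) (by have := hmle η hη; omega)
  have hdeg : a * o * d = f := by
    have h1 : (f : ℕ) = ∑ ξ, k ξ * charDegree (flat R S ξ).1 := by
      rw [hf, hkd]
      refine Finset.sum_congr rfl fun ξ _ => ?_
      congr 1
      refine (Chars.charDegree_eq_of_map_one ?_).symm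
      rw [flat_apply, map_one, Chars.coe_charDegree]
    rw [h1, ← Finset.sum_fiberwise Finset.univ (fun ξ => flat R S ξ)]
    have h2 : ∀ η, (∑ ξ ∈ Finset.univ.filter (fun ξ => flat R S ξ = η),
        k ξ * charDegree (flat R S ξ).1) = if η ∈ orb θ then a * d else 0 := by
      intro η
      by_cases hη : flat R S η = η
      · rw [Finset.sum_congr rfl (g := fun ξ => k ξ * charDegree η.1) fun ξ hξ => by
          rw [(Finset.mem_filter.1 hξ).2], ← Finset.sum_mul,
          show (∑ ξ ∈ Finset.univ.filter (fun ξ => flat R S ξ = η), k ξ) = m η from rfl, hall η hη]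
        split_ifs with h
        · obtain ⟨n, rfl⟩ := mem_orb.1 h
          congr 1
          refine Chars.charDegree_eq_of_map_one ?_
          rw [conjChr_apply, map_one, hd, Chars.coe_charDegree]
        · rw [zero_mul]
      · rw [if_neg fun h => hη (horbflat η h), Finset.sum_eq_zero]
        intro ξ hξ
        exfalso
        apply hη
        rw [← (Finset.mem_filter.1 hξ).2]
        exact Subtype.ext (funext fun c => by simp [flat_apply, R.idem])
    rw [Finset.sum_congr rfl fun η _ => h2 η, ← Finset.sum_filter, Finset.filter_univ_mem,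
      Finset.sum_const, smul_eq_mul]
    ring
  have ha0 : 0 < a := Nat.pos_of_ne_zero fun h => by rw [h] at hdeg; simp at hdeg; omega
  -- the local index
  set T := (stabChr Ps θ).map (NN).subtype with hT
  set e := (CC).relIndex T with he
  have hCT : CC ≤ T := by
    intro c hc
    refine ⟨⟨c, Subgroup.centralizer_le_normalizer _ hc⟩, ?_, rfl⟩
    refine Subtype.ext (funext fun x => ?_)
    rw [conjChr_apply, show conjC _ ⟨c, Subgroup.centralizer_le_normalizer _ hc⟩ x =
      ⟨c, hc⟩ * x * ⟨c, hc⟩⁻¹ from rfl]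
    exact Chars.isClassFunction_coe θ x ⟨c, hc⟩
  have hTcard : Nat.card T = Nat.card (stabChr Ps θ) :=
    (Nat.card_congr ((stabChr Ps θ).equivMapOfInjective _ (NN).subtype_injective).toEquiv).symm
  have hec : e * Nat.card CC = Nat.card (stabChr Ps θ) := by
    rw [← hTcard, ← Subgroup.index_mul_card ((CC).subgroupOf T),
      Nat.card_congr (Subgroup.subgroupOfEquivOfLe hCT).toEquiv]
    rfl
  have hoe : o * e = (CC).relIndex NN := by
    refine Nat.eq_of_mul_eq_mul_right (Nat.card_pos (α := CC)) ?_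
    rw [mul_assoc, hec]
    have h2 : (CC).relIndex NN * Nat.card CC = Nat.card NN := by
      rw [← Subgroup.index_mul_card ((CC).subgroupOf NN),
        Nat.card_congr (Subgroup.subgroupOfEquivOfLe (Subgroup.centralizer_le_normalizer _)).toEquiv]
      rfl
    rw [h2]
    exact (card_fiber_mul_card_orb θ).2
  have hTdef : ∀ g : G, g ∈ T ↔ (g ∈ NN ∧ ∀ c c' : CC, (c' : G) = g * c * g⁻¹ →
      θ.1 c' = θ.1 c) := by
    intro g
    constructor
    · rintro ⟨n, hn, rfl⟩
      refine ⟨n.2, fun c c' hc => ?_⟩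
      rw [show c' = conjC _ n c from Subtype.ext hc, ← conjChr_apply,
        show conjChr n θ = θ from hn]
    · rintro ⟨hg, hfix⟩
      exact ⟨⟨g, hg⟩, Subtype.ext (funext fun c => hfix c _ rfl), rfl⟩
  have hθP : ∀ x : CC, (x : G) ∈ (Ps : Subgroup G) → θ.1 x = θ.1 1 := fun x hx => by
    rw [← hσ1 θ hθ x, R.one_of_mem x hx]
  obtain ⟨hed, -, Xs, Ys, hXY, -, -, -, hXc, ⟨ε, hε, hYc⟩, -⟩ :=
    Cfsg.Agent.S4442.result p M hM hp2 Ps hP _ ⟨χ, rfl⟩ hdef b hb θ hθb hθP T hTdef e
      (o * e) rfl hoe.symm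
  refine ⟨θ, k, a, d, e, hθ, rfl, hk, hall, ha0, hdeg, hec, hoe, hed, ?_⟩
  have he0 : 0 < e := Nat.pos_of_dvd_of_pos hed (by have := hp.two_le; omega)
  have hmem : χ ∈ Xs ∪ Ys := hXY ▸ self_mem_blockOf χ
  have hfz : (f : ZMod p) = (a : ZMod p) * ((o * d : ℕ) : ZMod p) := by
    rw [← Nat.cast_mul, ← mul_assoc, hdeg]
  rw [Nat.mul_div_cancel _ he0, ← hd] at hXc
  rw [← hd] at hYc
  rcases hmem with hmem | hmem
  · rcases hXc χ hmem with h | h <;> rw [← ZMod.intCast_eq_intCast_iff, ← hf] at h <;>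
      push_cast [hfz] at h hod ⊢
    · left
      exact mul_right_cancel₀ hod (h.trans (one_mul _).symm)
    · right; left
      exact mul_right_cancel₀ hod (h.trans (neg_one_mul _).symm)
  · have h := hYc χ hmem
    rw [← ZMod.intCast_eq_intCast_iff, ← hf] at h
    push_cast [hfz] at h hod ⊢
    rcases hε with rfl | rfl
    · right; right; left
      refine mul_right_cancel₀ hod (h.trans ?_)
      push_cast
      ring
    · right; right; right
      refine mul_right_cancel₀ hod (h.trans ?_)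
      push_cast
      ring

end CfsgLib.DegPSubTwo
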