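import Cfsg.Agent.Chars.DegPSubTwo.CaseB
import Cfsg.Agent.S4701
import Cfsg.Agent.Schur.SL2Kernel
import Cfsg.Agent.Classical.Linear.Card

/-!
# Recognition: `G ≅ SL(2, p - 1) × Z(G)`
-/

set_option autoImplicit false
set_option linter.unusedSectionVars false

namespace CfsgLib.DegPSubTwo

open Cfsg CfsgLib CfsgLib.Chars CfsgLib.Blocks.OrderP
open scoped ComplexConjugate Classical commutatorElement

universe u

variable {G : Type u} [Group G] [Fintype G] {p : ℕ} [hpr : Fact p.Prime] {u : G}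
  {ζ : IrrCharacter G}

namespace Princ

variable {A : Good p u ζ} {θ : IrrCharacter G} {δ : ℤ} {X : (ZMod p)ˣ → IrrCharacter G}
  (Pr : Princ A θ δ X)
include Pr

theorem commutator_quotient : commutator (G ⧸ Subgroup.center G) = ⊤ := by
  by_contra h
  obtain ⟨l, hl⟩ := exists_nontrivial_linChar h
  set l' : G →* ℂˣ := l.comp (QuotientGroup.mk' (Subgroup.center G)) with hl'
  have hz : linChar l' ∈ overSet (oneChar G) := by
    refine mem_overSet.2 fun z hz => ?_
    have : (QuotientGroup.mk' (Subgroup.center G)) z = 1 := (QuotientGroup.eq_one_iff z).2 hz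
    rw [cval_oneChar, cval, linChar_map_one, div_one, linChar_apply, hl', MonoidHom.comp_apply,
      this, map_one, Units.val_one]
  have h1 : (linChar l' : G → ℂ) 1 = ((1 : ℕ) : ℂ) := by rw [linChar_map_one, Nat.cast_one]
  have hp7 := Pr.p_seven_of_prime
  by_cases e1 : linChar l' = oneChar G
  · apply hl
    have e := (linChar_eq_oneChar_iff l').1 e1
    refine MonoidHom.ext fun x => ?_
    obtain ⟨g, rfl⟩ := QuotientGroup.mk'_surjective (Subgroup.center G) x
    exact DFunLike.congr_fun e g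
  by_cases e2 : linChar l' = θ
  · rw [e2, Pr.theta_one] at h1
    have : ((p : ℕ) : ℂ) = ((2 : ℕ) : ℂ) := by push_cast at h1 ⊢; linear_combination h1
    have := Nat.cast_injective this
    omega
  by_cases e3 : ∃ j, linChar l' = X j
  · obtain ⟨j, e3⟩ := e3
    rw [e3, Pr.X_apply_one, Pr.theta_one, Pr.delta_eq] at h1
    have : ((p : ℕ) : ℂ) = ((3 : ℕ) : ℂ) := by push_cast at h1 ⊢; linear_combination h1
    have := Nat.cast_injective this
    omega
  push Not at e3
  obtain ⟨n, hn1, hn⟩ := Pr.exists_rest_deg (χ := linChar l') (Finset.mem_sdiff.2 ⟨hz, by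
    simp only [Finset.mem_insert, Finset.mem_image, not_or, not_exists, not_and]
    exact ⟨e1, e2, fun j _ h => e3 j h.symm⟩⟩)
  rw [charDegree_linChar] at hn
  have : (7 : ℤ) ≤ p := by exact_mod_cast hp7
  have : (1 : ℤ) ≤ n := by exact_mod_cast hn1
  push_cast at hn
  nlinarith

theorem card_quotient : Nat.card (G ⧸ Subgroup.center G) = p * (p - 1) * (p - 2) :=
  Nat.eq_of_mul_eq_mul_right (Nat.card_pos (α := Subgroup.center G))
    ((Subgroup.card_eq_card_quotient_mul_card_subgroup _).symm.trans Pr.card_eq)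

/-- The central quotient is `SL(2, 2^a)`. -/
theorem quotient_recognised (hnn : ¬ (Subgroup.zpowers u).Normal) :
    ∃ (a : ℕ) (F : Type) (_ : Field F) (_ : Fintype F), p = 2 ^ a + 1 ∧ Fintype.card F = 2 ^ a ∧
      Nonempty (G ⧸ Subgroup.center G ≃* Matrix.SpecialLinearGroup (Fin 2) F) := by
  have hp7 := Pr.p_seven_of_prime
  have hcard := Pr.card_quotient
  set π := QuotientGroup.mk' (Subgroup.center G) with hπ
  have hPg : IsPGroup p (Subgroup.zpowers u) :=
    IsPGroup.of_card (n := 1) (by rw [Nat.card_zpowers, A.base.hu, pow_one])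
  have hπeq : ∀ x y : G, π x = π y → ∃ z ∈ Subgroup.center G, x = y * z := fun x y h =>
    ⟨y⁻¹ * x, (QuotientGroup.eq.1 h.symm), by rw [mul_inv_cancel_left]⟩
  -- conjugates of `u` in `u^j Z` lie in `P`
  have hconj : ∀ g : G, ∀ j : ZMod p, π (g * u * g⁻¹) = π (upow u j) → g * u * g⁻¹ = upow u j := by
    intro g j h
    obtain ⟨z, hz, e⟩ := hπeq _ _ h
    have hc := A.base.card_conj (i := (1 : ZMod p)) (j := j) one_ne_zero (z := 1) (one_mem _) hz
    by_cases hz1 : (1 : G) = z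
    · rw [e, ← hz1, mul_one]
    · rw [if_neg fun h => hz1 h.1, Nat.card_eq_zero] at hc
      rcases hc with h | h
      · exact h.elim ⟨g, by rw [mul_one, upow_one A.base.hu, e]⟩
      · exact absurd h (not_infinite_iff_finite.2 inferInstance)
  set Q := (hPg.toSylow A.base.hidx).mapSurjective (QuotientGroup.mk'_surjective (Subgroup.center G))
  have hQ : (Q : Subgroup (G ⧸ Subgroup.center G)) = (Subgroup.zpowers u).map π := rfl
  have hQn : ¬ (Q : Subgroup (G ⧸ Subgroup.center G)).Normal := by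
    intro hn
    apply hnn
    refine ⟨fun x hx g => ?_⟩
    obtain ⟨i, rfl⟩ := Subgroup.mem_zpowers_iff.1 hx
    rw [← conj_zpow]
    refine zpow_mem ?_ i
    have h1 : π g * π u * (π g)⁻¹ ∈ (Q : Subgroup (G ⧸ Subgroup.center G)) :=
      hn.conj_mem _ ⟨u, Subgroup.mem_zpowers u, rfl⟩ _
    rw [hQ, ← map_inv, ← map_mul, ← map_mul] at h1
    obtain ⟨y, hy, hy'⟩ := Subgroup.mem_map.1 h1
    obtain ⟨j, rfl⟩ := (mem_zpowers_iff_upow A.base.hu).1 hy
    rw [hconj g j hy'.symm]
    exact pow_mem (Subgroup.mem_zpowers u) _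
  have h2 : ∀ N : Subgroup (G ⧸ Subgroup.center G), N.Normal → Nat.card N ≠ 2 := by
    intro N hN h
    obtain ⟨⟨n, hn⟩, hn1⟩ : ∃ n : N, n ≠ 1 := by
      haveI : Nontrivial N := Finite.one_lt_card_iff_nontrivial.1 (by omega)
      exact exists_ne 1
    have hn1' : n ≠ 1 := fun e => hn1 (Subtype.ext e)
    obtain ⟨g, rfl⟩ := QuotientGroup.mk'_surjective (Subgroup.center G) n
    have htwo : ∀ a ∈ N, a ≠ 1 → a = π g := fun a ha ha1 => congrArg Subtype.val
      (((Nat.card_eq_two_iff' (1 : N)).1 h).unique (y₁ := (⟨a, ha⟩ : N)) (y₂ := (⟨π g, hn⟩ : N))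
        (fun e => ha1 (congrArg Subtype.val e)) (fun e => hn1' (congrArg Subtype.val e)))
    have hcomm : π u * π g * (π u)⁻¹ = π g := htwo _ (hN.conj_mem _ hn _) fun e =>
      hn1' (conj_eq_one_iff.1 e)
    have hgu : g * u * g⁻¹ = u := by
      have h5 := hconj g 1 (by
        rw [upow_one A.base.hu, map_mul, map_mul, map_inv, mul_inv_eq_iff_eq_mul]
        exact (mul_inv_eq_iff_eq_mul.1 hcomm).symm)
      rwa [upow_one A.base.hu] at h5
    obtain ⟨i, z, rfl⟩ := A.base.cent_upow (mul_inv_eq_iff_eq_mul.1 hgu)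
    have hzπ : π (z : G) = 1 := (QuotientGroup.eq_one_iff _).2 z.2
    rw [map_mul, hzπ, mul_one] at hn hn1' htwo
    have hsq : π (upow u i) * π (upow u i) = 1 := by
      by_contra hne
      exact hn1' (mul_eq_left.1 (htwo _ (mul_mem hn hn) hne))
    rw [← map_mul, hπ, QuotientGroup.mk'_apply, QuotientGroup.eq_one_iff, ← pow_two,
      upow_pow A.base.hu] at hsq
    have := A.base.eq_zero_of_upow_mem_center hsq
    rcases mul_eq_zero.1 this with hi | hi
    · exact hn1' (by rw [hi, upow_zero A.base.hu, map_one])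
    · exact two_ne_zero_zmod A.base.five_lt (by exact_mod_cast hi)
  have hdvd : p ∣ Nat.card (G ⧸ Subgroup.center G) := hcard ▸ (dvd_mul_right p _).mul_right _
  have hlt : Nat.card (G ⧸ Subgroup.center G) < p ^ 3 := by
    rw [hcard, pow_succ, pow_two]
    exact Nat.mul_lt_mul_of_le_of_lt (Nat.mul_le_mul_left p (Nat.sub_le p 1)) (by omega)
      (Nat.mul_pos hpr.out.pos hpr.out.pos)
  rcases Cfsg.Agent.S4701.result Pr.commutator_quotient p hdvd hlt Q hQn h2 with
    ⟨F, iF, iT, hF, -, ⟨e⟩⟩ | ⟨m, F, iF, iT, hF, hm, -, he⟩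
  · exfalso
    have h := CfsgLib.Classical.Linear.card_psl_two (F := F)
    rw [← Nat.card_congr e.toEquiv, hcard, hF] at h
    obtain ⟨q, rfl⟩ := hpr.out.odd_of_ne_two (by omega)
    rw [show Nat.gcd 2 (2 * q + 1 - 1) = 2 by simp] at h
    rw [Nat.add_sub_cancel, show (2 * q + 1) ^ 2 - 1 = (2 * q) * (2 * q + 2) from
      Nat.sub_eq_of_eq_add (by ring)] at h
    have h' : 2 * (2 * q + 1 - 2) = 2 * q + 2 := by
      apply Nat.eq_of_mul_eq_mul_left (Nat.mul_pos (by omega) (by omega) : 0 < (2 * q + 1) * (2 * q))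
      linarith
    omega
  · exact ⟨m, F, iF, iT, hm, hF, he⟩

end Princ

/-- **The theorem.** -/
theorem exists_mulEquiv (Ps : Sylow p G) (hp : 5 < p) (hP : Nat.card Ps = p)
    (hnn : ¬ (Ps : Subgroup G).Normal) (ζ : IrrCharacter G)
    (hfaith : ∀ g : G, (ζ : G → ℂ) g = (ζ : G → ℂ) 1 → g = 1)
    (hdeg : charDegree (ζ : G → ℂ) = p - 2) :
    ∃ (a : ℕ) (F : Type) (_ : Field F) (_ : Fintype F), p = 2 ^ a + 1 ∧ Fintype.card F = 2 ^ a ∧
      Nonempty (G ≃* Matrix.SpecialLinearGroup (Fin 2) F × Subgroup.center G) := by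
  obtain ⟨u₀, hu₀, B₀⟩ := exists_base Ps hp hP hnn ζ hfaith hdeg
  obtain ⟨u, hu, B, hval⟩ := B₀.exists_values
  have A : Good p u ζ := ⟨B, hval⟩
  obtain ⟨θ, δ, X, Pr⟩ := A.exists_princ
  obtain ⟨a, F, iF, iT, hpa, hF, ⟨e⟩⟩ := Pr.quotient_recognised (by rwa [hu, hu₀])
  refine ⟨a, F, iF, iT, hpa, hF, ?_⟩
  have hperf := Pr.commutator_quotient
  set Z := Subgroup.center G with hZ
  set D := commutator G with hD
  have hmap : D.map (QuotientGroup.mk' Z) = ⊤ := by
    rw [← hperf, hD, commutator_def, commutator_def, Subgroup.map_commutator,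
      Subgroup.map_top_of_surjective _ (QuotientGroup.mk'_surjective Z)]
  have hsplit : ∀ g : G, ∃ d ∈ D, ∃ z ∈ Z, g = d * z := fun g => by
    obtain ⟨d, hd, hd'⟩ := Subgroup.mem_map.1 (show (QuotientGroup.mk' Z) g ∈ D.map (QuotientGroup.mk' Z)
      by rw [hmap]; exact Subgroup.mem_top _)
    exact ⟨d, hd, d⁻¹ * g, QuotientGroup.eq.1 hd', by rw [mul_inv_cancel_left]⟩
  have hDD : D ≤ ⁅D, D⁆ := by
    conv_lhs => rw [hD, commutator_def]
    rw [Subgroup.commutator_le]
    intro g _ h _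
    obtain ⟨a, ha, z, hz, rfl⟩ := hsplit g
    obtain ⟨b, hb, w, hw, rfl⟩ := hsplit h
    have hz' : ∀ x : G, x * z = z * x := Subgroup.mem_center_iff.1 hz
    have hw' : ∀ x : G, x * w = w * x := Subgroup.mem_center_iff.1 hw
    have : ⁅a * z, b * w⁆ = ⁅a, b⁆ := by
      simp only [commutatorElement_def]
      calc a * z * (b * w) * (a * z)⁻¹ * (b * w)⁻¹
          = a * (z * b) * (w * (z⁻¹ * a⁻¹)) * w⁻¹ * b⁻¹ := by group
        _ = a * (b * z) * ((z⁻¹ * a⁻¹) * w) * w⁻¹ * b⁻¹ := by rw [hz' b, hw' (z⁻¹ * a⁻¹)]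
        _ = _ := by group
    rw [this]
    exact Subgroup.commutator_mem_commutator ha hb
  let σ : D →* Matrix.SpecialLinearGroup (Fin 2) F :=
    e.toMonoidHom.comp ((QuotientGroup.mk' Z).comp D.subtype)
  have hker : ∀ x : D, x ∈ σ.ker ↔ (x : G) ∈ Z := fun x => by
    rw [MonoidHom.mem_ker]
    show e (QuotientGroup.mk' Z (x : G)) = 1 ↔ _
    rw [EmbeddingLike.map_eq_one_iff]
    exact QuotientGroup.eq_one_iff _
  have hσ : Cfsg.IsStemExtension σ := by
    refine ⟨fun s => ?_, fun x hx => ?_, fun x _ => ?_⟩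
    · obtain ⟨g, hg⟩ := QuotientGroup.mk'_surjective Z (e.symm s)
      obtain ⟨d, hd, z, hz, rfl⟩ := hsplit g
      refine ⟨⟨d, hd⟩, ?_⟩
      show e (QuotientGroup.mk' Z d) = s
      rw [map_mul, show (QuotientGroup.mk' Z) z = 1 from (QuotientGroup.eq_one_iff z).2 hz,
        mul_one] at hg
      rw [hg, MulEquiv.apply_symm_apply]
    · exact Subgroup.mem_center_iff.2 fun y =>
        Subtype.ext (Subgroup.mem_center_iff.1 ((hker x).1 hx) (y : G))
    · have : (commutator D).map D.subtype = ⁅D, D⁆ := by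
        rw [commutator_def, Subgroup.map_commutator, ← MonoidHom.range_eq_map, Subgroup.range_subtype]
      obtain ⟨y, hy, hyx⟩ := Subgroup.mem_map.1 (this ▸ hDD x.2)
      rwa [← Subtype.ext hyx]
  have hp7 := Pr.p_seven_of_prime
  have hF4 : Fintype.card F ≠ 4 := fun h => by omega
  have hF9 : Fintype.card F ≠ 9 := fun h => by
    have h2 : p = 10 := by omega
    exact absurd (h2 ▸ hpr.out) (by norm_num)
  have hker1 : σ.ker = ⊥ := Subgroup.card_eq_one.1 (by
    by_contra h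
    obtain ⟨r, hr, hrd⟩ := Nat.exists_prime_and_dvd h
    exact Schur.sl2_stem_ker_trivial hσ hF4 hF9 r hr hrd)
  have hσe : Function.Bijective σ := ⟨(MonoidHom.ker_eq_bot_iff σ).1 hker1, hσ.1⟩
  let f : D × Z →* G :=
    MonoidHom.mk' (fun q => (q.1 : G) * q.2) fun q r => by
      show ((q.1 : G) * r.1) * ((q.2 : G) * r.2) = (q.1 : G) * q.2 * ((r.1 : G) * r.2)
      rw [mul_assoc, ← mul_assoc (r.1 : G), Subgroup.mem_center_iff.1 q.2.2 (r.1 : G)]
      group
  have hf : Function.Bijective f := by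
    refine ⟨(injective_iff_map_eq_one f).2 ?_, fun g => ?_⟩
    · rintro ⟨⟨d, hd⟩, ⟨z, hz⟩⟩ h
      have h' : d * z = 1 := h
      have hdZ : d ∈ Z := eq_inv_of_mul_eq_one_left h' ▸ inv_mem hz
      have hd1 : (⟨d, hd⟩ : D) = 1 := by
        rw [← Subgroup.mem_bot, ← hker1]
        exact (hker _).2 hdZ
      have hd2 : d = 1 := congrArg Subtype.val hd1
      rw [hd2, one_mul] at h'
      exact Prod.ext hd1 (Subtype.ext h')
    · obtain ⟨d, hd, z, hz, rfl⟩ := hsplit g
      exact ⟨(⟨d, hd⟩, ⟨z, hz⟩), rfl⟩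
  exact ⟨(MulEquiv.ofBijective f hf).symm.trans
    ((MulEquiv.ofBijective σ hσe).prodCongr (MulEquiv.refl _))⟩

end CfsgLib.DegPSubTwo
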