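import Cfsg.Agent.Chars.DegPSubTwo.Columns
import Cfsg.Agent.Chars.GaloisHom.Basic

/-!
# The values of the character of degree `p - 2` on the Sylow subgroup

For a suitable generator `u` the value at `u^i`, `i ≠ 0`, is `-(λ^i + λ^-i)`.
-/

set_option autoImplicit false
set_option linter.unusedSectionVars false

namespace CfsgLib.DegPSubTwo

open Cfsg CfsgLib CfsgLib.Chars CfsgLib.Blocks.OrderP
open scoped ComplexConjugate Classical

universe u

variable {G : Type u} [Group G] [Fintype G] {p : ℕ} [hpr : Fact p.Prime]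

/-- `λ^a + λ^-a` for a primitive `p`-th root of unity `λ`. -/
noncomputable def vv (p : ℕ) [Fact p.Prime] (a : ZMod p) : ℂ := ech p a + ech p (-a)

theorem vv_neg (a : ZMod p) : vv p (-a) = vv p a := by
  rw [vv, vv, neg_neg, add_comm]

theorem ech_eq_one_iff {a : ZMod p} : ech p a = 1 ↔ a = 0 := by
  refine ⟨fun h => ?_, fun h => by rw [h, AddChar.map_zero_eq_one]⟩
  by_contra ha
  have h1 : ∀ x : ZMod p, ech p (x * a) = 1 := fun x => by
    rw [show x * a = x.val • a by rw [nsmul_eq_mul, ZMod.natCast_zmod_val],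
      AddChar.map_nsmul_eq_pow, h, one_pow]
  have h2 := sum_ech (p := p) a
  rw [if_neg ha, Finset.sum_congr rfl fun x _ => h1 x, Finset.sum_const, Finset.card_univ, ZMod.card,
    nsmul_one] at h2
  exact Nat.cast_ne_zero.2 hpr.out.ne_zero h2

theorem vv_eq_iff {a b : ZMod p} : vv p a = vv p b ↔ a = b ∨ a = -b := by
  refine ⟨fun h => ?_, fun h => by rcases h with rfl | rfl <;> simp [vv_neg]⟩
  have h0 : ech p (a + -a) = 1 := by rw [add_neg_cancel, AddChar.map_zero_eq_one]
  have h1 : ech p (b + -b) = 1 := by rw [add_neg_cancel, AddChar.map_zero_eq_one]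
  rw [AddChar.map_add_eq_mul] at h0 h1
  simp only [vv] at h
  have hb : ech p b ≠ 0 := fun e => by rw [e, zero_mul] at h1; exact zero_ne_one h1
  have hab : (ech p a * ech p (-b) - 1) * (ech p a * ech p b - 1) = 0 := by
    linear_combination (ech p a) * h - h0 + (ech p a ^ 2) * h1
  rcases mul_eq_zero.1 hab with e | e <;>
    rw [sub_eq_zero, ← AddChar.map_add_eq_mul, ech_eq_one_iff] at e
  · exact Or.inl (add_neg_eq_zero.1 e)
  · exact Or.inr (eq_neg_of_add_eq_zero_left e)

theorem sum_vv_mul (a b : ZMod p) :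
    ∑ k : ZMod p, vv p (k * a) * vv p (k * b) =
      (if a + b = 0 then 2 * (p : ℂ) else 0) + if a = b then 2 * (p : ℂ) else 0 := by
  have e : ∀ k : ZMod p, vv p (k * a) * vv p (k * b) =
      ech p (k * (a + b)) + ech p (k * (a - b)) + (ech p (k * (b - a)) + ech p (k * (-(a + b)))) := by
    intro k
    simp only [vv, add_mul, mul_add, ← AddChar.map_add_eq_mul]
    ring_nf
  simp only [e, Finset.sum_add_distrib, sum_ech, sub_eq_zero, neg_eq_zero, eq_comm (a := b)]
  split_ifs <;> ring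

variable {u : G} {ζ : IrrCharacter G}

namespace Base

variable (B : Base p u ζ)
include B

/-- Every generator will do. -/
theorem of_upow {c : ZMod p} (hc : c ≠ 0) : Base p (upow u c) ζ := by
  have hz := zpowers_upow B.hu hc
  refine ⟨B.five_lt, orderOf_upow B.hu hc, by rw [hz]; exact B.hidx, B.faith, B.deg, fun g hg => ?_,
    ?_, fun g hg => ?_⟩
  · rw [hz]; exact B.cent g ((B.upow_comm_iff hc g).1 hg)
  · obtain ⟨t, ht, htt⟩ := B.inv
    exact ⟨t, by rw [upow, ← conj_pow, ht, inv_pow], htt⟩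
  · rw [hz] at hg
    have hgi : g * upow u c * g⁻¹ = (g * u * g⁻¹) ^ c.val := by rw [conj_pow]; rfl
    obtain ⟨k, hk⟩ := Subgroup.mem_zpowers_iff.1
      (show u ∈ Subgroup.zpowers (upow u c) by rw [hz]; exact Subgroup.mem_zpowers u)
    have hgu : g * u * g⁻¹ ∈ Subgroup.zpowers u := by
      have h1 : (g * upow u c * g⁻¹) ^ k ∈ Subgroup.zpowers u := zpow_mem hg k
      rwa [conj_zpow, hk] at h1
    rcases B.fusion g hgu with e | e
    · left; rw [hgi, e]; rfl
    · right; rw [hgi, e, inv_pow]; rfl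

theorem upow_upow {c : ZMod p} (i : ZMod p) : upow (upow u c) i = upow u (c * i) := by
  show (upow u c) ^ i.val = _
  rw [upow_pow B.hu, ZMod.natCast_zmod_val]

/-- Two characters with equal values on the regular elements and on the `u^i z` are equal. -/
theorem eq_of_eq_on {χ ψ : IrrCharacter G} (hr : ∀ g, ¬ p ∣ orderOf g → (χ : G → ℂ) g = (ψ : G → ℂ) g)
    (hs : ∀ i : ZMod p, i ≠ 0 → (χ : G → ℂ) (upow u i) = (ψ : G → ℂ) (upow u i)) : χ = ψ := by
  refine Subtype.ext (funext fun g => ?_)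
  by_cases hg : p ∣ orderOf g
  · obtain ⟨x, i, hi, z, rfl⟩ := B.exists_conj_of_dvd hg
    rw [isClassFunction_coe χ, isClassFunction_coe ψ, Subgroup.mem_center_iff.1 z.2 (upow u i),
      apply_center_mul χ z.2, apply_center_mul ψ z.2, hs i hi]
    have hz : ¬ p ∣ orderOf (z : G) := by
      rw [Subgroup.orderOf_coe]
      exact fun h => B.not_dvd_card_center (h.trans (orderOf_dvd_natCard z))
    rw [cval, cval, hr _ hz, hr 1 (by rw [orderOf_one]; exact hpr.out.not_dvd_one)]
  · exact hr g hg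

/-- The Galois conjugates that fix the `p`-regular values. -/
theorem exists_gal {k : ZMod p} (hk : k ≠ 0) : ∃ χ : IrrCharacter G,
    (∀ g, ¬ p ∣ orderOf g → (χ : G → ℂ) g = (ζ : G → ℂ) g) ∧
    ∀ i : ZMod p, (χ : G → ℂ) (upow u i) = (ζ : G → ℂ) (upow u (k * i)) := by
  have hpG : p ∣ Nat.card G := B.hu ▸ orderOf_dvd_natCard u
  obtain ⟨m', hm'⟩ := hpG
  have hcop : p.Coprime m' := (Nat.Prime.coprime_iff_not_dvd hpr.out).2 fun h => B.hidx (by
    have h1 := (Subgroup.zpowers u).card_mul_index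
    rw [Nat.card_zpowers, B.hu, hm'] at h1
    exact Nat.eq_of_mul_eq_mul_left hpr.out.pos h1 ▸ h)
  obtain ⟨k', hk1, hk2⟩ := Nat.chineseRemainder hcop k.val 1
  have hk'm : k'.Coprime (Nat.card G) := by
    rw [hm']
    refine Nat.Coprime.mul_right ?_ ?_
    · refine ((Nat.Prime.coprime_iff_not_dvd hpr.out).2 fun h => hk ?_).symm
      rw [← ZMod.natCast_eq_zero_iff, (ZMod.natCast_eq_natCast_iff _ _ p).2 hk1,
        ZMod.natCast_zmod_val] at h
      exact h
    · exact Nat.Coprime.symm (by rw [Nat.coprime_iff_gcd_eq_one, Nat.gcd_comm, hk2.gcd_eq, Nat.gcd_one_left])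
  obtain ⟨σ, hσ⟩ := GaloisHom.exists_ringHom_char (Nat.card_pos (α := G)) hk'm
  have hval : ∀ g, σ ((ζ : G → ℂ) g) = (ζ : G → ℂ) (g ^ k') :=
    fun g => hσ (isCharacter_coe ζ) g (orderOf_dvd_natCard g)
  refine ⟨⟨_, isIrrCharacter_ringHom ζ.2 σ⟩, fun g hg => ?_, fun i => ?_⟩
  · show σ ((ζ : G → ℂ) g) = _
    rw [hval]
    refine congrArg (ζ : G → ℂ) ?_
    conv_rhs => rw [← pow_one g]
    rw [pow_eq_pow_iff_modEq]
    refine hk2.of_dvd ?_
    have h1 : orderOf g ∣ p * m' := hm' ▸ orderOf_dvd_natCard g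
    exact ((Nat.Prime.coprime_iff_not_dvd hpr.out).2 hg).symm.dvd_of_dvd_mul_left h1
  · show σ ((ζ : G → ℂ) (upow u i)) = _
    rw [hval, upow_pow B.hu, (ZMod.natCast_eq_natCast_iff _ _ p).2 hk1, ZMod.natCast_zmod_val,
      mul_comm]

/-- The Galois conjugate attached to `k`. -/
noncomputable def gal (k : (ZMod p)ˣ) : IrrCharacter G := (B.exists_gal k.ne_zero).choose

theorem gal_regular (k : (ZMod p)ˣ) {g : G} (hg : ¬ p ∣ orderOf g) :
    (B.gal k : G → ℂ) g = (ζ : G → ℂ) g := (B.exists_gal k.ne_zero).choose_spec.1 g hg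

theorem gal_upow (k : (ZMod p)ˣ) (i : ZMod p) :
    (B.gal k : G → ℂ) (upow u i) = (ζ : G → ℂ) (upow u ((k : ZMod p) * i)) :=
  (B.exists_gal k.ne_zero).choose_spec.2 i

theorem gal_mem_overSet (k : (ZMod p)ˣ) : B.gal k ∈ overSet ζ := by
  refine mem_overSet.2 fun z hz => ?_
  have hz' : ¬ p ∣ orderOf z := fun h => B.not_dvd_card_center (h.trans
    (Subgroup.orderOf_dvd_natCard _ hz))
  rw [cval, cval, B.gal_regular k hz', B.gal_regular k (by rw [orderOf_one]; exact hpr.out.not_dvd_one)]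

theorem gal_eq_iff (k l : (ZMod p)ˣ) :
    B.gal k = B.gal l ↔ ∀ i : ZMod p, i ≠ 0 →
      (ζ : G → ℂ) (upow u (((k⁻¹ * l : (ZMod p)ˣ) : ZMod p) * i)) = (ζ : G → ℂ) (upow u i) := by
  constructor
  · intro h i hi
    have h1 := congrFun (congrArg Subtype.val h) (upow u (((k⁻¹ : (ZMod p)ˣ) : ZMod p) * i))
    rw [B.gal_upow, B.gal_upow, ← mul_assoc, ← mul_assoc, ← Units.val_mul, mul_inv_cancel,
      Units.val_one, one_mul, ← Units.val_mul, mul_comm l] at h1
    exact h1.symm
  · intro h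
    refine B.eq_of_eq_on (fun g hg => by rw [B.gal_regular k hg, B.gal_regular l hg]) fun i hi => ?_
    have h1 := h ((k : ZMod p) * i) (mul_ne_zero k.ne_zero hi)
    rw [← mul_assoc, ← Units.val_mul, mul_comm k⁻¹ l, inv_mul_cancel_right] at h1
    rw [B.gal_upow, B.gal_upow, h1]

/-- **A generator at which the values are `-(λ^i + λ^-i)`.** -/
theorem exists_values : ∃ u' : G, Subgroup.zpowers u' = Subgroup.zpowers u ∧ Base p u' ζ ∧
    ∀ i : ZMod p, i ≠ 0 → (ζ : G → ℂ) (upow u' i) = -vv p i := by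
  have hp5 := B.five_lt
  obtain ⟨t, ht1, ht2⟩ := exists_exponents B.hu (isCharacter_coe ζ)
  set n : ZMod p → ℕ := fun j => t.count j with hn
  have hval : ∀ i, (ζ : G → ℂ) (upow u i) = ∑ j, (n j : ℂ) * ech p (i * j) := by
    intro i
    rw [ht2, Finset.sum_multiset_map_count]
    rw [Finset.sum_subset (Finset.subset_univ t.toFinset) fun x _ hx => by
      rw [Multiset.count_eq_zero.mpr (by simpa using hx), zero_smul]]
    exact Finset.sum_congr rfl fun x _ => nsmul_eq_mul _ _
  have hinvert : ∀ j, (p : ℂ) * n j = ∑ i, (ζ : G → ℂ) (upow u i) * ech p (i * -j) := by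
    intro j
    simp only [hval, Finset.sum_mul, mul_assoc, ← AddChar.map_add_eq_mul, ← mul_add]
    rw [Finset.sum_comm]
    simp only [← Finset.mul_sum, sum_ech, mul_ite, mul_zero, add_neg_eq_zero]
    rw [Finset.sum_ite_eq' Finset.univ j, if_pos (Finset.mem_univ _), mul_comm]
  have hf : (∑ j, n j) = p - 2 := by
    apply Nat.cast_injective (R := ℂ)
    rw [← B.deg, coe_charDegree, ← show upow u (0 : ZMod p) = 1 from upow_zero B.hu, hval]
    simp
  -- the stabiliser
  let H : Subgroup (ZMod p)ˣ :=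
    { carrier := {k | ∀ i : ZMod p, i ≠ 0 →
        (ζ : G → ℂ) (upow u ((k : ZMod p) * i)) = (ζ : G → ℂ) (upow u i)}
      one_mem' := fun i _ => by rw [Units.val_one, one_mul]
      mul_mem' := fun {a b} ha hb i hi => by
        rw [Units.val_mul, mul_assoc, ha _ (mul_ne_zero b.ne_zero hi), hb i hi]
      inv_mem' := fun {a} ha i hi => by
        rw [← ha _ (mul_ne_zero a⁻¹.ne_zero hi), Units.mul_inv_cancel_left] }
  have hH : ∀ k : (ZMod p)ˣ, k ∈ H → ∀ j, n ((k : ZMod p) * j) = n j := by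
    intro k hk j
    apply Nat.cast_injective (R := ℂ)
    refine mul_left_cancel₀ (Nat.cast_ne_zero.2 hpr.out.ne_zero : (p : ℂ) ≠ 0) ?_
    rw [hinvert, hinvert]
    refine Fintype.sum_equiv (Units.mulLeft k) _ _ fun i => ?_
    rw [Units.mulLeft_apply]
    congr 1
    · rcases eq_or_ne i 0 with rfl | hi
      · simp
      · exact (hk i hi).symm
    · congr 1; ring
  have hneg : (-1 : (ZMod p)ˣ) ∈ H := fun i _ => by
    rw [Units.val_neg, Units.val_one, neg_one_mul]
    exact (eq_of_isConj (isClassFunction_coe ζ) (B.isConj_upow_neg i)).symm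
  set h := Nat.card H with hh
  have hh2 : 2 ∣ h := by
    have : orderOf (⟨-1, hneg⟩ : H) = 2 := by
      refine orderOf_eq_prime ?_ fun e => ?_
      · exact Subtype.ext (by simp)
      · have h1 : ((-1 : (ZMod p)ˣ) : ZMod p) = 1 := by
          rw [show (-1 : (ZMod p)ˣ) = 1 from congrArg Subtype.val e]; rfl
        rw [Units.val_neg, Units.val_one, neg_eq_iff_add_eq_zero, one_add_one_eq_two,
          ← Nat.cast_two, ZMod.natCast_eq_zero_iff] at h1
        have := Nat.le_of_dvd two_pos h1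
        omega
    exact this ▸ orderOf_dvd_natCard _
  have hhp : h ∣ p - 1 := by
    have := Subgroup.card_subgroup_dvd_card H
    rwa [Nat.card_eq_fintype_card (α := (ZMod p)ˣ), ZMod.card_units] at this
  -- sums over the units
  have hunits : ∀ (F : ZMod p → ℂ), ∑ k : (ZMod p)ˣ, F k = ∑ j, F j - F 0 := by
    intro F
    rw [← Finset.sum_erase_eq_sub (Finset.mem_univ (0 : ZMod p))]
    refine Finset.sum_bij' (fun k _ => (k : ZMod p))
      (fun j hj => Units.mk0 j (Finset.ne_of_mem_erase hj)) (fun k _ => ?_) (fun j _ => Finset.mem_univ _)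
      (fun k _ => Units.ext rfl) (fun j _ => rfl) (fun k _ => rfl)
    exact Finset.mem_erase.2 ⟨k.ne_zero, Finset.mem_univ _⟩
  obtain ⟨T, hT⟩ : ∃ T, ∑ k : (ZMod p)ˣ, n k = h * T := by
    refine ⟨∑ q : (ZMod p)ˣ ⧸ H, n (q.out : ZMod p), ?_⟩
    rw [← Finset.sum_fiberwise Finset.univ (fun k : (ZMod p)ˣ => (k : (ZMod p)ˣ ⧸ H)),
      Finset.mul_sum]
    refine Finset.sum_congr rfl fun q _ => ?_
    have hmem : ∀ k ∈ (Finset.univ : Finset (ZMod p)ˣ).filter fun k : (ZMod p)ˣ => (k : (ZMod p)ˣ ⧸ H) = q,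
        n k = n (q.out : ZMod p) := by
      intro k hk
      have hq : q.out⁻¹ * k ∈ H :=
        QuotientGroup.eq.1 ((Quotient.out_eq q).trans (Finset.mem_filter.1 hk).2.symm)
      conv_lhs => rw [← mul_inv_cancel_left q.out k, Units.val_mul, mul_comm, hH _ hq]
    rw [Finset.sum_congr rfl hmem, Finset.sum_const, smul_eq_mul, hh,
      Nat.card_eq_fintype_card, ← Fintype.card_subtype]
    congr 1
    refine Fintype.card_congr ((Equiv.mulLeft q.out⁻¹).subtypeEquiv fun k => ?_)
    rw [Equiv.coe_mulLeft, ← QuotientGroup.eq]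
    exact ⟨fun e => (Quotient.out_eq q).trans e.symm, fun e => e.symm.trans (Quotient.out_eq q)⟩
  have hn0 : n 0 + ∑ k : (ZMod p)ˣ, n k = p - 2 := by
    rw [← hf]
    apply Nat.cast_injective (R := ℂ)
    push_cast
    rw [hunits fun j => (n j : ℂ)]
    ring
  -- the inequality
  have hdeg : (ζ : G → ℂ) (upow u (0 : ZMod p)) = ((p - 2 : ℕ) : ℂ) := by
    rw [upow_zero B.hu, ← coe_charDegree, B.deg]
  have hsq : ∑ k : (ZMod p)ˣ, (ζ : G → ℂ) (upow u (k : ZMod p)) ^ 2 =
      (p : ℂ) * ∑ j, (n j : ℂ) ^ 2 - ((p - 2 : ℕ) : ℂ) ^ 2 := by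
    rw [hunits fun j => (ζ : G → ℂ) (upow u j) ^ 2, hdeg]
    congr 1
    have hneg' : ∀ j, n (-j) = n j := fun j => by
      have := hH _ hneg j
      rwa [Units.val_neg, Units.val_one, neg_one_mul] at this
    simp only [hval, pow_two, Finset.sum_mul_sum]
    rw [Finset.sum_comm, Finset.mul_sum]
    refine Finset.sum_congr rfl fun j _ => ?_
    rw [Finset.sum_comm]
    simp only [mul_mul_mul_comm (_ : ℂ) (ech p _), ← AddChar.map_add_eq_mul, ← mul_add,
      ← Finset.mul_sum, sum_ech, mul_ite, mul_zero, add_eq_zero_iff_eq_neg', Finset.sum_ite_eq',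
      Finset.mem_univ, if_true, hneg']
    ring
  have hfib : ∀ l, ((Finset.univ : Finset (ZMod p)ˣ).filter fun k => B.gal k = B.gal l).card = h := by
    intro l
    rw [hh, ← Fintype.card_subtype, ← Nat.card_eq_fintype_card]
    refine Nat.card_congr ((Equiv.mulLeft l⁻¹).subtypeEquiv fun k => ?_)
    rw [Equiv.coe_mulLeft, eq_comm, B.gal_eq_iff]
    rfl
  have hineq : (p : ℝ) * ∑ j, (n j : ℝ) ^ 2 - ((p - 2 : ℕ) : ℝ) ^ 2 ≤ h * p := by
    set W := (Finset.univ : Finset (ZMod p)ˣ).image B.gal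
    set r : IrrCharacter G → ℝ := fun χ => ((χ : G → ℂ) (upow u (1 : ZMod p))).re ^ 2 with hr
    have hre : ∀ χ : IrrCharacter G, (χ : G → ℂ) (upow u (1 : ZMod p)) ^ 2 = (r χ : ℂ) := fun χ => by
      rw [hr, Complex.ofReal_pow, Complex.conj_eq_iff_re.1 (B.conj_apply_upow_self χ (1 : ZMod p))]
    have e1 : ((p : ℝ) * ∑ j, (n j : ℝ) ^ 2 - ((p - 2 : ℕ) : ℝ) ^ 2) = h * ∑ χ ∈ W, r χ := by
      apply Complex.ofReal_injective
      push_cast
      rw [← hsq, Finset.mul_sum, ← Finset.sum_fiberwise_of_maps_to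
        (t := W) (g := B.gal) (fun k _ => Finset.mem_image_of_mem _ (Finset.mem_univ k))]
      refine Finset.sum_congr rfl fun χ hχ => ?_
      obtain ⟨l, -, rfl⟩ := Finset.mem_image.1 hχ
      rw [Finset.sum_congr rfl (g := fun _ => (B.gal l : G → ℂ) (upow u (1 : ZMod p)) ^ 2) fun k hk => by
        rw [← (Finset.mem_filter.1 hk).2, B.gal_upow, mul_one], Finset.sum_const, hfib, nsmul_eq_mul,
        hre]
    have e2 : ∑ χ ∈ overSet ζ, r χ = p := by
      apply Complex.ofReal_injective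
      have := B.sum_over_upow ζ (i := 1) (j := 1) one_ne_zero
      rw [if_pos (Or.inl rfl)] at this
      push_cast
      rw [← this]
      refine Finset.sum_congr rfl fun χ _ => ?_
      rw [← hre, pow_two]
    rw [e1]
    refine mul_le_mul_of_nonneg_left ?_ (Nat.cast_nonneg _)
    rw [← e2]
    exact Finset.sum_le_sum_of_subset_of_nonneg (fun χ hχ => by
      obtain ⟨l, -, rfl⟩ := Finset.mem_image.1 hχ
      exact B.gal_mem_overSet l) fun χ _ _ => sq_nonneg _
  have hineqN : p * (∑ j, n j ^ 2) ≤ h * p + (p - 2) * (p - 2) := by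
    have : ((p * (∑ j, n j ^ 2) : ℕ) : ℝ) ≤ ((h * p + (p - 2) * (p - 2) : ℕ) : ℝ) := by
      push_cast
      linarith
    exact_mod_cast this
  -- `n 0 = 1`
  have hsplit : ∀ F : ZMod p → ℕ, ∑ j, F j = F 0 + ∑ k : (ZMod p)ˣ, F k := by
    intro F
    apply Nat.cast_injective (R := ℂ)
    push_cast
    rw [hunits fun j => (F j : ℂ)]
    ring
  have hge : ∀ k : (ZMod p)ˣ, n k ≤ n k ^ 2 := fun k => Nat.le_self_pow two_ne_zero _
  have hS := Finset.sum_le_sum (s := (Finset.univ : Finset (ZMod p)ˣ)) fun k _ => hge k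
  rw [hsplit] at hineqN
  have hh0 : 0 < h := Nat.card_pos
  have hn1 : n 0 = 1 ∧ h = 2 := by
    obtain ⟨q, hq⟩ : h ∣ n 0 + 1 := by
      have h1 : h ∣ ∑ k : (ZMod p)ˣ, n k := ⟨T, hT⟩
      have h2 : h ∣ (n 0 + 1) + ∑ k : (ZMod p)ˣ, n k := by
        rw [add_right_comm, hn0, show p - 2 + 1 = p - 1 by omega]; exact hhp
      exact (Nat.dvd_add_left h1).1 h2
    have hq1 : 1 ≤ q := Nat.pos_of_ne_zero fun e => by rw [e, mul_zero] at hq; omega
    have hle : h ≤ n 0 + 1 := hq ▸ Nat.le_mul_of_pos_right h hq1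
    have hsmall : n 0 ≤ 2 := by
      by_contra hc
      push Not at hc
      have h3 : n 0 + 2 * n 0 ≤ n 0 ^ 2 := by nlinarith
      have h4 : p * (n 0 + 2 * n 0 + ∑ k : (ZMod p)ˣ, n k) ≤ h * p + (p - 2) * (p - 2) :=
        le_trans (Nat.mul_le_mul_left p (by omega)) hineqN
      rw [show n 0 + 2 * n 0 + ∑ k : (ZMod p)ˣ, n k = 2 * n 0 + (p - 2) by omega] at h4
      have h5 : (p - 2) * (p - 2) < p * (p - 2) := (Nat.mul_lt_mul_right (by omega)).2 (by omega)
      nlinarith [Nat.mul_le_mul_right p hle]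
    obtain ⟨w, hw⟩ := hh2
    interval_cases hv : n 0
    · omega
    · exact ⟨rfl, by omega⟩
    · exfalso
      have : h ≤ 3 := hle
      have h6 : h = 2 := by omega
      rw [h6] at hq
      omega
  -- all multiplicities are at most one
  have hle1 : ∀ k : (ZMod p)ˣ, n k ≤ 1 := by
    intro k
    by_contra hk
    push Not at hk
    have h1 : (∑ k : (ZMod p)ˣ, n k) + 2 ≤ ∑ k : (ZMod p)ˣ, n k ^ 2 := by
      rw [← Finset.add_sum_erase _ _ (Finset.mem_univ k),
        ← Finset.add_sum_erase _ (fun k : (ZMod p)ˣ => n k ^ 2) (Finset.mem_univ k)]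
      have := Finset.sum_le_sum (s := (Finset.univ : Finset (ZMod p)ˣ).erase k) fun k _ => hge k
      have : n k + 2 ≤ n k ^ 2 := by nlinarith
      omega
    obtain ⟨h10, h2⟩ := hn1
    rw [h10, h2] at hineqN
    rw [h10] at hn0
    have h4 : p * p ≤ 2 * p + (p - 2) * (p - 2) := by
      refine le_trans (Nat.mul_le_mul_left p ?_) hineqN
      simp only [one_pow]
      omega
    obtain ⟨r, rfl⟩ : ∃ r, p = r + 2 := ⟨p - 2, by omega⟩
    rw [Nat.add_sub_cancel] at h4
    nlinarith
  -- exactly one pair is missing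
  set Z0 := (Finset.univ : Finset (ZMod p)ˣ).filter fun k : (ZMod p)ˣ => n (k : ZMod p) = 0 with hZ0
  have hcard : Z0.card = 2 := by
    have h1 : ∑ k : (ZMod p)ˣ, n k + Z0.card = p - 1 := by
      rw [hZ0, Finset.card_filter, ← Finset.sum_add_distrib,
        Finset.sum_congr rfl (g := fun _ => 1) fun k _ => by
          have := hle1 k; split_ifs <;> omega, ← Finset.card_eq_sum_ones, Finset.card_univ,
        ZMod.card_units]
    have := hn0
    rw [hn1.1] at this
    omega
  obtain ⟨c, hc⟩ : Z0.Nonempty := Finset.card_pos.1 (by omega)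
  have hc0 : n c = 0 := (Finset.mem_filter.1 hc).2
  have hneg' : ∀ j, n (-j) = n j := fun j => by
    have := hH _ hneg j
    rwa [Units.val_neg, Units.val_one, neg_one_mul] at this
  have hcne : -c ≠ c := fun e => by
    have e' : -(c : ZMod p) = c := by rw [← Units.val_neg, e]
    have h1 : ((2 : ℕ) : ZMod p) * c = 0 := by push_cast; linear_combination -e'
    rcases mul_eq_zero.1 h1 with h2 | h2
    · rw [ZMod.natCast_eq_zero_iff] at h2
      have := Nat.le_of_dvd two_pos h2
      omega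
    · exact c.ne_zero h2
  have hZpair : Z0 = {c, -c} := by
    refine (Finset.eq_of_subset_of_card_le ?_ ?_).symm
    · intro x hx
      rcases Finset.mem_insert.1 hx with rfl | hx
      · exact hc
      · rw [Finset.mem_singleton] at hx
        subst hx
        simp [hZ0, hneg', hc0]
    · rw [hcard, Finset.card_pair hcne.symm]
  have hv : ∀ i : ZMod p, i ≠ 0 → (ζ : G → ℂ) (upow u i) = -vv p (i * c) := by
    intro i hi
    have h1 : ∀ k : (ZMod p)ˣ, (n k : ℂ) = 1 - if k ∈ Z0 then 1 else 0 := by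
      intro k
      by_cases hk : n k = 0
      · simp [hZ0, hk]
      · have : n k = 1 := by have := hle1 k; omega
        simp [hZ0, this]
    have h2 := hunits fun j => ech p (i * j)
    rw [sum_ech_left, if_neg hi, mul_zero, AddChar.map_zero_eq_one] at h2
    have h3 := hunits fun j => (n j : ℂ) * ech p (i * j)
    rw [← hval, hn1.1, Nat.cast_one, one_mul, mul_zero, AddChar.map_zero_eq_one] at h3
    simp only [h1, sub_mul, one_mul, ite_mul, zero_mul, Finset.sum_sub_distrib, h2,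
      Finset.sum_ite_mem, Finset.univ_inter, hZpair, Finset.sum_pair hcne.symm, Units.val_neg,
      mul_neg] at h3
    simp only [vv]
    linear_combination -h3
  refine ⟨upow u (c⁻¹ : (ZMod p)ˣ), zpowers_upow B.hu (Units.ne_zero _), B.of_upow (Units.ne_zero _),
    fun i hi => ?_⟩
  rw [B.upow_upow, hv _ (mul_ne_zero (Units.ne_zero _) hi), mul_right_comm, ← Units.val_mul,
    inv_mul_cancel, Units.val_one, one_mul]

end Base

end CfsgLib.DegPSubTwo
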