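import Cfsg.Agent.Chars.DegreeLtPrime.Setting
import Cfsg.Agent.Blocks.HeightZero.RegularPair
import Cfsg.Agent.Blocks.Covering.Basic
import Cfsg.Agent.Blocks.Cyclic.PrimeCount
import Cfsg.Agent.Blocks.Cyclic.Main

/-!
# Restriction to the centraliser of a Sylow subgroup of order `p`

For an irreducible character of degree less than `p` the constituents of the restriction to
`C(P) / P` form one orbit of `N(P)`, with constant multiplicity.
-/

set_option autoImplicit false
set_option linter.unusedSectionVars false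

namespace CfsgLib.DegPSubTwo

open Cfsg CfsgLib CfsgLib.Chars CfsgLib.Blocks
open scoped ComplexConjugate Classical

universe u

variable {G : Type u} [Group G] [Fintype G] {p : ℕ} [hpr : Fact p.Prime]

/-- Conjugation by an element of the normalizer, on the centralizer. -/
def conjC (P : Subgroup G) (n : Subgroup.normalizer (P : Set G)) :
    Subgroup.centralizer (P : Set G) →* Subgroup.centralizer (P : Set G) where
  toFun c := ⟨n * c * (n : G)⁻¹, DegreeLtPrime.normalizer_conj_centralizer n.2 c.2⟩
  map_one' := Subtype.ext (by simp)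
  map_mul' a b := Subtype.ext (by simp [mul_assoc])

theorem coe_conjC (P : Subgroup G) (n : Subgroup.normalizer (P : Set G))
    (c : Subgroup.centralizer (P : Set G)) :
    ((conjC P n c : Subgroup.centralizer (P : Set G)) : G) = n * c * (n : G)⁻¹ := rfl

theorem conjC_surjective (P : Subgroup G) (n : Subgroup.normalizer (P : Set G)) :
    Function.Surjective (conjC P n) := fun c =>
  ⟨conjC P n⁻¹ c, Subtype.ext (by simp [coe_conjC, mul_assoc])⟩

theorem conjC_mul (P : Subgroup G) (a b : Subgroup.normalizer (P : Set G))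
    (c : Subgroup.centralizer (P : Set G)) : conjC P (a * b) c = conjC P a (conjC P b c) :=
  Subtype.ext (by simp [coe_conjC, mul_assoc])

theorem conjC_one (P : Subgroup G) (c : Subgroup.centralizer (P : Set G)) :
    conjC P (1 : Subgroup.normalizer (P : Set G)) c = c :=
  Subtype.ext (by simp [coe_conjC])

/-- The conjugate of a character of the centralizer. -/
def conjChr {P : Subgroup G} (n : Subgroup.normalizer (P : Set G))
    (η : IrrCharacter (Subgroup.centralizer (P : Set G))) :
    IrrCharacter (Subgroup.centralizer (P : Set G)) :=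
  ⟨fun c => η.1 (conjC P n c), isIrrCharacter_comp η.2 (conjC P n) (conjC_surjective P n)⟩

theorem conjChr_apply {P : Subgroup G} (n : Subgroup.normalizer (P : Set G))
    (η : IrrCharacter (Subgroup.centralizer (P : Set G))) (c : Subgroup.centralizer (P : Set G)) :
    (conjChr n η).1 c = η.1 (conjC P n c) := rfl

theorem conjChr_mul {P : Subgroup G} (a b : Subgroup.normalizer (P : Set G))
    (η : IrrCharacter (Subgroup.centralizer (P : Set G))) :
    conjChr (a * b) η = conjChr b (conjChr a η) :=
  Subtype.ext (funext fun c => by simp [conjChr_apply, conjC_mul])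

theorem conjChr_one_eq {P : Subgroup G} (η : IrrCharacter (Subgroup.centralizer (P : Set G))) :
    conjChr (1 : Subgroup.normalizer (P : Set G)) η = η :=
  Subtype.ext (funext fun c => by simp [conjChr_apply, conjC_one])

/-- The retraction `c ↦ (π c)⁻¹ c` of `C(P)` onto its normal `p`-complement. -/
structure Retr (P : Subgroup G) where
  σ : Subgroup.centralizer (P : Set G) →* Subgroup.centralizer (P : Set G)
  mem : ∀ c : Subgroup.centralizer (P : Set G),
    (c : G) * ((σ c : Subgroup.centralizer (P : Set G)) : G)⁻¹ ∈ P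
  one_of_mem : ∀ c : Subgroup.centralizer (P : Set G), (c : G) ∈ P → σ c = 1
  idem : ∀ c, σ (σ c) = σ c
  regular : ∀ c, ¬ p ∣ orderOf (σ c)
  map_conjC : ∀ n c, σ (conjC P n c) = conjC P n (σ c)

theorem exists_retr {P : Subgroup G} (S : DegreeLtPrime.OrderP P p) :
    Nonempty (Retr (p := p) P) := by
  obtain ⟨π, N, hπ, hfix⟩ := S.exists_proj
  let ι : P → Subgroup.centralizer (P : Set G) := fun x => ⟨x, S.le_centralizer x.2⟩
  have hcom : ∀ (x : P) (c : Subgroup.centralizer (P : Set G)), (x : G) * c = c * x := fun x c =>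
    Subgroup.mem_centralizer_iff.1 c.2 _ x.2
  let σ : Subgroup.centralizer (P : Set G) →* Subgroup.centralizer (P : Set G) :=
    { toFun := fun c => (ι (π c))⁻¹ * c
      map_one' := Subtype.ext (by simp [ι])
      map_mul' := fun a b => Subtype.ext (by
        simp only [ι, map_mul, Subgroup.coe_mul, Subgroup.coe_inv, mul_inv_rev]
        have h := hcom (π a)⁻¹ b
        have h' := hcom (π b)⁻¹ a
        simp only [InvMemClass.coe_inv] at h h'
        calc ((π b : P) : G)⁻¹ * ((π a : P) : G)⁻¹ * ((a : G) * b)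
            = ((π b : P) : G)⁻¹ * (((π a : P) : G)⁻¹ * a) * b := by group
          _ = (((π a : P) : G)⁻¹ * a) * ((π b : P) : G)⁻¹ * b := by
              have h2 : ((π b : P) : G)⁻¹ * ((π a : P) : G)⁻¹ =
                  ((π a : P) : G)⁻¹ * ((π b : P) : G)⁻¹ :=
                S.comm _ (inv_mem (SetLike.coe_mem _)) _ (inv_mem (SetLike.coe_mem _))
              rw [← mul_assoc, h2, mul_assoc (((π a : P) : G)⁻¹) _ (a : G), h', ← mul_assoc]
          _ = _ := by group) }
  have hσ : ∀ c, σ c = (ι (π c))⁻¹ * c := fun c => rfl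
  have hker : ∀ c, π (σ c) = 1 := fun c => by
    rw [hσ, map_mul, map_inv, show π (ι (π c)) = π c from hfix _, inv_mul_cancel]
  refine ⟨⟨σ, fun c => ?_, fun c hc => ?_, fun c => ?_, fun c hd => ?_, fun n c => ?_⟩⟩
  · simp only [hσ, ι, Subgroup.coe_mul, Subgroup.coe_inv, mul_inv_rev, inv_inv]
    rw [← mul_assoc, mul_inv_cancel, one_mul]
    exact SetLike.coe_mem _
  · rw [hσ, inv_mul_eq_one]
    apply Subtype.ext
    show ((π c : P) : G) = c
    rw [show c = ι ⟨c, hc⟩ from rfl, show π (ι ⟨c, hc⟩) = ⟨c, hc⟩ from hfix _]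
  · rw [hσ (σ c), hker, show ι 1 = 1 from rfl, inv_one, one_mul]
  · obtain ⟨k, hk⟩ := hd
    set w := σ c ^ k
    have hw : orderOf w = p := by
      have hpos : k ≠ 0 := by
        rintro rfl
        exact (orderOf_pos (σ c)).ne' (hk.trans (mul_zero p))
      rw [orderOf_pow_of_dvd hpos (Dvd.intro_left p hk.symm), hk,
        Nat.mul_div_cancel _ (Nat.pos_of_ne_zero hpos)]
    -- `w` is an element of order `p` of `C(P)`, so it lies in `P`
    have hwP : (w : G) ∈ P := by
      have hPgrp : IsPGroup p P := IsPGroup.of_card (n := 1) (by rw [S.card_eq, pow_one])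
      have hzp : IsPGroup p (Subgroup.zpowers (w : G)) :=
        IsPGroup.of_card (n := 1) (by rw [Nat.card_zpowers, Subgroup.orderOf_coe, hw, pow_one])
      have hle : Subgroup.zpowers (w : G) ≤ Subgroup.normalizer (P : Set G) :=
        Subgroup.zpowers_le.2 (Subgroup.centralizer_le_normalizer _ w.2)
      have hsup := IsPGroup.to_sup_of_normal_right' hzp hPgrp hle
      have := (hPgrp.toSylow S.not_dvd).is_maximal' hsup le_sup_right
      exact this.le (Subgroup.mem_sup_left (Subgroup.mem_zpowers _))
    have h1 : π w = 1 := by rw [map_pow, hker, one_pow]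
    rw [show w = ι ⟨w, hwP⟩ from rfl, hfix] at h1
    have h2 : w = 1 := Subtype.ext (show (w : G) = 1 from congrArg Subtype.val h1)
    rw [h2, orderOf_one] at hw
    exact hpr.out.ne_one hw.symm
  · apply Subtype.ext
    rw [hσ, hσ]
    simp only [ι, Subgroup.coe_mul, Subgroup.coe_inv, coe_conjC]
    rw [hπ, hπ, coe_conjC, conj_pow]
    group

variable {P : Subgroup G} (R : Retr (p := p) P)

/-- The twist of an irreducible character of `C(P)` trivial on `P`. -/
theorem isIrr_comp_retr (S : DegreeLtPrime.OrderP P p)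
    (η : IrrCharacter (Subgroup.centralizer (P : Set G))) :
    IsIrrCharacter (Subgroup.centralizer (P : Set G)) (fun c => η.1 (R.σ c)) ∧
      ∀ c, ∃ w : ℂ, w ^ p = 1 ∧ η.1 c = w * η.1 (R.σ c) := by
  classical
  have hval : ∀ c, ∃ w : ℂ, w ^ p = 1 ∧ η.1 c = w * η.1 (R.σ c) := by
    intro c
    set x := c * (R.σ c)⁻¹ with hx
    have hxP : (x : G) ∈ P := R.mem c
    have hxZ : x ∈ Subgroup.center (Subgroup.centralizer (P : Set G)) := Subgroup.mem_center_iff.2 fun d => Subtype.ext
      (Subgroup.mem_centralizer_iff.1 d.2 _ hxP).symm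
    have hpow : x ^ p = 1 := by
      apply Subtype.ext
      have h := pow_card_eq_one' (x := (⟨x, hxP⟩ : P))
      rw [S.card_eq] at h
      simpa using congrArg Subtype.val h
    set w := η.1 x / η.1 1 with hw
    have hmul : ∀ d, η.1 (x * d) = w * η.1 d := fun d =>
      map_mul_of_mem_center η hxZ d
    refine ⟨w, ?_, ?_⟩
    · have : ∀ k : ℕ, η.1 (x ^ k) = w ^ k * η.1 1 := by
        intro k
        induction k with
        | zero => simp
        | succ k ih => rw [pow_succ', hmul, ih, pow_succ', mul_assoc]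
      have h1 := this p
      rw [hpow] at h1
      exact mul_right_cancel₀ (map_one_ne_zero η) (h1.symm.trans (one_mul _).symm)
    · rw [← hmul, hx, inv_mul_cancel_right]
  refine ⟨?_, hval⟩
  have := Fintype.ofFinite (Subgroup.centralizer (P : Set G))
  refine isIrrCharacter_of_classInner_self (isCharacter_comp (isCharacter_coe η) R.σ) ?_
  rw [← classInner_self η]
  unfold classInner
  congr 1
  refine Finset.sum_congr rfl fun c _ => ?_
  obtain ⟨w, hw, hwc⟩ := hval c
  have hn : w * conj w = 1 := by
    rw [Complex.mul_conj, Complex.normSq_eq_norm_sq,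
      Complex.norm_eq_one_of_pow_eq_one hw hpr.out.ne_zero]
    norm_num
  rw [hwc, map_mul]
  show _ = _
  linear_combination (-(η.1 (R.σ c) * conj (η.1 (R.σ c)))) * hn

/-- The component of an irreducible character of `C(P)` trivial on `P`. -/
noncomputable def flat (S : DegreeLtPrime.OrderP P p)
    (η : IrrCharacter (Subgroup.centralizer (P : Set G))) :
    IrrCharacter (Subgroup.centralizer (P : Set G)) :=
  ⟨_, (isIrr_comp_retr R S η).1⟩

theorem flat_apply (S : DegreeLtPrime.OrderP P p)
    (η : IrrCharacter (Subgroup.centralizer (P : Set G))) (c : Subgroup.centralizer (P : Set G)) :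
    (flat R S η).1 c = η.1 (R.σ c) := rfl

theorem flat_conjChr (S : DegreeLtPrime.OrderP P p) (n : Subgroup.normalizer (P : Set G))
    (η : IrrCharacter (Subgroup.centralizer (P : Set G))) :
    flat R S (conjChr n η) = conjChr n (flat R S η) :=
  Subtype.ext (funext fun c => by simp [flat_apply, conjChr_apply, R.map_conjC])

open scoped Classical in
/-- The orbit of a character of `C(P)` under the normalizer. -/
noncomputable def orb (θ : IrrCharacter (Subgroup.centralizer (P : Set G))) :
    Finset (IrrCharacter (Subgroup.centralizer (P : Set G))) :=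
  Finset.univ.image fun n : Subgroup.normalizer (P : Set G) => conjChr n θ

theorem mem_orb {θ η : IrrCharacter (Subgroup.centralizer (P : Set G))} :
    η ∈ orb θ ↔ ∃ n, conjChr n θ = η := by simp [orb]

/-- Orbit and stabiliser. -/
theorem card_fiber_mul_card_orb (θ : IrrCharacter (Subgroup.centralizer (P : Set G))) :
    (∀ η ∈ orb θ, Nat.card {n : Subgroup.normalizer (P : Set G) // conjChr n θ = η} =
      Nat.card {n : Subgroup.normalizer (P : Set G) // conjChr n θ = θ}) ∧
    (orb θ).card * Nat.card {n : Subgroup.normalizer (P : Set G) // conjChr n θ = θ} =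
      Nat.card (Subgroup.normalizer (P : Set G)) := by
  classical
  have hfib : ∀ η ∈ orb θ, Nat.card {n : Subgroup.normalizer (P : Set G) // conjChr n θ = η} =
      Nat.card {n : Subgroup.normalizer (P : Set G) // conjChr n θ = θ} := by
    intro η hη
    obtain ⟨m, rfl⟩ := mem_orb.1 hη
    refine Nat.card_congr ((Equiv.mulRight m⁻¹).subtypeEquiv fun n => ?_)
    simp only [Equiv.coe_mulRight, conjChr_mul]
    constructor
    · intro h
      rw [h, ← conjChr_mul, mul_inv_cancel, conjChr_one_eq]
    · intro h
      have := congrArg (conjChr m) h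
      rwa [← conjChr_mul, inv_mul_cancel, conjChr_one_eq] at this
  refine ⟨hfib, ?_⟩
  rw [Nat.card_eq_fintype_card (α := Subgroup.normalizer (P : Set G)), ← Finset.card_univ,
    Finset.card_eq_sum_card_fiberwise (t := orb θ) (f := fun n => conjChr n θ)
      fun n _ => mem_orb.2 ⟨n, rfl⟩,
    Finset.sum_congr rfl fun η hη => ?_, Finset.sum_const, smul_eq_mul]
  rw [← hfib η hη, Nat.card_eq_fintype_card, Fintype.card_subtype]

section Congr

variable {M : Ideal AlgInt} (Ps : Sylow p G) (R : Retr (p := p) (Ps : Subgroup G))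

/-- The average over the normalizer. -/
noncomputable def navg (θ : IrrCharacter (Subgroup.centralizer ((Ps : Subgroup G) : Set G)))
    (c : Subgroup.centralizer ((Ps : Subgroup G) : Set G)) : ℂ :=
  (Nat.card (Subgroup.normalizer ((Ps : Subgroup G) : Set G)) : ℂ)⁻¹ *
    ∑ n : Subgroup.normalizer ((Ps : Subgroup G) : Set G), θ.1 (conjC _ n c)

variable {Ps}

/-- The class sum of a regular element of `C(P)` under the Brauer map. -/
theorem congr_apply_avg (hM : IsPModular p M) (hP : Nat.card Ps = p)
    (hsq : ¬ p ^ 2 ∣ Nat.card G) {χ : IrrCharacter G} (hnd : ¬ p ∣ charDegree (χ : G → ℂ))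
    {b : Set (IrrCharacter (Subgroup.centralizer ((Ps : Subgroup G) : Set G)))}
    (hind : IsInducedBlock M (Subgroup.centralizer ((Ps : Subgroup G) : Set G)) b
      (blockOf M (χ : G → ℂ)))
    {θ : IrrCharacter (Subgroup.centralizer ((Ps : Subgroup G) : Set G))} (hθ : θ ∈ b)
    (s : Subgroup.centralizer ((Ps : Subgroup G) : Set G)) :
    MemLocalIdeal M ((χ : G → ℂ) s / (χ : G → ℂ) 1 - navg Ps θ s / θ.1 1) := by
  classical
  have := Blocks.isMaximal_of_isPModular hM
  have h := hind.2.2 θ hθ χ (Blocks.self_mem_blockOf χ) (s : G)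
  rw [BlocksCover.inducedCentralChar_eq_sum, centralChar, ← Finset.sum_filter] at h
  set A : Finset (Subgroup.centralizer ((Ps : Subgroup G) : Set G)) := Finset.univ.filter fun c : (Subgroup.centralizer ((Ps : Subgroup G) : Set G)) => IsConj (s : G) (c : G) with hA
  have horb : A = Finset.univ.image fun n : (Subgroup.normalizer ((Ps : Subgroup G) : Set G)) => conjC _ n s := by
    ext c
    simp only [hA, Finset.mem_filter, Finset.mem_univ, true_and, Finset.mem_image]
    constructor
    · intro hc
      obtain ⟨g, hg⟩ := isConj_iff.1 hc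
      obtain ⟨n, hn, he⟩ := Ps.conj_eq_normalizer_conj_of_mem_centralizer (s : G) g⁻¹ s.2 (by
        rw [inv_inv, hg]; exact c.2)
      rw [inv_inv, hg] at he
      refine ⟨⟨n⁻¹, inv_mem hn⟩, Subtype.ext ?_⟩
      rw [coe_conjC, he, inv_inv]
    · rintro ⟨n, rfl⟩
      exact isConj_iff.2 ⟨n, rfl⟩
  have hfib : ∀ c ∈ A, (Finset.univ.filter fun n : (Subgroup.normalizer ((Ps : Subgroup G) : Set G)) => conjC _ n s = c).card =
      (Finset.univ.filter fun n : (Subgroup.normalizer ((Ps : Subgroup G) : Set G)) => conjC _ n s = s).card := by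
    intro c hc
    rw [horb] at hc
    obtain ⟨m, -, rfl⟩ := Finset.mem_image.1 hc
    refine Finset.card_equiv (Equiv.mulLeft m⁻¹) fun n => ?_
    simp only [Finset.mem_filter, Finset.mem_univ, true_and, Equiv.coe_mulLeft]
    rw [conjC_mul]
    constructor
    · intro h; rw [h, ← conjC_mul, inv_mul_cancel, conjC_one]
    · intro h
      have := congrArg (conjC _ m) h
      rwa [← conjC_mul, mul_inv_cancel, conjC_one] at this
  set w := (Finset.univ.filter fun n : (Subgroup.normalizer ((Ps : Subgroup G) : Set G)) => conjC _ n s = s).card with hw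
  have hsum : ∑ n : (Subgroup.normalizer ((Ps : Subgroup G) : Set G)), θ.1 (conjC _ n s) = (w : ℂ) * ∑ c ∈ A, θ.1 c := by
    rw [← Finset.sum_fiberwise_of_maps_to (t := A) (g := fun n : (Subgroup.normalizer ((Ps : Subgroup G) : Set G)) => conjC _ n s)
      (fun n _ => by rw [horb]; exact Finset.mem_image_of_mem _ (Finset.mem_univ n)),
      Finset.mul_sum]
    refine Finset.sum_congr rfl fun c hc => ?_
    rw [Finset.sum_congr rfl (g := fun _ => θ.1 c) fun n hn => by
      rw [(Finset.mem_filter.1 hn).2], Finset.sum_const, nsmul_eq_mul, hfib c hc]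
  have hcardN : A.card * w = Nat.card (Subgroup.normalizer ((Ps : Subgroup G) : Set G)) := by
    rw [Nat.card_eq_fintype_card, ← Finset.card_univ,
      Finset.card_eq_sum_card_fiberwise (s := (Finset.univ : Finset (Subgroup.normalizer ((Ps : Subgroup G) : Set G)))) (t := A)
        (f := fun n => conjC _ n s) fun n _ => by
          rw [horb]; exact Finset.mem_image_of_mem _ (Finset.mem_univ n),
      Finset.sum_congr rfl hfib, Finset.sum_const, smul_eq_mul]
  have hpA : ¬ p ∣ A.card := by
    intro hd
    apply hsq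
    -- `P` lies in the stabiliser
    have hPw : p ∣ w := by
      let St : Subgroup (Subgroup.normalizer ((Ps : Subgroup G) : Set G)) :=
        { carrier := {n | conjC _ n s = s}
          one_mem' := conjC_one _ s
          mul_mem' := fun {a b} (ha : conjC _ a s = s) (hb : conjC _ b s = s) => by
            show conjC _ (a * b) s = s
            rw [conjC_mul, hb, ha]
          inv_mem' := fun {a} (ha : conjC _ a s = s) => by
            show conjC _ a⁻¹ s = s
            conv_lhs => rw [← ha]
            rw [← conjC_mul, inv_mul_cancel, conjC_one] }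
      have hle : (Ps : Subgroup G).subgroupOf (Subgroup.normalizer ((Ps : Subgroup G) : Set G)) ≤ St := fun x hx => Subtype.ext (by
        show (x : G) * s * (x : G)⁻¹ = s
        rw [Subgroup.mem_centralizer_iff.1 s.2 (x : G) (Subgroup.mem_subgroupOf.1 hx),
          mul_inv_cancel_right])
      have h1 := Subgroup.card_dvd_of_le hle
      rw [Nat.card_congr (Subgroup.subgroupOfEquivOfLe Subgroup.le_normalizer).toEquiv, hP] at h1
      refine h1.trans (dvd_of_eq ?_)
      rw [Nat.card_eq_fintype_card, hw, ← Fintype.card_subtype]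
      exact Fintype.card_congr (Equiv.refl _)
    have h2 : p ^ 2 ∣ Nat.card (Subgroup.normalizer ((Ps : Subgroup G) : Set G)) := hcardN ▸ (pow_two p).symm ▸ Nat.mul_dvd_mul hd hPw
    exact h2.trans (Subgroup.card_subgroup_dvd_card (Subgroup.normalizer ((Ps : Subgroup G) : Set G)))
  -- the class size
  have hidx : ((Subgroup.centralizer ({(s : G)} : Set G)).index : ZMod p) = (A.card : ZMod p) := by
    let X := {g : G // IsConj (s : G) g}
    letI : MulAction (Ps : Subgroup G) X :=
      { smul := fun y g => ⟨(y : G) * g.1 * (y : G)⁻¹, g.2.trans (isConj_iff.2 ⟨y, rfl⟩)⟩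
        one_smul := fun g => Subtype.ext (by
          show ((1 : (Ps : Subgroup G)) : G) * g.1 * ((1 : (Ps : Subgroup G)) : G)⁻¹ = g.1
          simp)
        mul_smul := fun a b g => Subtype.ext (by
          show ((a * b : (Ps : Subgroup G)) : G) * g.1 * ((a * b : (Ps : Subgroup G)) : G)⁻¹ =
            (a : G) * ((b : G) * g.1 * (b : G)⁻¹) * (a : G)⁻¹
          push_cast
          group) }
    have hmod := Ps.2.card_modEq_card_fixedPoints X
    have hX : Nat.card X = (Subgroup.centralizer ({(s : G)} : Set G)).index := by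
      rw [← Chars.card_carrier_eq_index]
      exact Nat.card_congr (Equiv.subtypeEquivRight fun g => by
        rw [ConjClasses.mem_carrier_iff_mk_eq, ConjClasses.mk_eq_mk_iff_isConj]
        exact ⟨IsConj.symm, IsConj.symm⟩)
    have hF : Nat.card (MulAction.fixedPoints (Ps : Subgroup G) X) = A.card := by
      rw [← Nat.card_eq_finsetCard A]
      refine Nat.card_congr
        { toFun := fun g => ⟨⟨g.1.1, ?_⟩, ?_⟩
          invFun := fun c => ⟨⟨c.1.1, (Finset.mem_filter.1 c.2).2⟩, fun y => Subtype.ext ?_⟩
          left_inv := fun g => rfl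
          right_inv := fun c => rfl }
      · refine Subgroup.mem_centralizer_iff.2 fun y hy => ?_
        have h : y * g.1.1 * y⁻¹ = g.1.1 :=
          congrArg Subtype.val (g.2 (⟨y, hy⟩ : (Ps : Subgroup G)))
        calc y * g.1.1 = y * g.1.1 * y⁻¹ * y := by group
          _ = g.1.1 * y := by rw [h]
      · exact Finset.mem_filter.2 ⟨Finset.mem_univ _, g.1.2⟩
      · show (y : G) * c.1.1 * (y : G)⁻¹ = c.1.1
        rw [Subgroup.mem_centralizer_iff.1 c.1.2 y y.2, mul_inv_cancel_right]
    rw [← hX, ← hF]
    exact (ZMod.natCast_eq_natCast_iff _ _ p).2 hmod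
  set I := (Subgroup.centralizer ({(s : G)} : Set G)).index with hI
  have hIA : MemLocalIdeal M ((I : ℂ) - (A.card : ℂ)) := by
    have h1 : (p : ℤ) ∣ (I : ℤ) - (A.card : ℤ) := by
      rw [← ZMod.intCast_eq_intCast_iff_dvd_sub]
      push_cast
      exact hidx.symm
    obtain ⟨k, hk⟩ := h1
    have hp0 : MemLocalIdeal M ((p : ℂ)) :=
      (Blocks.memLocalIdeal_natCast_iff hM p).2 dvd_rfl
    rw [show ((I : ℂ) - (A.card : ℂ)) = ((k : ℤ) : ℂ) * (p : ℂ) by
      have := congrArg (Int.cast (R := ℂ)) hk
      push_cast at this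
      rw [this]; ring]
    exact memLocalIdeal_mul_left (memLocalRing_of_isIntegral (isIntegral_intCast k)) hp0
  have hA0 : (A.card : ℂ) ≠ 0 := Nat.cast_ne_zero.2 fun e => hpA (e ▸ dvd_zero p)
  have hAu : ¬ MemLocalIdeal M ((A.card : ℂ)) := fun hh =>
    hpA ((Blocks.memLocalIdeal_natCast_iff hM _).1 hh)
  have hχl : MemLocalRing M ((χ : G → ℂ) s / (χ : G → ℂ) 1) := by
    have hd : ¬ MemLocalIdeal M ((charDegree (χ : G → ℂ) : ℂ)) := fun hh =>
      hnd ((Blocks.memLocalIdeal_natCast_iff hM _).1 hh)
    rw [← Chars.coe_charDegree, div_eq_mul_inv]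
    exact (localRing M).mul_mem (Blocks.HeightZero.memLocalRing_apply (Chars.isCharacter_coe χ) _)
      (memLocalRing_inv (memLocalRing_of_isIntegral (isIntegral_natCast _)) hd)
  set x := (χ : G → ℂ) s / (χ : G → ℂ) 1
  have hkey : (A.card : ℂ) * (x - navg Ps θ s / θ.1 1) =
      -((∑ c ∈ A, θ.1 c / θ.1 1) - (I : ℂ) * (χ : G → ℂ) s / (χ : G → ℂ) 1) -
        ((I : ℂ) - (A.card : ℂ)) * x := by
    have hN0 : (Nat.card (Subgroup.normalizer ((Ps : Subgroup G) : Set G)) : ℂ) ≠ 0 := Chars.natCard_ne_zero
    rw [navg, hsum, ← hcardN]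
    have hw0 : (w : ℂ) ≠ 0 := by
      intro e
      rw [← hcardN] at hN0
      push_cast at hN0
      rw [e, mul_zero] at hN0
      exact hN0 rfl
    have hθ0 := Chars.map_one_ne_zero θ
    push_cast
    rw [← Finset.sum_div]
    field_simp
    ring
  have hm : MemLocalIdeal M ((A.card : ℂ) * (x - navg Ps θ s / θ.1 1)) := by
    rw [hkey, sub_eq_add_neg]
    refine memLocalIdeal_add (memLocalIdeal_neg h) (memLocalIdeal_neg ?_)
    exact memLocalIdeal_mul_right hIA hχl
  have := memLocalIdeal_mul_left
    (memLocalRing_inv (memLocalRing_of_isIntegral (isIntegral_natCast _)) hAu) hm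
  rwa [← mul_assoc, inv_mul_cancel₀ hA0, one_mul] at this

end Congr

end CfsgLib.DegPSubTwo
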