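import Cfsg.Agent.Chars.DegPSubTwo.Family
import Cfsg.Agent.Blocks.AbelianFrobenius.Main
import Cfsg.Agent.Chars.Ito.TwoPrimeChar

/-!
# The characters with trivial central character not vanishing on the Sylow subgroup

They are `1`, a rational character `θ` with the value `δ` and `(p - 1) / 2` characters with the
values `δ (λ^i + λ^-i)`; on the regular elements the latter equal `θ + δ`.
-/

set_option autoImplicit false
set_option linter.unusedSectionVars false

namespace CfsgLib.DegPSubTwo

open Cfsg CfsgLib CfsgLib.Chars CfsgLib.Blocks CfsgLib.Blocks.OrderP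
open scoped ComplexConjugate Classical

universe u

variable {G : Type u} [Group G] [Fintype G] {p : ℕ} [hpr : Fact p.Prime] {u : G}
  {ζ : IrrCharacter G}

/-- The rational character `θ` and the family `X`. -/
structure Princ (A : Good p u ζ) (θ : IrrCharacter G) (δ : ℤ)
    (X : (ZMod p)ˣ → IrrCharacter G) : Prop where
  hδ : δ = 1 ∨ δ = -1
  θ_mem : θ ∈ overSet (oneChar G)
  θ_ne : θ ≠ oneChar G
  θ_val : ∀ i : ZMod p, i ≠ 0 → (θ : G → ℂ) (upow u i) = δ
  θ_int : ∀ g : G, ∃ m : ℤ, (θ : G → ℂ) g = m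
  X_mem : ∀ k, X k ∈ overSet (oneChar G)
  X_val : ∀ k, ∀ i : ZMod p, i ≠ 0 → (X k : G → ℂ) (upow u i) = (δ : ℂ) * vv p (k * i)
  X_reg : ∀ k, ∀ g : G, ¬ p ∣ orderOf g → (X k : G → ℂ) g = (θ : G → ℂ) g + δ
  X_eq_iff : ∀ k l, X k = X l ↔ l = k ∨ l = -k
  rest : ∀ χ ∈ overSet (oneChar G), χ ≠ oneChar G → χ ≠ θ → (∀ k, χ ≠ X k) →
    ∀ i : ZMod p, i ≠ 0 → (χ : G → ℂ) (upow u i) = 0

theorem cval_oneChar (z : G) : cval (oneChar G) z = 1 := by
  simp [cval, oneChar_apply]

theorem apply_center_mul_of_mem {χ : IrrCharacter G} (hχ : χ ∈ overSet (oneChar G)) {z : G}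
    (hz : z ∈ Subgroup.center G) (g : G) : (χ : G → ℂ) (z * g) = (χ : G → ℂ) g := by
  rw [apply_center_mul χ hz, mem_overSet.1 hχ z hz, cval_oneChar, one_mul]

theorem Good.sum_vv_sq (A : Good p u ζ) {i : ZMod p} (hi : i ≠ 0) :
    ∑ k : (ZMod p)ˣ, vv p (k * i) * vv p (k * i) = 2 * ((p : ℂ) - 2) := by
  have h := A.sum_units_gal fun χ => (χ : G → ℂ) (upow u i) * (χ : G → ℂ) (upow u i)
  simp only [A.gal_val _ hi, neg_mul_neg, A.sum_conjs_mul hi hi, if_pos (Or.inl rfl : i = i ∨ i = -i)] at h
  exact h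

/-- **The principal family.** -/
theorem Good.exists_princ (A : Good p u ζ) : ∃ θ δ X, Princ A θ δ X := by
  have B := A.base
  have hp5 := B.five_lt
  obtain ⟨M, hM⟩ := exists_isPModular p hpr.out
  have := Blocks.isMaximal_of_isPModular hM
  have hPg : IsPGroup p (Subgroup.zpowers u) :=
    IsPGroup.of_card (n := 1) (by rw [Nat.card_zpowers, B.hu, pow_one])
  set P : Sylow p G := hPg.toSylow B.hidx with hPdef
  have hP : (P : Subgroup G) = Subgroup.zpowers u := rfl
  haveI : IsMulCommutative (P : Subgroup G) := by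
    haveI : IsCyclic (P : Subgroup G) := isCyclic_of_prime_card (p := p)
      (by rw [hP, Nat.card_zpowers, B.hu])
    infer_instance
  have huP : u ∈ (P : Subgroup G) := Subgroup.mem_zpowers u
  have hcz : ∀ g : G, g * u = u * g → g ∈ Subgroup.centralizer ((P : Subgroup G) : Set G) := by
    intro g hg
    rw [hP]
    refine Subgroup.mem_centralizer_iff.2 fun x hx => ?_
    obtain ⟨j, rfl⟩ := Subgroup.mem_zpowers_iff.1 hx
    exact ((show Commute g u from hg).zpow_right j).eq.symm
  have hcu : ∀ g ∈ Subgroup.centralizer ((P : Subgroup G) : Set G), g * u = u * g := fun g hg =>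
    (Subgroup.mem_centralizer_iff.1 hg u huP).symm
  have hfrob : Blocks.AbelianFrobenius.Frob P := by
    intro y hy hy1
    obtain ⟨i, rfl⟩ := (mem_zpowers_iff_upow B.hu).1 (hP ▸ hy)
    have hi : i ≠ 0 := fun e => hy1 (by rw [e, upow_zero B.hu])
    ext g
    rw [Subgroup.mem_inf, Subgroup.mem_centralizer_singleton_iff]
    refine ⟨fun h => hcz g ((B.upow_comm_iff hi g).1 h.1), fun h =>
      ⟨(B.upow_comm_iff hi g).2 (hcu g h), Subgroup.centralizer_le_normalizer _ h⟩⟩
  obtain ⟨t, ht, -⟩ := B.inv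
  have htN : t ∈ Subgroup.normalizer ((P : Subgroup G) : Set G) := by
    rw [hP]
    exact mem_normalizer_of_conj_gen (ht ▸ inv_mem (Subgroup.mem_zpowers u))
  have htC : t ∉ Subgroup.centralizer ((P : Subgroup G) : Set G) := by
    intro h
    rw [hcu t h, mul_inv_cancel_right] at ht
    have h2 : u ^ 2 = 1 := by
      rw [pow_two]
      nth_rewrite 2 [ht]
      exact mul_inv_cancel u
    have := Nat.le_of_dvd two_pos (B.hu ▸ orderOf_dvd_of_pow_eq_one h2)
    omega
  have hA2 : Nat.card (Blocks.AbelianFrobenius.autP P) = 2 := by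
    rw [Blocks.AbelianFrobenius.card_autP]
    show (Subgroup.subgroupOf _ _).index = 2
    rw [Subgroup.index_eq_two_iff]
    refine ⟨⟨t, htN⟩, fun b => ?_⟩
    simp only [Subgroup.mem_subgroupOf, Subgroup.coe_mul]
    by_cases hb : (b : G) ∈ Subgroup.centralizer ((P : Subgroup G) : Set G)
    · exact Or.inr ⟨hb, fun h => htC (by simpa using mul_mem (inv_mem hb) h)⟩
    · refine Or.inl ⟨hcz _ ?_, hb⟩
      have hbu : (b : G) * u * (b : G)⁻¹ ∈ Subgroup.zpowers u :=
        hP ▸ (Subgroup.mem_normalizer_iff.1 b.2 u).1 huP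
      rcases B.fusion _ hbu with e | e
      · exact absurd (hcz _ (mul_inv_eq_iff_eq_mul.1 e)) hb
      · calc (b : G) * t * u = (b : G) * (t * u * t⁻¹) * t := by group
          _ = (b : G) * u⁻¹ * t := by rw [ht]
          _ = ((b : G) * u * (b : G)⁻¹)⁻¹ * ((b : G) * t) := by group
          _ = u * ((b : G) * t) := by rw [e, inv_inv]
  have hcardP : Nat.card (P : Subgroup G) = p := by rw [hP, Nat.card_zpowers, B.hu]
  obtain ⟨d, δ, d₀, χf, hδ, hinj, hmem, hd0, hone, hrest, hval, hreg, hcnt, hsq, hrel⟩ :=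
    Blocks.AbelianFrobenius.exists_family hM hfrob (by omega)
  rw [hA2, hcardP] at hcnt
  set R := (Set.toFinite (principalBlock M G \ Set.range χf)).toFinset with hR
  have hRm : ∀ χ, χ ∈ R ↔ χ ∈ principalBlock M G ∧ χ ∉ Set.range χf := fun χ => by simp [hR]
  have h1R : oneChar G ∈ R :=
    (hRm _).2 ⟨by
      rw [principalBlock, show (fun _ : G => (1 : ℂ)) = (oneChar G : G → ℂ) from
        (funext fun g => (oneChar_apply g).symm)]
      exact Blocks.self_mem_blockOf _, hone⟩
  have hconv : ∀ {N : Type} [AddCommMonoid N] (F : IrrCharacter G → N),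
      ∑ᶠ χ ∈ principalBlock M G \ Set.range χf, F χ = ∑ χ ∈ R, F χ := fun {N} _ F => by
    rw [finsum_mem_eq_finite_toFinset_sum _ (Set.toFinite _)]
  rw [hconv, hA2] at hsq
  let y₁ : (P : Subgroup G) := ⟨u, huP⟩
  have hu1 : (y₁ : G) ≠ 1 := fun e => hpr.out.ne_one (by rw [← B.hu, show u = 1 from e, orderOf_one])
  have hd1 : d (oneChar G) = 1 := by
    have h := (hrest _ ((hRm _).1 h1R).1 ((hRm _).1 h1R).2).2 y₁ hu1
    rw [oneChar_apply] at h
    exact_mod_cast h.symm
  have hRpos : ∀ χ ∈ R, 1 ≤ d χ ^ 2 := fun χ hχ => by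
    have := (hrest χ ((hRm _).1 hχ).1 ((hRm _).1 hχ).2).1
    rcases lt_or_gt_of_ne this with h | h <;> nlinarith
  have hR1 : (1 : ℤ) ≤ ∑ χ ∈ R, d χ ^ 2 :=
    le_trans (hRpos _ h1R) (Finset.single_le_sum (fun χ _ => sq_nonneg (d χ)) h1R)
  have h1g : ¬ p ∣ orderOf (1 : G) := by rw [orderOf_one]; exact hpr.out.not_dvd_one
  obtain ⟨i₀⟩ : Nonempty (Blocks.AbelianFrobenius.Orb (Blocks.AbelianFrobenius.autP P)) := by
    have : 0 < Nat.card (Blocks.AbelianFrobenius.Orb (Blocks.AbelianFrobenius.autP P)) := Nat.pos_of_ne_zero fun e => by rw [e] at hcnt; omega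
    exact (Nat.card_pos_iff.1 this).1
  have hrel' : ∀ i g, ¬ p ∣ orderOf g →
      (((Nat.card (Blocks.AbelianFrobenius.Orb (Blocks.AbelianFrobenius.autP P)) : ℕ) : ℂ) * d₀ - δ) * (χf i : G → ℂ) g +
        ∑ χ ∈ R, (d χ : ℂ) * (χ : G → ℂ) g = 0 := fun i g hg => by
    have h := hrel i g hg
    rwa [hconv] at h
  have hz' : 3 ≤ Nat.card (Blocks.AbelianFrobenius.Orb (Blocks.AbelianFrobenius.autP P)) := by omega
  -- no constant part
  have hd00 : d₀ = 0 := by
    by_contra hne
    have hd2 : 1 ≤ d₀ ^ 2 := by rcases lt_or_gt_of_ne hne with h | h <;> nlinarith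
    have hc2 : (2 : ℤ) ≤ (Nat.card (Blocks.AbelianFrobenius.Orb (Blocks.AbelianFrobenius.autP P)) : ℤ) - 1 := by omega
    have hnn := sq_nonneg (d₀ - δ)
    push_cast at hsq
    have hO3 : Nat.card (Blocks.AbelianFrobenius.Orb (Blocks.AbelianFrobenius.autP P)) = 3 := by
      by_contra h
      have h4 : (3 : ℤ) ≤ (Nat.card (Blocks.AbelianFrobenius.Orb (Blocks.AbelianFrobenius.autP P)) : ℤ) - 1 := by omega
      nlinarith
    rw [hO3] at hsq
    push_cast at hsq
    have hd21 : d₀ ^ 2 = 1 := by nlinarith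
    have hS : ∑ χ ∈ R, d χ ^ 2 = 1 := by nlinarith
    have hdδ : d₀ = δ := by
      have : (d₀ - δ) ^ 2 = 0 := by nlinarith
      exact sub_eq_zero.1 (pow_eq_zero_iff two_ne_zero |>.1 this)
    have hRone : R = {oneChar G} := by
      refine Finset.eq_singleton_iff_unique_mem.2 ⟨h1R, fun χ hχ => ?_⟩
      by_contra hne'
      have h2 := Finset.sum_le_sum_of_subset_of_nonneg (f := fun χ => d χ ^ 2)
        (show ({χ, oneChar G} : Finset _) ⊆ R by
          intro x hx
          rcases Finset.mem_insert.1 hx with rfl | hx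
          · exact hχ
          · rwa [Finset.mem_singleton.1 hx]) fun x _ _ => sq_nonneg _
      rw [Finset.sum_pair hne'] at h2
      have := hRpos χ hχ
      have := hRpos _ h1R
      omega
    have h := hrel' i₀ 1 h1g
    rw [hRone, Finset.sum_singleton, hd1, oneChar_apply, hO3, hdδ, ← coe_charDegree] at h
    have h' : (3 * δ - δ) * (charDegree (χf i₀ : G → ℂ) : ℤ) + 1 = 0 := by
      apply Int.cast_injective (α := ℂ)
      push_cast
      linear_combination h
    rcases hδ with rfl | rfl <;> omega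
  subst hd00
  have hS2 : ∑ χ ∈ R, d χ ^ 2 = 2 := by
    rcases hδ with rfl | rfl <;> push_cast at hsq <;> linarith
  obtain ⟨θ, hθR, hθ1⟩ : ∃ θ ∈ R, θ ≠ oneChar G := by
    by_contra h
    push Not at h
    rw [Finset.eq_singleton_iff_unique_mem.2 ⟨h1R, h⟩, Finset.sum_singleton, hd1] at hS2
    omega
  have hRpair : R = {oneChar G, θ} := by
    refine (Finset.eq_of_subset_of_card_le ?_ ?_).symm
    · intro x hx
      rcases Finset.mem_insert.1 hx with rfl | hx
      · exact h1R
      · rwa [Finset.mem_singleton.1 hx]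
    · rw [Finset.card_pair hθ1.symm]
      have h := Finset.card_nsmul_le_sum R (fun χ => d χ ^ 2) 1 hRpos
      rw [hS2, nsmul_eq_mul, mul_one] at h
      exact_mod_cast h
  rw [hRpair, Finset.sum_pair hθ1.symm, hd1] at hS2
  have hdθ : d θ = 1 ∨ d θ = -1 := by
    have : d θ ^ 2 = 1 := by linarith
    exact sq_eq_one_iff.1 this
  have hrelθ : ∀ i g, ¬ p ∣ orderOf g →
      (δ : ℂ) * (χf i : G → ℂ) g = 1 + (d θ : ℂ) * (θ : G → ℂ) g := fun i g hg => by
    have h := hrel' i g hg
    rw [hRpair, Finset.sum_pair hθ1.symm, hd1, oneChar_apply] at h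
    push_cast at h
    linear_combination -h
  have hdδ : d θ = δ := by
    have h := hrelθ i₀ 1 h1g
    rw [← coe_charDegree, ← coe_charDegree] at h
    have h' : δ * (charDegree (χf i₀ : G → ℂ) : ℤ) = 1 + d θ * (charDegree (θ : G → ℂ) : ℤ) := by
      apply Int.cast_injective (α := ℂ)
      push_cast
      linear_combination h
    have := charDegree_pos (χf i₀)
    have := charDegree_pos θ
    rcases hδ with rfl | rfl <;> rcases hdθ with e | e <;> rw [e] at h' ⊢ <;> omega
  have hregX : ∀ i g, ¬ p ∣ orderOf g → (χf i : G → ℂ) g = (θ : G → ℂ) g + δ := fun i g hg => by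
    have h := hrelθ i g hg
    rw [hdδ] at h
    rcases hδ with rfl | rfl <;> push_cast at h ⊢
    · linear_combination h
    · linear_combination -h
  -- the center is in the kernel of the block
  have hover : ∀ χ ∈ principalBlock M G, χ ∈ overSet (oneChar G) := by
    intro χ hχ
    refine mem_overSet.2 fun z hz => ?_
    rw [cval_oneChar, cval, map_eq_map_one_of_mem_charKer (Blocks.le_charKer_of_mem_principalBlock
      (Subgroup.center G) hM B.not_dvd_card_center hχ hz), div_self (map_one_ne_zero χ)]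
  have hθB : θ ∈ principalBlock M G := ((hRm _).1 hθR).1
  have hθval : ∀ i : ZMod p, i ≠ 0 → (θ : G → ℂ) (upow u i) = δ := by
    intro i hi
    rw [← hdδ]
    exact (hrest θ hθB ((hRm _).1 hθR).2).2
      ⟨upow u i, (hP ▸ (mem_zpowers_iff_upow B.hu).2 ⟨i, rfl⟩)⟩
      (fun e => hi (upow_inj B.hu (e.trans (upow_zero B.hu).symm)))
  -- the automiser
  let ι : (Blocks.AbelianFrobenius.autP P) := ⟨(P : Subgroup G).normalizerMonoidHom ⟨t, htN⟩, ⟨_, rfl⟩⟩
  have hιy : ∀ (i : ZMod p) (h : upow u i ∈ (P : Subgroup G)),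
      (((ι : MulAut (P : Subgroup G)) ⟨upow u i, h⟩ : (P : Subgroup G)) : G) = upow u (-i) := by
    intro i h
    rw [Blocks.AbelianFrobenius.normalizerMonoidHom_coe]
    show t * upow u i * t⁻¹ = _
    rw [upow_neg B.hu, upow, ← conj_pow, ht, inv_pow]
  have hι1 : ι ≠ 1 := fun e => by
    have h1 := hιy 1 (hP ▸ (mem_zpowers_iff_upow B.hu).2 ⟨1, rfl⟩)
    rw [e] at h1
    have h2 : (1 : ZMod p) = -1 := upow_inj B.hu h1
    exact two_ne_zero_zmod hp5 (by linear_combination h2)
  have hrep : ∀ i : (Blocks.AbelianFrobenius.Orb (Blocks.AbelianFrobenius.autP P)), ∃ r : (ZMod p)ˣ, ∀ k : ZMod p, k ≠ 0 →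
      (χf i : G → ℂ) (upow u k) = (δ : ℂ) * vv p (r * k) := by
    intro i
    set ψ := Blocks.AbelianFrobenius.Orb.rep (Blocks.AbelianFrobenius.autP P) i
    have hy1p : (y₁ : (P : Subgroup G)) ^ p = 1 := Subtype.ext (by
      rw [Subgroup.coe_pow, Subgroup.coe_one]
      exact orderOf_dvd_iff_pow_eq_one.1 (dvd_of_eq B.hu))
    have hwp : ((ψ y₁ : ℂˣ) : ℂ) ^ p = 1 := by
      rw [← Units.val_pow_eq_pow_val, ← map_pow, hy1p, map_one, Units.val_one]
    have hω := Complex.isPrimitiveRoot_exp p hpr.out.ne_zero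
    have : NeZero p := ⟨hpr.out.ne_zero⟩
    obtain ⟨m, -, hm⟩ := hω.eq_pow_of_pow_eq_one hwp
    have hw : ech p (m : ZMod p) = ((ψ y₁ : ℂˣ) : ℂ) := (AddChar.zmodChar_apply' _ m).trans hm
    have hpow : ∀ k : ZMod p, ∀ h : upow u k ∈ (P : Subgroup G),
        ((ψ ⟨upow u k, h⟩ : ℂˣ) : ℂ) = ech p ((m : ZMod p) * k) := by
      intro k h
      rw [show (⟨upow u k, h⟩ : (P : Subgroup G)) = y₁ ^ k.val from Subtype.ext rfl, map_pow,
        Units.val_pow_eq_pow_val, ← hw, ← AddChar.map_nsmul_eq_pow, nsmul_eq_mul,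
        ZMod.natCast_zmod_val, mul_comm]
    have hm0 : (m : ZMod p) ≠ 0 := by
      intro e
      apply Blocks.AbelianFrobenius.Orb.rep_ne_one (Blocks.AbelianFrobenius.autP P) i
      refine MonoidHom.ext fun y => Units.ext ?_
      obtain ⟨k, hk⟩ := (mem_zpowers_iff_upow B.hu).1 (show (y : G) ∈ Subgroup.zpowers u from hP ▸ y.2)
      rw [show y = ⟨upow u k, hk ▸ y.2⟩ from Subtype.ext hk, hpow, e, zero_mul,
        AddChar.map_zero_eq_one]
      rfl
    refine ⟨Units.mk0 _ hm0, fun k hk => ?_⟩
    have hmemk : upow u k ∈ (P : Subgroup G) := hP ▸ (mem_zpowers_iff_upow B.hu).2 ⟨k, rfl⟩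
    have hne : upow u k ≠ 1 := fun e => hk (upow_inj B.hu (e.trans (upow_zero B.hu).symm))
    rw [hval i ⟨upow u k, hmemk⟩ hne]
    haveI := Fintype.ofFinite (Blocks.AbelianFrobenius.autP P)
    have huniv : (Finset.univ : Finset (Blocks.AbelianFrobenius.autP P)) = {1, ι} := by
      refine (Finset.eq_univ_of_card _ ?_).symm
      rw [Finset.card_pair hι1.symm, ← Nat.card_eq_fintype_card, hA2]
    rw [finsum_eq_sum_of_fintype, huniv, Finset.sum_pair hι1.symm]
    have hιk : (ι : MulAut (P : Subgroup G)) ⟨upow u k, hmemk⟩ =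
        ⟨upow u (-k), hP ▸ (mem_zpowers_iff_upow B.hu).2 ⟨-k, rfl⟩⟩ := Subtype.ext (hιy k hmemk)
    rw [hιk, OneMemClass.coe_one, MulAut.one_apply, hpow, hpow, Units.val_mk0, vv, mul_neg]
    push_cast
    ring
  choose r hr using hrep
  have hinj' : ∀ i j, r i = r j ∨ r i = -r j → i = j := by
    intro i j h
    refine hinj (B.eq_of_eq_on (fun g hg => hreg i j g hg) fun k hk => ?_)
    rw [hr i k hk, hr j k hk]
    rcases h with h | h
    · rw [h]
    · rw [h, Units.val_neg, neg_mul, vv_neg]
  haveI : Finite (Blocks.AbelianFrobenius.Orb (Blocks.AbelianFrobenius.autP P)) := inferInstance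
  have hsurj : ∀ k : (ZMod p)ˣ, ∃ i, r i = k ∨ r i = -k := by
    haveI := Fintype.ofFinite (Blocks.AbelianFrobenius.Orb (Blocks.AbelianFrobenius.autP P))
    let F : (Blocks.AbelianFrobenius.Orb (Blocks.AbelianFrobenius.autP P)) × Bool → (ZMod p)ˣ := fun q => if q.2 then r q.1 else -r q.1
    have hF : Function.Bijective F := by
      rw [Fintype.bijective_iff_injective_and_card]
      refine ⟨?_, ?_⟩
      · rintro ⟨i, b⟩ ⟨j, c⟩ h
        have e : i = j := by
          refine hinj' i j ?_
          cases b <;> cases c <;> simp only [F, if_true, if_false, Bool.false_eq_true] at h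
          · exact Or.inl (neg_injective h)
          · exact Or.inr (neg_eq_iff_eq_neg.1 h)
          · exact Or.inr h
          · exact Or.inl h
        subst e
        cases b <;> cases c <;> simp only [F, if_true, if_false, Bool.false_eq_true] at h
        · rfl
        · exact absurd h (units_neg_ne hp5 _)
        · exact absurd h.symm (units_neg_ne hp5 _)
        · rfl
      · rw [Fintype.card_prod, Fintype.card_bool, ZMod.card_units, ← Nat.card_eq_fintype_card]
        omega
    intro k
    obtain ⟨⟨i, b⟩, hib⟩ := hF.2 k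
    refine ⟨i, ?_⟩
    cases b <;> simp only [F, if_true, if_false, Bool.false_eq_true] at hib
    · exact Or.inr (neg_eq_iff_eq_neg.1 hib)
    · exact Or.inl hib
  choose s hs using hsurj
  have hXval : ∀ k, ∀ i : ZMod p, i ≠ 0 →
      (χf (s k) : G → ℂ) (upow u i) = (δ : ℂ) * vv p (k * i) := by
    intro k i hi
    rw [hr _ i hi]
    rcases hs k with h | h
    · rw [h]
    · rw [h, Units.val_neg, neg_mul, vv_neg]
  have hXiff : ∀ k l, χf (s k) = χf (s l) ↔ l = k ∨ l = -k := by
    intro k l
    rw [hinj.eq_iff]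
    constructor
    · intro h
      rcases hs k with h1 | h1 <;> rcases hs l with h2 | h2 <;> rw [h] at h1
      · exact Or.inl (h2.symm.trans h1)
      · exact Or.inr (neg_eq_iff_eq_neg.1 (h2.symm.trans h1))
      · exact Or.inr (h2.symm.trans h1)
      · exact Or.inl (neg_injective (h2.symm.trans h1))
    · intro h
      refine hinj' _ _ ?_
      rcases hs k with h1 | h1 <;> rcases hs l with h2 | h2 <;> rcases h with rfl | rfl <;>
        simp [h1, h2]
  -- the others vanish
  set W := ((Finset.univ : Finset (ZMod p)ˣ).image fun k => χf (s k)) with hW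
  have hWsum : ∀ F : IrrCharacter G → ℂ,
      ∑ k : (ZMod p)ˣ, F (χf (s k)) = 2 * ∑ χ ∈ W, F χ := by
    intro F
    rw [← Finset.sum_fiberwise_of_maps_to (t := W) (g := fun k => χf (s k))
      (fun k _ => Finset.mem_image_of_mem _ (Finset.mem_univ k)), Finset.mul_sum]
    refine Finset.sum_congr rfl fun χ hχ => ?_
    obtain ⟨l, -, rfl⟩ := Finset.mem_image.1 hχ
    rw [Finset.sum_congr rfl (g := fun _ => F (χf (s l))) fun k hk => by
      rw [(Finset.mem_filter.1 hk).2], Finset.sum_const,
      show ((Finset.univ : Finset (ZMod p)ˣ).filter fun k => χf (s k) = χf (s l)) = {l, -l}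
        from ?_, Finset.card_pair (units_neg_ne hp5 l).symm, nsmul_eq_mul, Nat.cast_two]
    ext k
    rw [Finset.mem_filter, eq_comm, hXiff, Finset.mem_insert, Finset.mem_singleton]
    simp
  have hθover := hover θ hθB
  refine ⟨θ, δ, fun k => χf (s k),
    { hδ := hδ
      θ_mem := hθover
      θ_ne := hθ1
      θ_val := hθval
      θ_int := ?_
      X_mem := fun k => hover _ (hmem _)
      X_val := hXval
      X_reg := fun k g hg => hregX _ g hg
      X_eq_iff := hXiff
      rest := ?_ }⟩
  rotate_left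
  · intro χ hχ h1 h2 h3 i hi
    have htot := B.sum_over_upow (oneChar G) (i := i) (j := i) hi
    rw [if_pos (Or.inl rfl)] at htot
    have hsub : insert (oneChar G) (insert θ W) ⊆ overSet (oneChar G) := by
      intro x hx
      rcases Finset.mem_insert.1 hx with rfl | hx
      · exact mem_overSet.2 fun z _ => rfl
      rcases Finset.mem_insert.1 hx with rfl | hx
      · exact hθover
      · obtain ⟨k, -, rfl⟩ := Finset.mem_image.1 hx
        exact hover _ (hmem _)
    have hθW : θ ∉ W := by
      intro h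
      obtain ⟨k, -, hk⟩ := Finset.mem_image.1 h
      exact ((hRm _).1 hθR).2 ⟨_, hk⟩
    have h1W : oneChar G ∉ insert θ W := by
      intro h
      rcases Finset.mem_insert.1 h with h | h
      · exact hθ1 h.symm
      · obtain ⟨k, -, hk⟩ := Finset.mem_image.1 h
        exact hone ⟨_, hk⟩
    rw [← Finset.sum_sdiff hsub, Finset.sum_insert h1W, Finset.sum_insert hθW, oneChar_apply,
      hθval i hi] at htot
    have hWs : ∑ χ ∈ W, (χ : G → ℂ) (upow u i) * (χ : G → ℂ) (upow u i) = (p : ℂ) - 2 := by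
      refine mul_left_cancel₀ (two_ne_zero : (2 : ℂ) ≠ 0) ?_
      rw [← hWsum fun χ => (χ : G → ℂ) (upow u i) * (χ : G → ℂ) (upow u i), ← A.sum_vv_sq hi]
      refine Finset.sum_congr rfl fun k _ => ?_
      rw [hXval k i hi]
      rcases hδ with rfl | rfl <;> push_cast <;> ring
    rw [hWs] at htot
    set r : IrrCharacter G → ℝ := fun x => ((x : G → ℂ) (upow u i)).re with hrdef
    have hre : ∀ x : IrrCharacter G, (x : G → ℂ) (upow u i) = (r x : ℂ) :=
      fun x => (Complex.conj_eq_iff_re.1 (B.conj_apply_upow_self x i)).symm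
    have h0 : ∑ x ∈ overSet (oneChar G) \ insert (oneChar G) (insert θ W), r x ^ 2 = 0 := by
      apply Complex.ofReal_injective
      push_cast
      simp only [← hre, pow_two]
      rcases hδ with rfl | rfl <;> push_cast at htot <;> linear_combination htot
    have hmem' : χ ∈ overSet (oneChar G) \ insert (oneChar G) (insert θ W) := by
      refine Finset.mem_sdiff.2 ⟨hχ, fun h => ?_⟩
      rcases Finset.mem_insert.1 h with h | h
      · exact h1 h
      rcases Finset.mem_insert.1 h with h | h
      · exact h2 h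
      · obtain ⟨k, -, hk⟩ := Finset.mem_image.1 h
        exact h3 k hk.symm
    have h4 := (Finset.sum_eq_zero_iff_of_nonneg fun x _ => sq_nonneg (r x)).1 h0 χ hmem'
    rw [sq_eq_zero_iff] at h4
    rw [hre, h4, Complex.ofReal_zero]
  · intro g
    refine Chars.Ito.exists_int_of_fixed (isCharacter_coe θ) (fun σ x => ?_) g
    set θσ : IrrCharacter G := ⟨_, isIrrCharacter_ringHom θ.2 σ⟩ with hθσ
    have hθσx : ∀ y, (θσ : G → ℂ) y = σ ((θ : G → ℂ) y) := fun y => rfl
    have hmem' : θσ ∈ overSet (oneChar G) := by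
      refine mem_overSet.2 fun z hz => ?_
      have hz' := apply_center_mul_of_mem hθover hz 1
      rw [mul_one] at hz'
      rw [cval_oneChar, cval, hθσx, hθσx, hz', div_self]
      rw [← hθσx]
      exact map_one_ne_zero θσ
    have hval' : ∀ i : ZMod p, i ≠ 0 → (θσ : G → ℂ) (upow u i) = δ := fun i hi => by
      rw [hθσx, hθval i hi, map_intCast]
    have heq : θσ = θ := by
      by_contra hne
      -- a fourth member would exceed the column norm
      by_cases h1 : θσ = oneChar G
      · apply hθ1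
        refine Subtype.ext (funext fun y => ?_)
        have h2 := hθσx y
        rw [h1, oneChar_apply] at h2
        rw [oneChar_apply]
        exact σ.injective (by rw [← h2, map_one])
      have hW' : ∀ k, θσ ≠ χf (s k) := by
        intro k hk
        have e1 := hval' ((k⁻¹ : (ZMod p)ˣ) : ZMod p) (Units.ne_zero _)
        have e2 := hval' (((k⁻¹ : (ZMod p)ˣ) : ZMod p) * 2)
          (mul_ne_zero (Units.ne_zero _) (two_ne_zero_zmod hp5))
        rw [hk, hXval _ _ (Units.ne_zero _), Units.mul_inv] at e1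
        rw [hk, hXval _ _ (mul_ne_zero (Units.ne_zero _) (two_ne_zero_zmod hp5)),
          Units.mul_inv_cancel_left] at e2
        have hδ0 : (δ : ℂ) ≠ 0 := by rcases hδ with rfl | rfl <;> norm_num
        have e3 := mul_left_cancel₀ hδ0 (e1.trans e2.symm)
        rcases vv_eq_iff.1 e3 with e | e
        · exact one_ne_zero (show (1 : ZMod p) = 0 by linear_combination -e)
        · have h3 : ((3 : ℕ) : ZMod p) = 0 := by push_cast; linear_combination e
          rw [ZMod.natCast_eq_zero_iff] at h3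
          have := Nat.le_of_dvd (by norm_num) h3
          omega
      have hB' := B.sum_over_upow (oneChar G) (i := 1) (j := 1) one_ne_zero
      rw [if_pos (Or.inl rfl)] at hB'
      have hsub : insert θσ (insert (oneChar G) (insert θ W)) ⊆ overSet (oneChar G) := by
        intro x hx
        rcases Finset.mem_insert.1 hx with rfl | hx
        · exact hmem'
        rcases Finset.mem_insert.1 hx with rfl | hx
        · exact mem_overSet.2 fun z _ => rfl
        rcases Finset.mem_insert.1 hx with rfl | hx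
        · exact hθover
        · obtain ⟨k, -, rfl⟩ := Finset.mem_image.1 hx
          exact hover _ (hmem _)
      have hθW : θ ∉ W := by
        intro h
        obtain ⟨k, -, hk⟩ := Finset.mem_image.1 h
        exact ((hRm _).1 hθR).2 ⟨_, hk⟩
      have h1W : oneChar G ∉ insert θ W := by
        intro h
        rcases Finset.mem_insert.1 h with h | h
        · exact hθ1 h.symm
        · obtain ⟨k, -, hk⟩ := Finset.mem_image.1 h
          exact hone ⟨_, hk⟩
      have hσW : θσ ∉ insert (oneChar G) (insert θ W) := by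
        intro h
        rcases Finset.mem_insert.1 h with h | h
        · exact h1 h
        rcases Finset.mem_insert.1 h with h | h
        · exact hne h
        · obtain ⟨k, -, hk⟩ := Finset.mem_image.1 h
          exact hW' k hk.symm
      rw [← Finset.sum_sdiff hsub, Finset.sum_insert hσW, Finset.sum_insert h1W,
        Finset.sum_insert hθW, oneChar_apply, hθval 1 one_ne_zero, hval' 1 one_ne_zero] at hB'
      have hWs : ∑ χ ∈ W, (χ : G → ℂ) (upow u (1 : ZMod p)) * (χ : G → ℂ) (upow u (1 : ZMod p)) =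
          (p : ℂ) - 2 := by
        refine mul_left_cancel₀ (two_ne_zero : (2 : ℂ) ≠ 0) ?_
        rw [← hWsum fun χ => (χ : G → ℂ) (upow u (1 : ZMod p)) * (χ : G → ℂ) (upow u (1 : ZMod p)),
          ← A.sum_vv_sq (i := 1) one_ne_zero]
        refine Finset.sum_congr rfl fun k _ => ?_
        rw [hXval k 1 one_ne_zero]
        rcases hδ with rfl | rfl <;> push_cast <;> ring
      rw [hWs] at hB'
      set r : IrrCharacter G → ℝ := fun x => ((x : G → ℂ) (upow u (1 : ZMod p))).re with hrdef
      have hre : ∀ x : IrrCharacter G, (x : G → ℂ) (upow u (1 : ZMod p)) = (r x : ℂ) :=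
        fun x => (Complex.conj_eq_iff_re.1 (B.conj_apply_upow_self x 1)).symm
      have h0 : ∑ x ∈ overSet (oneChar G) \ insert θσ (insert (oneChar G) (insert θ W)), r x ^ 2 =
          -1 := by
        apply Complex.ofReal_injective
        push_cast
        simp only [← hre, pow_two]
        rcases hδ with rfl | rfl <;> push_cast at hB' <;> linear_combination hB'
      have := Finset.sum_nonneg (s := overSet (oneChar G) \ insert θσ (insert (oneChar G) (insert θ W)))
        (f := fun x => r x ^ 2) fun x _ => sq_nonneg _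
      linarith
    exact congrFun (congrArg Subtype.val heq) x

end CfsgLib.DegPSubTwo
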