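import Cfsg.Agent.Chars.DegPSubTwo.Expand

/-!
# The product of two different conjugates of `ζ`
-/

set_option autoImplicit false
set_option linter.unusedSectionVars false

namespace CfsgLib.DegPSubTwo

open Cfsg CfsgLib CfsgLib.Chars CfsgLib.Blocks.OrderP
open scoped ComplexConjugate Classical

universe u

variable {G : Type u} [Group G] [Fintype G] {p : ℕ} [hpr : Fact p.Prime] {u : G}
  {ζ : IrrCharacter G} {A : Good p u ζ} {θ : IrrCharacter G} {δ : ℤ}
  {X : (ZMod p)ˣ → IrrCharacter G}

namespace Princ

variable (Pr : Princ A θ δ X)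
include Pr

/-- The product `ζ₁ · conj ζ₂` in the characters with trivial central character. -/
theorem exists_tensor : ∃ (c : ℕ) (R : IrrCharacter G → ℕ),
    (∀ g : G, ¬ p ∣ orderOf g → 2 * ((ζ : G → ℂ) g * conj ((ζ : G → ℂ) g)) =
      2 * (c : ℂ) * (θ : G → ℂ) g + (((p : ℂ) - 1) * c + 4 * δ) * ((θ : G → ℂ) g + δ) +
        2 * ∑ χ ∈ restSet θ X, (R χ : ℂ) * (χ : G → ℂ) g) ∧
    0 ≤ (c : ℤ) + δ := by
  have h5 := A.base.five_lt
  have h2 := two_ne_zero_zmod h5
  set b : (ZMod p)ˣ := Units.mk0 2 h2
  have hb : (b : ZMod p) = 2 := rfl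
  have h3 : (3 : ZMod p) ≠ 0 := by
    intro e
    rw [← Nat.cast_ofNat, ZMod.natCast_eq_zero_iff] at e
    have := Nat.le_of_dvd (by norm_num) e
    omega
  have h4 : (4 : ZMod p) ≠ 0 := by
    intro e
    rw [← Nat.cast_ofNat, ZMod.natCast_eq_zero_iff] at e
    have := Nat.le_of_dvd (by norm_num) e
    omega
  set F : G → ℂ := fun g => (A.base.gal 1 : G → ℂ) g * conj ((A.base.gal b : G → ℂ) g) with hFd
  have hFch : IsCharacter G F :=
    isCharacter_mul (isCharacter_coe _) (isCharacter_conj (isCharacter_coe _))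
  have hF := isClassFunction_of_isCharacter hFch
  have hZ : ∀ z ∈ Subgroup.center G, ∀ g, F (z * g) = F g := fun z hz g => by
    simp only [hFd, apply_center_mul _ hz, map_mul, mem_overSet.1 (A.base.gal_mem_overSet _) z hz]
    linear_combination ((A.base.gal 1 : G → ℂ) g * conj ((A.base.gal b : G → ℂ) g)) * cval_mul_conj ζ hz
  have hFu : ∀ i : ZMod p, i ≠ 0 → F (upow u i) = vv p (i * 3) + vv p i := by
    intro i hi
    simp only [hFd]
    rw [A.base.conj_apply_upow_self, A.gal_val _ hi, A.gal_val _ hi, neg_mul_neg, vv_mul_vv,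
      Units.val_one, hb, show (1 : ZMod p) * i + 2 * i = i * 3 by ring,
      show (1 : ZMod p) * i - 2 * i = -i by ring, vv_neg]
  have hc1 : classInner F (oneChar G : G → ℂ) = 0 := by
    have hne : A.base.gal 1 ≠ A.base.gal b := fun e => by
      rcases (A.gal_eq_iff 1 b).1 e with e' | e' <;> have e'' := congrArg Units.val e'
      · rw [hb, Units.val_one] at e''
        exact one_ne_zero (show (1 : ZMod p) = 0 by linear_combination e'')
      · rw [hb, Units.val_neg, Units.val_one] at e''
        exact h3 (by linear_combination e'')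
    rw [← classInner_of_ne hne]
    simp only [classInner, hFd, oneChar_apply, map_one, mul_one]
  obtain ⟨c, hc⟩ := exists_nat_classInner hFch θ
  choose R hR using exists_nat_classInner hFch
  -- the coefficients on the family
  have hco : ∀ k : (ZMod p)ˣ, classInner F (X k : G → ℂ) =
      (c : ℂ) + (δ : ℂ) * (ind (3 : ZMod p) k + ind (1 : ZMod p) k) := by
    have hp0 : (2 * (p : ℂ)) ≠ 0 := mul_ne_zero two_ne_zero (Nat.cast_ne_zero.2 hpr.out.ne_zero)
    have hS : ∀ k : (ZMod p)ˣ, ∑ i : (ZMod p)ˣ, F (upow u (i : ZMod p)) * vv p ((i : ZMod p) * k) =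
        2 * (p : ℂ) * (ind (3 : ZMod p) k + ind (1 : ZMod p) k) - 8 := by
      intro k
      rw [Finset.sum_congr rfl fun (i : (ZMod p)ˣ) _ => by rw [hFu _ i.ne_zero, add_mul],
        Finset.sum_add_distrib, sum_units_vv_mul]
      have e : ∀ i : (ZMod p)ˣ, vv p (i : ZMod p) = vv p ((i : ZMod p) * 1) := fun i => by rw [mul_one]
      simp only [e]
      rw [sum_units_vv_mul]
      have hind : ∀ d : ZMod p, d ≠ 0 → (2 * (p : ℂ)) * ind d k =
          (if d + (k : ZMod p) = 0 then 2 * (p : ℂ) else 0) +
            if d = (k : ZMod p) then 2 * (p : ℂ) else 0 := by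
        intro d hd
        simp only [ind]
        by_cases h : d = (k : ZMod p)
        · rw [if_pos (Or.inl h.symm), if_pos h, if_neg, mul_one, zero_add]
          intro e
          rw [← h, ← two_mul] at e
          exact mul_ne_zero h2 hd e
        · by_cases h' : d + (k : ZMod p) = 0
          · rw [if_pos (Or.inr (by linear_combination h')), if_pos h', if_neg h, mul_one, add_zero]
          · rw [if_neg, if_neg h', if_neg h, mul_zero, add_zero]
            rintro (e | e)
            · exact h e.symm
            · exact h' (by linear_combination e)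
      rw [mul_add, hind 3 h3, hind 1 one_ne_zero]
      ring
    have hdiff : ∀ k, classInner F (X k : G → ℂ) - (δ : ℂ) * (ind (3 : ZMod p) k + ind (1 : ZMod p) k) =
        classInner F (X 1 : G → ℂ) - (δ : ℂ) * (ind (3 : ZMod p) 1 + ind (1 : ZMod p) 1) := by
      intro k
      have h := Pr.coeff_sub hF hZ k 1
      simp only [mul_sub, Finset.sum_sub_distrib, hS] at h
      refine mul_left_cancel₀ hp0 ?_
      linear_combination h
    set C := classInner F (X 1 : G → ℂ) - (δ : ℂ) * (ind (3 : ZMod p) 1 + ind (1 : ZMod p) 1)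
    have h := Pr.expand_upow hF hZ (i := 1) one_ne_zero
    rw [hc1, hc, hFu 1 one_ne_zero,
      Finset.sum_congr rfl (g := fun k : (ZMod p)ˣ => C * δ * vv p ((k : ZMod p) * 1) +
        ((δ : ℂ) * δ) * (ind (3 : ZMod p) k * vv p (k : ZMod p) + ind (1 : ZMod p) k * vv p (k : ZMod p))) fun k _ => by
        rw [show classInner F (X k : G → ℂ) = C + (δ : ℂ) * (ind (3 : ZMod p) k + ind (1 : ZMod p) k) by
          linear_combination hdiff k, mul_one]
        ring,
      Finset.sum_add_distrib, ← Finset.mul_sum, ← Finset.mul_sum, Finset.sum_add_distrib,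
      sum_units_vv_self one_ne_zero, sum_ind_mul h3 h5 (vv p), sum_ind_mul one_ne_zero h5 (vv p),
      vv_neg, vv_neg, Pr.delta_mul_self, one_mul] at h
    intro k
    have hC : C = c := mul_right_cancel₀ Pr.delta_ne_zero (by linear_combination (1 / 2 : ℂ) * h)
    linear_combination hdiff k + hC
  refine ⟨c, R, fun g hg => ?_, ?_⟩
  · have h := Pr.expand_regular hF hZ hg
    rw [hc1, hc, Finset.sum_congr rfl fun k _ => hco k, Finset.sum_add_distrib, Finset.sum_const,
      Finset.card_univ, ZMod.card_units, nsmul_eq_mul, Nat.cast_sub hpr.out.pos, ← Finset.mul_sum,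
      Finset.sum_add_distrib] at h
    have e := fun d (hd : d ≠ 0) => sum_ind_mul (p := p) (c := d) hd h5 fun _ => (1 : ℂ)
    simp only [mul_one] at e
    rw [e 3 h3, e 1 one_ne_zero, show F g = (ζ : G → ℂ) g * conj ((ζ : G → ℂ) g) by
      simp only [hFd, A.base.gal_regular _ hg]] at h
    simp only [hR] at h
    rw [h]
    push_cast
    ring
  · obtain ⟨n, hn⟩ := exists_nat_classInner hFch (X 1)
    rw [hco] at hn
    have h13 : ¬ ((1 : ZMod p) = 3 ∨ (1 : ZMod p) = -3) := by
      rintro (e | e)
      · exact h2 (by linear_combination -e)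
      · exact h4 (by linear_combination e)
    simp only [ind, Units.val_one, if_neg h13, true_or, if_true, zero_add,
      mul_one] at hn
    have hn' : (c : ℤ) + δ = n := by
      apply Int.cast_injective (α := ℂ)
      push_cast
      exact hn
    omega

end Princ

end CfsgLib.DegPSubTwo
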